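import Cfsg.Agent.Lib.Helper46.BSW0
import Cfsg.Agent.Lib.Helper4.CharExp2
import Cfsg.Agent.Lib.Helper35.Abel

/-!
# S3282, piece AB: irreducible characters of a finite abelian group
-/

set_option autoImplicit false

namespace Cfsg.Agent.Lib.Helper46.BSW

open Cfsg Cfsg.Agent.Lib.Helper4
open scoped ComplexConjugate

universe u

section AB
variable {X : Type u} [Group X] [Finite X]

theorem cbar_cbar (l : IrrCharacter X) : cbar (cbar l) = l := by
  apply Subtype.ext
  funext x
  show conj (conj ((l : X → ℂ) x)) = _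
  exact Complex.conj_conj _

theorem cbar_triv : cbar (trivIrr : IrrCharacter X) = trivIrr := by
  apply Subtype.ext
  funext x
  show conj (1 : ℂ) = 1
  exact map_one _

theorem ab_lin (hab : ∀ a b : X, a * b = b * a) (l : IrrCharacter X) :
    (l : X → ℂ) 1 = 1 ∧ ∀ a b : X, (l : X → ℂ) (a * b) = (l : X → ℂ) a * (l : X → ℂ) b :=
  ⟨Cfsg.Agent.Lib.Helper35.irr_one_of_comm hab l, Cfsg.Agent.Lib.Helper35.irr_mul_of_comm hab l⟩

theorem ab_inv (hab : ∀ a b : X, a * b = b * a) (l : IrrCharacter X) (x : X) :
    (l : X → ℂ) x⁻¹ = conj ((l : X → ℂ) x) := irr_inv l x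

theorem ab_sq (hab : ∀ a b : X, a * b = b * a) (l : IrrCharacter X) (x : X) (hx : x * x = 1) :
    (l : X → ℂ) x = 1 ∨ (l : X → ℂ) x = -1 := by
  have h := (ab_lin hab l).2 x x
  rw [hx, (ab_lin hab l).1] at h
  have h2 : ((l : X → ℂ) x - 1) * ((l : X → ℂ) x + 1) = 0 := by
    have : ((l : X → ℂ) x - 1) * ((l : X → ℂ) x + 1) = (l : X → ℂ) x * (l : X → ℂ) x - 1 := by
      ring
    rw [this, ← h, sub_self]
  rcases mul_eq_zero.mp h2 with h3 | h3
  · left; exact sub_eq_zero.mp h3
  · right; exact eq_neg_of_add_eq_zero_left h3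

theorem ab_card (hab : ∀ a b : X, a * b = b * a) : Nat.card (IrrCharacter X) = Nat.card X := by
  let _ : Fintype X := Fintype.ofFinite X
  rw [card_irr, Cfsg.Agent.Lib.Helper35.card_conjClasses_of_comm hab]

theorem ab_sum [Fintype (IrrCharacter X)] (hab : ∀ a b : X, a * b = b * a) (x : X) (hx : x ≠ 1) :
    ∑ l : IrrCharacter X, (l : X → ℂ) x = 0 := by
  classical
  let _ : Fintype X := Fintype.ofFinite X
  have h := col_orth_one (G := X) x
  rw [if_neg hx] at h
  rw [← h]
  refine Finset.sum_congr rfl fun l _ => ?_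
  rw [(ab_lin hab l).1, mul_one]

/-- The sum of the values of all irreducible characters of an abelian group at a point. -/
private theorem ab_sum_all [Fintype (IrrCharacter X)] [DecidableEq X]
    (hab : ∀ a b : X, a * b = b * a) (x : X) :
    ∑ l : IrrCharacter X, (l : X → ℂ) x = if x = 1 then (Nat.card X : ℂ) else 0 := by
  by_cases hx : x = 1
  · subst hx
    rw [if_pos rfl]
    rw [Finset.sum_congr rfl (fun l _ => (ab_lin hab l).1), Finset.sum_const, Finset.card_univ,
      nsmul_eq_mul, mul_one, ← Nat.card_eq_fintype_card, ab_card hab]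
  · rw [if_neg hx]
    exact ab_sum hab x hx

/-- The sum of the values of a character over the group. -/
private theorem ab_sum_group [Fintype X] [DecidableEq (IrrCharacter X)] (l : IrrCharacter X) :
    ∑ x : X, (l : X → ℂ) x = if l = trivIrr then (Nat.card X : ℂ) else 0 := by
  classical
  have h := classInner_irr l (trivIrr : IrrCharacter X)
  unfold classInner at h
  have h2 : ∑ x : X, (l : X → ℂ) x * conj ((trivIrr : IrrCharacter X).1 x) =
      ∑ x : X, (l : X → ℂ) x := by
    refine Finset.sum_congr rfl fun x _ => ?_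
    rw [trivIrr_apply, map_one, mul_one]
  rw [h2] at h
  have hne : (Nat.card X : ℂ) ≠ 0 := card_ne_zero_complex
  by_cases hl : l = trivIrr
  · rw [if_pos hl] at h ⊢
    field_simp at h
    exact h
  · rw [if_neg hl] at h ⊢
    rcases mul_eq_zero.mp h with h3 | h3
    · exact absurd (inv_eq_zero.mp h3) hne
    · exact h3

theorem ab_indep [Fintype (IrrCharacter X)] (hab : ∀ a b : X, a * b = b * a)
    (β : IrrCharacter X → ℂ) (h0 : β trivIrr = 0)
    (h : ∀ x : X, x ≠ 1 → ∑ l : IrrCharacter X, β l * (l : X → ℂ) x = 0) : ∀ l, β l = 0 := by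
  classical
  let _ : Fintype X := Fintype.ofFinite X
  -- the value at 1 vanishes as well
  have hsum : ∑ x : X, ∑ l : IrrCharacter X, β l * (l : X → ℂ) x = 0 := by
    rw [Finset.sum_comm]
    refine Finset.sum_eq_zero fun l _ => ?_
    rw [← Finset.mul_sum, ab_sum_group l]
    by_cases hl : l = trivIrr
    · rw [hl, h0, zero_mul]
    · rw [if_neg hl, mul_zero]
  have h1 : ∑ l : IrrCharacter X, β l * (l : X → ℂ) 1 = 0 := by
    rw [← hsum]
    symm
    exact Finset.sum_eq_single_of_mem (1 : X) (Finset.mem_univ _) (fun x _ hx => h x hx)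
  have hall : ∀ x : X, ∑ l : IrrCharacter X, β l * (l : X → ℂ) x = 0 := by
    intro x
    by_cases hx : x = 1
    · rw [hx]; exact h1
    · exact h x hx
  have hfun : ∑ l : IrrCharacter X, β l • (l : X → ℂ) = 0 := by
    funext x
    simp only [Finset.sum_apply, Pi.smul_apply, smul_eq_mul, Pi.zero_apply]
    exact hall x
  exact Fintype.linearIndependent_iff.mp irr_linearIndependent β hfun

theorem ab_real (hab : ∀ a b : X, a * b = b * a) :
    Nat.card {l : IrrCharacter X // cbar l = l} = Nat.card {x : X // x * x = 1} := by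
  classical
  let _ : Fintype X := Fintype.ofFinite X
  have hfin : Finite (IrrCharacter X) := irr_finite
  let _ : Fintype (IrrCharacter X) := Fintype.ofFinite _
  have hne : (Nat.card X : ℂ) ≠ 0 := card_ne_zero_complex
  rw [Nat.card_eq_fintype_card, Nat.card_eq_fintype_card, Fintype.card_subtype,
    Fintype.card_subtype]
  have key : ((Finset.univ.filter (fun l : IrrCharacter X => cbar l = l)).card : ℂ) =
      ((Finset.univ.filter (fun x : X => x * x = 1)).card : ℂ) := by
    rw [← Finset.sum_boole, ← Finset.sum_boole]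
    have e1 : ∀ l : IrrCharacter X, (if cbar l = l then (1 : ℂ) else 0) =
        (Nat.card X : ℂ)⁻¹ * ∑ x : X, (l : X → ℂ) (x * x) := by
      intro l
      have h := classInner_irr l (cbar l)
      unfold classInner at h
      have h2 : ∑ x : X, (l : X → ℂ) x * conj ((cbar l : X → ℂ) x) =
          ∑ x : X, (l : X → ℂ) (x * x) := by
        refine Finset.sum_congr rfl fun x _ => ?_
        rw [cbar_apply, Complex.conj_conj, (ab_lin hab l).2]
      rw [h2] at h
      rw [h]
      by_cases hl : cbar l = l
      · rw [if_pos hl, if_pos hl.symm]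
      · rw [if_neg hl, if_neg (fun h' => hl h'.symm)]
    rw [Finset.sum_congr rfl (fun l _ => e1 l), ← Finset.mul_sum, Finset.sum_comm]
    rw [Finset.sum_congr rfl (fun x _ => ab_sum_all hab (x * x)), Finset.mul_sum]
    refine Finset.sum_congr rfl fun x _ => ?_
    by_cases hx : x * x = 1
    · rw [if_pos hx, if_pos hx, inv_mul_cancel₀ hne]
    · rw [if_neg hx, if_neg hx, mul_zero]
  exact_mod_cast key

end AB

end Cfsg.Agent.Lib.Helper46.BSW
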