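import Mathlib
import Cfsg.Prelude.Def_Classical
import Cfsg.Agent.Lib.Helper18.UEDefs

/-!
# Project UE (helper18, S2335): piece BLOCK

Block identities for `uB`, `dB` and conjugation of Hermitian matrices.
-/

set_option autoImplicit false

namespace Cfsg.Agent.Lib.Helper18.UE

open Matrix

universe u

variable {F : Type u} [Field F] {m : ℕ}

theorem uB_add (H H' : Matrix (Fin m) (Fin m) F) : uB (H + H') = uB H * uB H' := by
  unfold uB
  rw [fromBlocks_multiply]
  congr 1
  · simp
  · simp [add_comm]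
  · simp
  · simp

theorem uB_zero : uB (0 : Matrix (Fin m) (Fin m) F) = 1 := by
  unfold uB
  exact fromBlocks_one

theorem herm_conj (σ : F →+* F) (hσ : ∀ x, σ (σ x) = x) (A : Matrix (Fin m) (Fin m) F)
    {H : Matrix (Fin m) (Fin m) F} (hH : IsHerm σ H) : IsHerm σ (A * H * hconj σ A) := by
  unfold IsHerm
  rw [hconj_mul, hconj_mul, hconj_hconj σ hσ, show hconj σ H = H from hH, Matrix.mul_assoc]

theorem dB_mul_uB (σ : F →+* F) (g : SpecialLinearGroup (Fin m) F)
    (H : Matrix (Fin m) (Fin m) F) :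
    dB σ g * uB H =
      uB ((g : Matrix (Fin m) (Fin m) F) * H * hconj σ (g : Matrix (Fin m) (Fin m) F)) *
        dB σ g := by
  have h0 : ((g⁻¹ : SpecialLinearGroup (Fin m) F) : Matrix (Fin m) (Fin m) F) *
      (g : Matrix (Fin m) (Fin m) F) = 1 := by
    exact congrArg Subtype.val (inv_mul_cancel g)
  have h1 : hconj σ (g : Matrix (Fin m) (Fin m) F) *
      hconj σ ((g⁻¹ : SpecialLinearGroup (Fin m) F) : Matrix (Fin m) (Fin m) F) = 1 := by
    rw [← hconj_mul, h0, hconj_one]
  unfold dB uB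
  rw [fromBlocks_multiply, fromBlocks_multiply]
  congr 1
  · rw [Matrix.mul_one, Matrix.zero_mul, add_zero, Matrix.one_mul, Matrix.mul_zero, add_zero]
  · rw [Matrix.zero_mul, add_zero, Matrix.mul_zero, zero_add, Matrix.mul_assoc _ _ (hconj σ _),
      h1, Matrix.mul_one]
  · rw [Matrix.zero_mul, Matrix.mul_zero, Matrix.zero_mul, Matrix.mul_zero]
  · rw [Matrix.zero_mul, Matrix.mul_one, zero_add, Matrix.zero_mul, Matrix.one_mul, zero_add]

end Cfsg.Agent.Lib.Helper18.UE
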