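import Cfsg.Agent.Lib.Helper46.BSW0
import Cfsg.Agent.Lib.Helper4.CharExp2
import Cfsg.Agent.Lib.Helper90.BSWAB

/-!
# S3282, piece EXC: the exceptional shape is impossible
-/

set_option autoImplicit false
set_option linter.unusedSimpArgs false

namespace Cfsg.Agent.Lib.Helper46.BSW

open Cfsg Cfsg.Agent.Lib.Helper4
open scoped ComplexConjugate

universe u

variable {G : Type u} [Group G]

open scoped Classical in
private theorem exc_sum_ind {I : Type*} [Fintype I] (F : I → ℂ) (A : I) (x : ℂ) :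
    ∑ i, F i * (x * (if i = A then 1 else 0)) = x * F A := by
  rw [Finset.sum_eq_single A]
  · rw [if_pos rfl]; ring
  · intro i _ hi; rw [if_neg hi]; ring
  · intro hA; exact absurd (Finset.mem_univ A) hA

open scoped Classical in
private theorem exc_sum_row3 {I : Type*} [Fintype I] (F : I → ℂ) (r : I → ℤ) (A B C : I)
    (x y : ℤ)
    (hr : ∀ i, r i = (if i = A then 1 else 0) + x * (if i = B then 1 else 0)
      + y * (if i = C then 1 else 0)) :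
    ∑ i, F i * (r i : ℂ) = F A + (x : ℂ) * F B + (y : ℂ) * F C := by
  have e : ∀ i, F i * (r i : ℂ) = F i * (1 * (if i = A then 1 else 0))
      + F i * ((x : ℂ) * (if i = B then 1 else 0))
      + F i * ((y : ℂ) * (if i = C then 1 else 0)) := by
    intro i
    rw [hr i]
    push_cast
    ring
  rw [Finset.sum_congr rfl (fun i _ => e i), Finset.sum_add_distrib, Finset.sum_add_distrib,
    exc_sum_ind, exc_sum_ind, exc_sum_ind, one_mul]

theorem exc_false [Fintype G] [Fintype (IrrCharacter G)] {t s : G} {K : Subgroup G}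
    (h : Setup t s K) [Fintype (IrrCharacter K)] (c : IrrCharacter K → IrrCharacter G → ℤ)
    (hc : IndData K c) (l₀ : IrrCharacter K) (hl₀ : l₀ ≠ trivIrr) (hl₀r : cbar l₀ = l₀)
    (hreal : ∀ l : IrrCharacter K, cbar l = l → l = trivIrr ∨ l = l₀)
    (hsc : ∀ l : IrrCharacter K, l ≠ trivIrr →
      (∑ χ : IrrCharacter G, (χ : G → ℂ) t ^ 2 * (c l χ : ℂ) / (χ : G → ℂ) 1) *
        ((Subgroup.centralizer ({t} : Set G)).index : ℂ) = 2 * (Nat.card K : ℂ) ^ 2)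
    (l₁ l₂ : IrrCharacter K) (Y W₁ W₂ W₃ : IrrCharacter G) (b c₁ c₂ c₃ : ℤ)
    (hE : Exc c trivIrr trivIrr l₀ cbar l₁ l₂ Y W₁ W₂ W₃ b c₁ c₂ c₃) : False := by
  classical
  have hab : ∀ a b : K, a * b = b * a := fun a b => Subtype.ext (h.hKab a a.2 b b.2)
  have ht1 : t ≠ 1 := by
    intro h1
    have h2 := h.ht
    rw [h1, orderOf_one] at h2
    norm_num at h2
  have htt : t * t = 1 := by
    have h2 := pow_orderOf_eq_one t
    rw [h.ht, pow_two] at h2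
    exact h2
  obtain ⟨tK, htK⟩ : ∃ tK : K, tK = ⟨t, h.htK⟩ := ⟨_, rfl⟩
  have htKv : (tK : G) = t := by rw [htK]
  have htK1 : tK ≠ 1 := fun h1 => ht1 (by rw [← htKv, h1]; rfl)
  have htKsq : tK * tK = 1 := Subtype.ext (by rw [Subgroup.coe_mul, htKv]; exact htt)
  have hτ : ∀ l : IrrCharacter K, (l : K → ℂ) tK = 1 ∨ (l : K → ℂ) tK = -1 :=
    fun l => ab_sq hab l tK htKsq
  have hbarτ : ∀ l : IrrCharacter K, (cbar l : K → ℂ) tK = (l : K → ℂ) tK := by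
    intro l
    rw [cbar_apply]
    rcases hτ l with h1 | h1 <;> rw [h1] <;> simp
  -- the six characters of `K`
  obtain ⟨h1t, h10⟩ := hE.hl₁
  obtain ⟨h2t, h20, h21, h21b⟩ := hE.hl₂
  have hb1t : cbar l₁ ≠ trivIrr := fun e => h1t (by rw [← cbar_cbar l₁, e, cbar_triv])
  have hb10 : cbar l₁ ≠ l₀ := fun e => h10 (by rw [← cbar_cbar l₁, e, hl₀r])
  have hb11 : cbar l₁ ≠ l₁ := fun e => (hreal l₁ e).elim h1t h10
  have hb2t : cbar l₂ ≠ trivIrr := fun e => h2t (by rw [← cbar_cbar l₂, e, cbar_triv])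
  have hb20 : cbar l₂ ≠ l₀ := fun e => h20 (by rw [← cbar_cbar l₂, e, hl₀r])
  have hb21 : cbar l₂ ≠ l₁ := fun e => h21b (by rw [← e, cbar_cbar])
  have hb21b : cbar l₂ ≠ cbar l₁ := fun e => h21 (by rw [← cbar_cbar l₂, e, cbar_cbar])
  have hb22 : cbar l₂ ≠ l₂ := fun e => (hreal l₂ e).elim h2t h20
  have huniv : (Finset.univ : Finset (IrrCharacter K)) =
      {trivIrr, l₀, l₁, cbar l₁, l₂, cbar l₂} := by
    ext l
    simp only [Finset.mem_univ, Finset.mem_insert, Finset.mem_singleton, true_iff]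
    exact hE.all l
  have hsum6 : ∀ f : IrrCharacter K → ℂ, ∑ l, f l =
      f trivIrr + f l₀ + f l₁ + f (cbar l₁) + f l₂ + f (cbar l₂) := by
    intro f
    rw [huniv, Finset.sum_insert, Finset.sum_insert, Finset.sum_insert, Finset.sum_insert,
      Finset.sum_insert, Finset.sum_singleton]
    · ring
    all_goals
      simp only [Finset.mem_insert, Finset.mem_singleton, not_or]
      simp [hl₀, hl₀.symm, h1t, h1t.symm, h10, h10.symm, h2t, h2t.symm, h20, h20.symm, h21,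
        h21.symm, h21b, h21b.symm, hb1t, hb1t.symm, hb10, hb10.symm, hb11, hb11.symm, hb2t,
        hb2t.symm, hb20, hb20.symm, hb21, hb21.symm, hb21b, hb21b.symm, hb22, hb22.symm]
  have htrivK : ((trivIrr : IrrCharacter K) : K → ℂ) tK = 1 := rfl
  have hS := ab_sum hab tK htK1
  rw [hsum6, hbarτ l₁, hbarτ l₂, htrivK] at hS
  have hτ0 : (l₀ : K → ℂ) tK = -1 ∧ (l₂ : K → ℂ) tK = -(l₁ : K → ℂ) tK := by
    rcases hτ l₀ with a | a <;> rcases hτ l₁ with b' | b' <;> rcases hτ l₂ with c' | c' <;>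
      rw [a, b', c'] at hS <;> norm_num at hS <;> simp [a, b', c']
  obtain ⟨hτ0, hτ2⟩ := hτ0
  -- the Fourier formula at `t`
  have hF : ∀ χ : IrrCharacter G, (χ : G → ℂ) t =
      (c l₀ χ : ℂ) - 2 * (l₁ : K → ℂ) tK * ((c l₁ χ : ℂ) - (c l₂ χ : ℂ)) := by
    intro χ
    have h3 := hc.fourier χ tK htK1
    rw [hsum6, hc.triv_row, hc.bar, hc.bar, hbarτ, hbarτ, hτ0, hτ2, htKv] at h3
    rw [h3]
    push_cast
    ring
  -- entries of the matrix
  obtain ⟨hW1o, hW1Y⟩ := hE.hW₁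
  obtain ⟨hW2o, hW2Y, hW21⟩ := hE.hW₂
  obtain ⟨hW3o, hW3Y, hW31, hW32⟩ := hE.hW₃
  have hYo := hE.hY
  have c0W1 : c l₀ W₁ = c₁ := by rw [hE.row₀]; simp [hW1o, hW21.symm, hW31.symm]
  have c1W1 : c l₁ W₁ = c₁ := by rw [hE.row₁]; simp [hW1o, hW1Y]
  have c2W1 : c l₂ W₁ = 0 := by rw [hE.row₂]; simp [hW1o, hW21.symm, hW1Y]
  have c0W2 : c l₀ W₂ = c₂ := by rw [hE.row₀]; simp [hW2o, hW21, hW32.symm]
  have c1W2 : c l₁ W₂ = 0 := by rw [hE.row₁]; simp [hW2o, hW21, hW2Y]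
  have c2W2 : c l₂ W₂ = c₂ := by rw [hE.row₂]; simp [hW2o, hW2Y]
  have c0Y : c l₀ Y = 0 := by rw [hE.row₀]; simp [hYo, hW1Y.symm, hW2Y.symm, hW3Y.symm]
  have c1Y : c l₁ Y = b := by rw [hE.row₁]; simp [hYo, hW1Y.symm]
  have c2Y : c l₂ Y = b := by rw [hE.row₂]; simp [hYo, hW2Y.symm]
  have hW1t : (W₁ : G → ℂ) t = (c₁ : ℂ) * (1 - 2 * (l₁ : K → ℂ) tK) := by
    rw [hF, c0W1, c1W1, c2W1]; push_cast; ring
  have hW2t : (W₂ : G → ℂ) t = (c₂ : ℂ) * (1 + 2 * (l₁ : K → ℂ) tK) := by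
    rw [hF, c0W2, c1W2, c2W2]; push_cast; ring
  have hYt : (Y : G → ℂ) t = 0 := by
    rw [hF, c0Y, c1Y, c2Y]; push_cast; ring
  -- the structure-constant equations
  have hB1 := hsc l₁ h1t
  have hB2 := hsc l₂ h2t
  have eB : ∀ l, ∑ χ : IrrCharacter G, (χ : G → ℂ) t ^ 2 * (c l χ : ℂ) / (χ : G → ℂ) 1 =
      ∑ χ : IrrCharacter G, ((χ : G → ℂ) t ^ 2 / (χ : G → ℂ) 1) * (c l χ : ℂ) :=
    fun l => Finset.sum_congr rfl fun χ _ => by ring
  rw [eB, exc_sum_row3 _ _ _ _ _ _ _ hE.row₁, hW1t, hYt] at hB1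
  rw [eB, exc_sum_row3 _ _ _ _ _ _ _ hE.row₂, hW2t, hYt] at hB2
  -- the degree equations
  have hV1 := hc.vanish l₁ 1 (Or.inl rfl)
  have hV2 := hc.vanish l₂ 1 (Or.inl rfl)
  have eV : ∀ l, ∑ χ : IrrCharacter G, (c l χ : ℂ) * (χ : G → ℂ) 1 =
      ∑ χ : IrrCharacter G, (χ : G → ℂ) 1 * (c l χ : ℂ) :=
    fun l => Finset.sum_congr rfl fun χ _ => mul_comm _ _
  rw [eV, exc_sum_row3 _ _ _ _ _ _ _ hE.row₁] at hV1
  rw [eV, exc_sum_row3 _ _ _ _ _ _ _ hE.row₂] at hV2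
  have htrivG : ∀ g : G, ((trivIrr : IrrCharacter G) : G → ℂ) g = 1 := fun g => rfl
  rw [htrivG] at hB1 hB2 hV1 hV2
  obtain ⟨n₁, hn₁, hw₁⟩ := irr_one_nat W₁
  obtain ⟨n₂, hn₂, hw₂⟩ := irr_one_nat W₂
  rw [hw₁] at hB1 hV1
  rw [hw₂] at hB2 hV2
  have hn : ((Subgroup.centralizer ({t} : Set G)).index : ℂ) ≠ 0 :=
    Nat.cast_ne_zero.mpr Subgroup.index_ne_zero_of_finite
  have hBeq := mul_right_cancel₀ hn (hB1.trans hB2.symm)
  have hVeq : (c₁ : ℂ) * (n₁ : ℂ) = (c₂ : ℂ) * (n₂ : ℂ) := by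
    have := hV1.trans hV2.symm
    linear_combination this
  have hn₁' : (n₁ : ℂ) ≠ 0 := Nat.cast_ne_zero.mpr hn₁.ne'
  have hn₂' : (n₂ : ℂ) ≠ 0 := Nat.cast_ne_zero.mpr hn₂.ne'
  have hcn : c₁ = c₂ ∧ n₁ = n₂ := by
    rcases hE.hc₁ with a | a <;> rcases hE.hc₂ with a' | a' <;> rw [a, a'] at hVeq <;>
      push_cast at hVeq
    · refine ⟨by rw [a, a'], ?_⟩
      have : (n₁ : ℂ) = (n₂ : ℂ) := by linear_combination hVeq
      exact_mod_cast this
    · exfalso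
      have : ((n₁ + n₂ : ℕ) : ℂ) = 0 := by push_cast; linear_combination hVeq
      have h4 : n₁ + n₂ = 0 := by exact_mod_cast this
      omega
    · exfalso
      have : ((n₁ + n₂ : ℕ) : ℂ) = 0 := by push_cast; linear_combination -hVeq
      have h4 : n₁ + n₂ = 0 := by exact_mod_cast this
      omega
    · refine ⟨by rw [a, a'], ?_⟩
      have : (n₁ : ℂ) = (n₂ : ℂ) := by linear_combination -hVeq
      exact_mod_cast this
  obtain ⟨hcc, hnn⟩ := hcn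
  subst hcc
  subst hnn
  have hc1sq : (c₁ : ℂ) * (c₁ : ℂ) = 1 := by
    rcases hE.hc₁ with a | a <;> rw [a] <;> push_cast <;> ring
  have hc1ne : (c₁ : ℂ) ≠ 0 := by
    intro h0
    rw [h0, mul_zero] at hc1sq
    exact zero_ne_one hc1sq
  rcases hτ l₁ with a | a <;> rw [a] at hBeq <;> field_simp at hBeq <;>
    ring_nf at hBeq <;> simp_all

end Cfsg.Agent.Lib.Helper46.BSW
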