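import Cfsg.Agent.Lib.Helper47.S76Defs

set_option autoImplicit false

/-! S5976 piece NORMODD: an element of odd order normalising `F + Fθ` commutes with `θ`. -/

universe u

namespace Cfsg.Agent.Lib.Helper90.S76NORMODD

open Matrix Polynomial Cfsg.Agent.Lib.Helper47 Cfsg.Agent.Lib.Helper47.S76

variable {F : Type u} [Field F]

theorem normodd_anti_pow {n : Type*} [Fintype n] [DecidableEq n] (θ y : Matrix n n F)
    (h : y * θ = -(θ * y)) (k : ℕ) : y ^ k * θ = (-1 : F) ^ k • (θ * y ^ k) := by
  induction k with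
  | zero => simp
  | succ k ih =>
    rw [pow_succ, mul_assoc, h, mul_neg, ← mul_assoc, ih, smul_mul_assoc, mul_assoc, pow_succ,
      mul_neg_one, neg_smul]

theorem comm_of_normalize_odd (d : ℕ) (θ y yi : Matrix (Fin d ⊕ Fin d) (Fin d ⊕ Fin d) F) (δ : F)
    (h2 : (2 : F) ≠ 0) (hθ : θ * θ = δ • (1 : Matrix (Fin d ⊕ Fin d) (Fin d ⊕ Fin d) F))
    (hirr : ∀ c : F, c * c ≠ δ)
    (hns : ∀ c : F, θ ≠ c • (1 : Matrix (Fin d ⊕ Fin d) (Fin d ⊕ Fin d) F)) (hyi : y * yi = 1)
    (α β : F) (hy : y * θ * yi = α • (1 : Matrix (Fin d ⊕ Fin d) (Fin d ⊕ Fin d) F) + β • θ)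
    (r : ℕ) (hr : Odd r) (hyr : y ^ r = 1) : y * θ = θ * y := by
  have hyi' : yi * y = 1 := mul_eq_one_comm.1 hyi
  have hone : (1 : Matrix (Fin d ⊕ Fin d) (Fin d ⊕ Fin d) F) ≠ 0 := by
    intro h1
    apply hns 0
    rw [zero_smul, ← mul_one θ, h1, mul_zero]
  have hsq : (y * θ * yi) * (y * θ * yi) =
      δ • (1 : Matrix (Fin d ⊕ Fin d) (Fin d ⊕ Fin d) F) := by
    calc (y * θ * yi) * (y * θ * yi) = y * θ * (yi * y) * θ * yi := by simp only [mul_assoc]
      _ = y * (θ * θ) * yi := by rw [hyi', mul_one, mul_assoc y θ θ]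
      _ = δ • (1 : Matrix (Fin d ⊕ Fin d) (Fin d ⊕ Fin d) F) := by
        rw [hθ, mul_smul_comm, smul_mul_assoc, mul_one, hyi]
  rw [hy] at hsq
  have hexp : (α • (1 : Matrix (Fin d ⊕ Fin d) (Fin d ⊕ Fin d) F) + β • θ) *
      (α • (1 : Matrix (Fin d ⊕ Fin d) (Fin d ⊕ Fin d) F) + β • θ) =
      (α * α + β * β * δ) • (1 : Matrix (Fin d ⊕ Fin d) (Fin d ⊕ Fin d) F) +
        (2 * α * β) • θ := by
    simp only [add_mul, mul_add, smul_mul_assoc, mul_smul_comm, one_mul, mul_one, hθ, smul_smul]
    module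
  rw [hexp] at hsq
  have hkey : (2 * α * β) • θ =
      (δ - (α * α + β * β * δ)) • (1 : Matrix (Fin d ⊕ Fin d) (Fin d ⊕ Fin d) F) := by
    rw [sub_smul, ← hsq, add_sub_cancel_left]
  by_cases hab : 2 * α * β = 0
  · rw [hab, zero_smul] at hkey
    have hδ : δ - (α * α + β * β * δ) = 0 := by
      rcases smul_eq_zero.1 hkey.symm with h | h
      · exact h
      · exact absurd h hone
    have hδ0 : δ ≠ 0 := fun h0 => hirr 0 (by rw [h0, mul_zero])
    rcases mul_eq_zero.1 hab with h | hβ
    · have hα : α = 0 := by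
        rcases mul_eq_zero.1 h with h | h
        · exact absurd h h2
        · exact h
      subst hα
      have hβ2 : β * β = 1 := by
        have h1 : (β * β - 1) * δ = 0 := by linear_combination -hδ
        rcases mul_eq_zero.1 h1 with h | h
        · exact sub_eq_zero.1 h
        · exact absurd h hδ0
      rw [zero_smul, zero_add] at hy
      rcases mul_self_eq_one_iff.1 hβ2 with h1 | h1
      · rw [h1, one_smul] at hy
        calc y * θ = y * θ * (yi * y) := by rw [hyi', mul_one]
          _ = (y * θ * yi) * y := by simp only [mul_assoc]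
          _ = θ * y := by rw [hy]
      · rw [h1, neg_smul, one_smul] at hy
        have hanti : y * θ = -(θ * y) := by
          calc y * θ = y * θ * (yi * y) := by rw [hyi', mul_one]
            _ = (y * θ * yi) * y := by simp only [mul_assoc]
            _ = -(θ * y) := by rw [hy, neg_mul]
        have hp := normodd_anti_pow θ y hanti r
        rw [hyr, one_mul, mul_one, hr.neg_one_pow, neg_smul, one_smul] at hp
        have h2θ : (2 : F) • θ = 0 := by
          rw [two_smul]
          nth_rewrite 1 [hp]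
          exact neg_add_cancel θ
        rcases smul_eq_zero.1 h2θ with h | h
        · exact absurd h h2
        · exact absurd (by rw [h, zero_smul]) (hns 0)
    · subst hβ
      exact absurd (by linear_combination -hδ) (hirr α)
  · exfalso
    apply hns ((2 * α * β)⁻¹ * (δ - (α * α + β * β * δ)))
    rw [← smul_smul, ← hkey, smul_smul, inv_mul_cancel₀ hab, one_smul]

end Cfsg.Agent.Lib.Helper90.S76NORMODD
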