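import Mathlib
import Cfsg.Agent.Lib.Helper48.QADefs

/-!
# Project QA (helper48, S2787): piece QA-NIL

In a finite ring with `p = 0`, if `N² = M² = 0` and `N M` is nilpotent then the group generated
by the units `1 + N`, `1 + M` is a `p`-group.  Proof: the right ideals `U_i` generated by the two
alternating words of length `i` in `N`, `M` form a descending chain ending in `0`; the elements
`s` of the group have `(s - 1) U_i ⊆ U_(i+1)`, so `s - 1` is nilpotent.
-/

set_option autoImplicit false

namespace Cfsg.Agent.Lib.Helper48.QA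

/-- the two alternating words of length `i`: `(N M N ⋯, M N M ⋯)` -/
def qanil_seq {R : Type*} [Ring R] (N M : R) : ℕ → R × R
  | 0 => (1, 1)
  | (i + 1) => (N * (qanil_seq N M i).2, M * (qanil_seq N M i).1)

/-- the right ideal generated by the two alternating words of length `i` -/
def qanil_U {R : Type*} [Ring R] (N M : R) (i : ℕ) (u : R) : Prop :=
  ∃ r r' : R, u = (qanil_seq N M i).1 * r + (qanil_seq N M i).2 * r'

/-- the elements shifting the filtration -/
def qanil_J {R : Type*} [Ring R] (N M : R) (c : R) : Prop :=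
  ∀ i u, qanil_U N M i u → qanil_U N M (i + 1) (c * u)

theorem qanil_U_add {R : Type*} [Ring R] (N M : R) (i : ℕ) (u v : R)
    (hu : qanil_U N M i u) (hv : qanil_U N M i v) : qanil_U N M i (u + v) := by
  obtain ⟨r, r', rfl⟩ := hu
  obtain ⟨s, s', rfl⟩ := hv
  exact ⟨r + s, r' + s', by simp only [mul_add]; abel⟩

theorem qanil_U_zero {R : Type*} [Ring R] (N M : R) (i : ℕ) : qanil_U N M i 0 :=
  ⟨0, 0, by simp⟩

theorem qanil_U_desc {R : Type*} [Ring R] (N M : R) (i : ℕ) (u : R)
    (hu : qanil_U N M (i + 1) u) : qanil_U N M i u := by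
  have PL : ∀ j : ℕ, ∃ l l' : R, (qanil_seq N M (j + 1)).1 = (qanil_seq N M j).1 * l ∧
      (qanil_seq N M (j + 1)).2 = (qanil_seq N M j).2 * l' := by
    intro j
    induction j with
    | zero =>
      refine ⟨N, M, ?_, ?_⟩
      · show N * (1 : R) = 1 * N
        rw [mul_one, one_mul]
      · show M * (1 : R) = 1 * M
        rw [mul_one, one_mul]
    | succ j ih =>
      obtain ⟨l, l', h1, h2⟩ := ih
      refine ⟨l', l, ?_, ?_⟩
      · show N * (qanil_seq N M (j + 1)).2 = N * (qanil_seq N M j).2 * l'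
        rw [h2, mul_assoc]
      · show M * (qanil_seq N M (j + 1)).1 = M * (qanil_seq N M j).1 * l
        rw [h1, mul_assoc]
  obtain ⟨l, l', h1, h2⟩ := PL i
  obtain ⟨r, r', rfl⟩ := hu
  exact ⟨l * r, l' * r', by rw [h1, h2, mul_assoc, mul_assoc]⟩

theorem qanil_J_N {R : Type*} [Ring R] (N M : R) (hN : N * N = 0) : qanil_J N M N := by
  intro i u hu
  obtain ⟨r, r', rfl⟩ := hu
  cases i with
  | zero =>
    refine ⟨r + r', 0, ?_⟩
    show N * ((1 : R) * r + 1 * r') = N * 1 * (r + r') + M * 1 * 0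
    rw [one_mul, one_mul, mul_one, mul_zero, add_zero]
  | succ j =>
    refine ⟨r', 0, ?_⟩
    have e : N * (qanil_seq N M (j + 1)).1 = 0 := by
      show N * (N * (qanil_seq N M j).2) = 0
      rw [← mul_assoc, hN, zero_mul]
    show N * ((qanil_seq N M (j + 1)).1 * r + (qanil_seq N M (j + 1)).2 * r')
      = N * (qanil_seq N M (j + 1)).2 * r' + (qanil_seq N M (j + 1 + 1)).2 * 0
    rw [mul_add, ← mul_assoc, e, zero_mul, zero_add, mul_zero, add_zero, mul_assoc]

theorem qanil_J_M {R : Type*} [Ring R] (N M : R) (hM : M * M = 0) : qanil_J N M M := by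
  intro i u hu
  obtain ⟨r, r', rfl⟩ := hu
  cases i with
  | zero =>
    refine ⟨0, r + r', ?_⟩
    show M * ((1 : R) * r + 1 * r') = N * 1 * 0 + M * 1 * (r + r')
    rw [one_mul, one_mul, mul_zero, zero_add, mul_one]
  | succ j =>
    refine ⟨0, r, ?_⟩
    have e : M * (qanil_seq N M (j + 1)).2 = 0 := by
      show M * (M * (qanil_seq N M j).1) = 0
      rw [← mul_assoc, hM, zero_mul]
    show M * ((qanil_seq N M (j + 1)).1 * r + (qanil_seq N M (j + 1)).2 * r')
      = (qanil_seq N M (j + 1 + 1)).1 * 0 + M * (qanil_seq N M (j + 1)).1 * r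
    rw [mul_add, ← mul_assoc M (qanil_seq N M (j + 1)).2, e, zero_mul, add_zero, mul_zero,
      zero_add, mul_assoc]

theorem qanil_J_mul {R : Type*} [Ring R] (N M : R) (c d : R) (hc : qanil_J N M c)
    (hd : qanil_J N M d) : qanil_J N M (c * d + c + d) := by
  intro i u hu
  have h1 := hd i u hu
  have h2 := qanil_U_desc N M (i + 1) _ (hc (i + 1) _ h1)
  have h3 := hc i u hu
  have e : (c * d + c + d) * u = c * (d * u) + c * u + d * u := by
    rw [add_mul, add_mul, mul_assoc]
  rw [e]
  exact qanil_U_add N M _ _ _ (qanil_U_add N M _ _ _ h2 h3) h1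

theorem qanil_J_pow {R : Type*} [Ring R] (N M : R) (c : R) (hc : qanil_J N M c) (n : ℕ) :
    qanil_U N M n (c ^ n) := by
  have h : ∀ n : ℕ, qanil_U N M n (c ^ n * 1) := by
    intro n
    induction n with
    | zero =>
      refine ⟨1, 0, ?_⟩
      show c ^ 0 * 1 = (1 : R) * 1 + 1 * 0
      rw [pow_zero, mul_zero, add_zero]
    | succ n ih =>
      have h' := hc n _ ih
      rwa [← mul_assoc, ← pow_succ'] at h'
  have h' := h n
  rwa [mul_one] at h'

theorem qanil_seq_zero {R : Type*} [Ring R] (N M : R) (k : ℕ) (hk : (N * M) ^ k = 0) :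
    qanil_seq N M (2 * k + 1) = (0, 0) := by
  have S1 : ∀ j i : ℕ, (qanil_seq N M (i + 2 * j)).1 = (N * M) ^ j * (qanil_seq N M i).1 := by
    intro j
    induction j with
    | zero => intro i; simp
    | succ j ih =>
      intro i
      have e : i + 2 * (j + 1) = (i + 2 * j) + 1 + 1 := by omega
      rw [e]
      show N * (M * (qanil_seq N M (i + 2 * j)).1) = _
      rw [ih i, pow_succ']
      simp only [mul_assoc]
  have ha : ∀ i : ℕ, (qanil_seq N M (i + 2 * k)).1 = 0 := by
    intro i
    rw [S1 k i, hk, zero_mul]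
  have e1 : (qanil_seq N M (2 * k + 1)).1 = 0 := by
    have h := ha 1
    rwa [add_comm] at h
  have e2 : (qanil_seq N M (2 * k + 1)).2 = 0 := by
    show M * (qanil_seq N M (2 * k)).1 = 0
    have h := ha 0
    rw [zero_add] at h
    rw [h, mul_zero]
  exact Prod.ext e1 e2

/-- QA-NIL -/
theorem pgroup_of_nilpotent {R : Type*} [Ring R] [Finite R] {p : ℕ} [Fact p.Prime]
    (hpR : (p : R) = 0) (N M : R) (hN : N * N = 0) (hM : M * M = 0) (hnil : IsNilpotent (N * M))
    (x y : Rˣ) (hx : (x : R) = 1 + N) (hy : (y : R) = 1 + M) :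
    IsPGroup p ↥(Subgroup.closure {x, y}) := by
  obtain ⟨k, hk⟩ := hnil
  have hseq := qanil_seq_zero N M k hk
  have hJ : ∀ s ∈ Subgroup.closure {x, y}, qanil_J N M ((s : R) - 1) := by
    have hmul : ∀ s t : Rˣ, qanil_J N M ((s : R) - 1) → qanil_J N M ((t : R) - 1) →
        qanil_J N M (((s * t : Rˣ) : R) - 1) := by
      intro s t hs ht
      have e : ((s * t : Rˣ) : R) - 1
          = ((s : R) - 1) * ((t : R) - 1) + ((s : R) - 1) + ((t : R) - 1) := by
        rw [Units.val_mul]
        noncomm_ring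
      rw [e]
      exact qanil_J_mul N M _ _ hs ht
    have hone : qanil_J N M (((1 : Rˣ) : R) - 1) := by
      intro i u _
      rw [Units.val_one, sub_self, zero_mul]
      exact qanil_U_zero N M _
    have hpow : ∀ (s : Rˣ), qanil_J N M ((s : R) - 1) →
        ∀ m : ℕ, qanil_J N M (((s ^ m : Rˣ) : R) - 1) := by
      intro s hs m
      induction m with
      | zero => rw [pow_zero]; exact hone
      | succ m ih => rw [pow_succ]; exact hmul _ _ ih hs
    intro s hs
    induction hs using Subgroup.closure_induction with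
    | mem z hz =>
      rcases hz with rfl | rfl
      · rw [hx, add_sub_cancel_left]
        exact qanil_J_N N M hN
      · rw [hy, add_sub_cancel_left]
        exact qanil_J_M N M hM
    | one => exact hone
    | mul a b _ _ ha hb => exact hmul a b ha hb
    | inv a _ ha =>
      have e : a⁻¹ = a ^ (orderOf a - 1) := by
        apply inv_eq_of_mul_eq_one_right
        rw [← pow_succ', Nat.sub_add_cancel (orderOf_pos a), pow_orderOf_eq_one]
      rw [e]
      exact hpow a ha _
  intro g
  obtain ⟨s, hs⟩ := g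
  obtain ⟨a, ha⟩ : ∃ a : R, a = (s : R) - 1 := ⟨_, rfl⟩
  have hJa : qanil_J N M a := ha ▸ hJ s hs
  have han : a ^ (2 * k + 1) = 0 := by
    obtain ⟨r, r', h⟩ := qanil_J_pow N M a hJa (2 * k + 1)
    rw [hseq] at h
    simpa using h
  rcases subsingleton_or_nontrivial R with hsub | hnt
  · refine ⟨0, ?_⟩
    apply Subtype.ext
    apply Units.ext
    exact Subsingleton.elim _ _
  · have hchar : CharP R p := (CharP.charP_iff_prime_eq_zero (Fact.out)).mpr hpR
    refine ⟨2 * k + 1, ?_⟩
    apply Subtype.ext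
    apply Units.ext
    show ((s ^ p ^ (2 * k + 1) : Rˣ) : R) = 1
    rw [Units.val_pow_eq_pow_val]
    have hs1 : (s : R) = 1 + a := by rw [ha]; abel
    rw [hs1, add_pow_char_pow_of_commute p (2 * k + 1) (Commute.one_left a), one_pow]
    have hz : a ^ p ^ (2 * k + 1) = 0 := by
      have hle : 2 * k + 1 ≤ p ^ (2 * k + 1) :=
        (Nat.lt_pow_self (Fact.out : p.Prime).one_lt).le
      exact pow_eq_zero_of_le hle han
    rw [hz, add_zero]

end Cfsg.Agent.Lib.Helper48.QA
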