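import Mathlib

/-!
# Project RL (helper48, S2343), piece DETONE

The determinant of a representation of a perfect group is trivial.
-/

set_option autoImplicit false

namespace Cfsg.Agent.Lib.Helper48.RL

-- piece RL-DETONE
theorem det_eq_one_of_perfect {G : Type*} [Group G] (hperf : commutator G = ⊤) {V : Type*}
    [AddCommGroup V] [Module ℂ V] (ρ : G →* (V →ₗ[ℂ] V)) (g : G) :
    LinearMap.det (ρ g) = 1 := by
  have h1 : g ∈ ((LinearMap.det.comp ρ).toHomUnits : G →* ℂˣ).ker := by
    apply Abelianization.commutator_subset_ker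
    rw [hperf]
    trivial
  rw [MonoidHom.mem_ker] at h1
  have h2 := congrArg (fun u : ℂˣ => (u : ℂ)) h1
  simpa [MonoidHom.coe_toHomUnits] using h2

end Cfsg.Agent.Lib.Helper48.RL
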