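import Cfsg.Agent.Lib.Helper90.AbIdxP
import Cfsg.Agent.Lib.Helper4.GrpAux

set_option autoImplicit false
set_option linter.deprecated false
set_option linter.unusedSectionVars false

namespace Cfsg.Agent.Lib.Helper90

open Cfsg Cfsg.FusionSystem

section AbIdxQ

variable {Ω : Type*} [Group Ω]

theorem four_comm {a u v w : Ω} (hau : a * u = u * a) (hav : a * v = v * a)
    (haw : a * w = w * a) (hvw : v * w = w * v) : a * u * v * w = (u * w) * (v * a) := by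
  calc a * u * v * w = u * (a * v) * w := by rw [hau]; group
    _ = u * v * (a * w) := by rw [hav]; group
    _ = u * (v * w) * a := by rw [haw]; group
    _ = (u * w) * (v * a) := by rw [hvw]; group

theorem kap_pow_succ (x b : Ω) (i : ℕ) :
    kap (x ^ (i + 1)) b = kap x ((x ^ i)⁻¹ * b * (x ^ i)⁻¹⁻¹) * kap (x ^ i) b := by
  unfold kap
  rw [pow_succ]
  group

namespace AbIdx

variable {p : ℕ} {S A : Subgroup Ω} (h : AbIdx p S A)

/-- The image of `a ↦ x⁻¹ a x a⁻¹` on `A`. -/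
def kapRange {x : Ω} (hx : x ∈ S) : Subgroup Ω where
  carrier := {w | ∃ a ∈ A, kap x a = w}
  one_mem' := ⟨1, A.one_mem, kap_one x⟩
  mul_mem' := by
    rintro _ _ ⟨a, ha, rfl⟩ ⟨b, hb, rfl⟩
    exact ⟨a * b, A.mul_mem ha hb, h.kap_mul hx ha hb⟩
  inv_mem' := by
    rintro _ ⟨a, ha, rfl⟩
    exact ⟨a⁻¹, A.inv_mem ha, h.kap_inv hx ha⟩

theorem mem_kapRange {x : Ω} (hx : x ∈ S) {w : Ω} :
    w ∈ h.kapRange hx ↔ ∃ a ∈ A, kap x a = w := Iff.rfl

include h

theorem central_comm {z : Ω} (hz : z ∈ S ⊓ Subgroup.centralizer (S : Set Ω)) {s : Ω}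
    (hs : s ∈ S) : s * z = z * s :=
  Subgroup.mem_centralizer_iff.mp (Subgroup.mem_inf.mp hz).2 s hs

theorem kap_central {x z : Ω} (hx : x ∈ S) (hz : z ∈ S ⊓ Subgroup.centralizer (S : Set Ω)) :
    kap x z = 1 :=
  (kap_eq_one_iff x z).mpr (h.central_comm hz hx).symm

theorem kap_pow_left_mem {x : Ω} (hx : x ∈ S) (i : ℕ) {b : Ω} (hb : b ∈ A) :
    kap (x ^ i) b ∈ h.kapRange hx := by
  induction i with
  | zero =>
    have h1 : kap (x ^ 0) b = 1 := by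
      unfold kap
      group
    rw [h1]
    exact Subgroup.one_mem _
  | succ i ih =>
    rw [kap_pow_succ]
    exact Subgroup.mul_mem _
      ⟨_, h.normal _ (S.inv_mem (S.pow_mem hx i)) b hb, rfl⟩ ih

theorem commutator_le_kapRange {x : Ω} (hx : x ∈ S) (hxA : x ∉ A) :
    (commutator ↥S).map S.subtype ≤ h.kapRange hx := by
  rw [Subgroup.map_le_iff_le_comap]
  show ⁅(⊤ : Subgroup ↥S), ⊤⁆ ≤ _
  rw [Subgroup.commutator_le]
  intro g₁ _ g₂ _
  rw [Subgroup.mem_comap]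
  show (g₁ : Ω) * g₂ * (g₁ : Ω)⁻¹ * (g₂ : Ω)⁻¹ ∈ h.kapRange hx
  obtain ⟨i, hi⟩ := h.gen x hx hxA g₁ g₁.2
  obtain ⟨j, hj⟩ := h.gen x hx hxA g₂ g₂.2
  obtain ⟨a, ha⟩ : ∃ a, a = (g₁ : Ω) * (x ^ i)⁻¹ := ⟨_, rfl⟩
  obtain ⟨a', ha'⟩ : ∃ a', a' = (g₂ : Ω) * (x ^ j)⁻¹ := ⟨_, rfl⟩
  rw [← ha] at hi
  rw [← ha'] at hj
  have hg1 : (g₁ : Ω) = a * x ^ i := by rw [ha]; group
  have hg2 : (g₂ : Ω) = a' * x ^ j := by rw [ha']; group
  have hu : x ^ i * a' * (x ^ i)⁻¹ ∈ A := h.normal _ (S.pow_mem hx i) a' hj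
  have hv : x ^ j * a⁻¹ * (x ^ j)⁻¹ ∈ A := h.normal _ (S.pow_mem hx j) a⁻¹ (A.inv_mem hi)
  have e1 : (g₁ : Ω) * g₂ * (g₁ : Ω)⁻¹ * (g₂ : Ω)⁻¹ =
      a * (x ^ i * a' * (x ^ i)⁻¹) * (x ^ j * a⁻¹ * (x ^ j)⁻¹) * a'⁻¹ := by
    rw [hg1, hg2]
    group
  have e2 := four_comm (h.comm a hi _ hu) (h.comm a hi _ hv) (h.comm a hi _ (A.inv_mem hj))
    (h.comm _ hv _ (A.inv_mem hj))
  have e3 : x ^ i * a' * (x ^ i)⁻¹ * a'⁻¹ = (kap (x ^ i) (x ^ i * a' * (x ^ i)⁻¹))⁻¹ := by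
    unfold kap
    group
  have e4 : x ^ j * a⁻¹ * (x ^ j)⁻¹ * a = (kap (x ^ j) (x ^ j * a⁻¹ * (x ^ j)⁻¹))⁻¹ := by
    unfold kap
    group
  rw [e1, e2, e3, e4]
  exact Subgroup.mul_mem _ (Subgroup.inv_mem _ (h.kap_pow_left_mem hx i hu))
    (Subgroup.inv_mem _ (h.kap_pow_left_mem hx j hv))

theorem kap_mem_commutator {x a : Ω} (hx : x ∈ S) (ha : a ∈ A) :
    kap x a ∈ (commutator ↥S).map S.subtype := by
  refine ⟨_, Subgroup.commutator_mem_commutator (g₁ := (⟨x, hx⟩ : ↥S)⁻¹)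
    (g₂ := (⟨a, h.le ha⟩ : ↥S)) (Subgroup.mem_top _) (Subgroup.mem_top _), ?_⟩
  show (x⁻¹ * a * x⁻¹⁻¹ * a⁻¹ : Ω) = kap x a
  unfold kap
  group

theorem kap_pow_left_central {x a : Ω} (hx : x ∈ S) (ha : a ∈ A)
    (hz : kap x a ∈ S ⊓ Subgroup.centralizer (S : Set Ω)) (i : ℕ) :
    kap (x ^ i) a ∈ S ⊓ Subgroup.centralizer (S : Set Ω) := by
  induction i with
  | zero =>
    have h1 : kap (x ^ 0) a = 1 := by
      unfold kap
      group
    rw [h1]
    exact Subgroup.one_mem _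
  | succ i ih =>
    rw [kap_pow_succ]
    have e : (x ^ i)⁻¹ * a * (x ^ i)⁻¹⁻¹ = kap (x ^ i) a * a := by
      unfold kap
      group
    rw [e, h.kap_mul hx (h.center_le ih) ha, h.kap_central hx ih, one_mul]
    exact Subgroup.mul_mem _ hz ih

theorem mem_Z2_of_kap {x a : Ω} (hx : x ∈ S) (hxA : x ∉ A) (ha : a ∈ A)
    (hz : kap x a ∈ S ⊓ Subgroup.centralizer (S : Set Ω)) :
    a ∈ (upperCentralSeries ↥S 2).map S.subtype := by
  rw [mem_Z2_iff]
  refine ⟨h.le ha, fun s hs => ?_⟩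
  obtain ⟨k, hk⟩ := h.gen x hx hxA s hs
  have hzk := h.kap_pow_left_central hx ha hz k
  have ec : a * (s * (x ^ k)⁻¹) = (s * (x ^ k)⁻¹) * a := h.comm a ha _ hk
  have e6 : a * s * a⁻¹ * s⁻¹ = (a * (s * (x ^ k)⁻¹)) * (x ^ k * a⁻¹ * (x ^ k)⁻¹) *
      (s * (x ^ k)⁻¹)⁻¹ := by group
  have e7 : (s * (x ^ k)⁻¹) * a * (x ^ k * a⁻¹ * (x ^ k)⁻¹) * (s * (x ^ k)⁻¹)⁻¹ =
      (s * (x ^ k)⁻¹) * (x ^ k * kap (x ^ k) a * (x ^ k)⁻¹) * (s * (x ^ k)⁻¹)⁻¹ := by
    unfold kap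
    group
  rw [e6, ec, e7, h.central_comm hzk (S.pow_mem hx k), mul_inv_cancel_right,
    h.central_comm hzk (S.mul_mem hs (S.inv_mem (S.pow_mem hx k))), mul_inv_cancel_right]
  exact hzk

theorem kap_mem_center_of_Z2 {x a : Ω} (hx : x ∈ S)
    (ha : a ∈ (upperCentralSeries ↥S 2).map S.subtype) :
    kap x a ∈ S ⊓ Subgroup.centralizer (S : Set Ω) := by
  obtain ⟨-, h2⟩ := (mem_Z2_iff a).mp ha
  have h3 := h2 x⁻¹ (S.inv_mem hx)
  have e : kap x a = (a * x⁻¹ * a⁻¹ * x⁻¹⁻¹)⁻¹ := by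
    unfold kap
    group
  rw [e]
  exact Subgroup.inv_mem _ h3

end AbIdx

theorem Z2_conj_comm {S : Subgroup Ω} {a s : Ω}
    (ha : a ∈ (upperCentralSeries ↥S 2).map S.subtype) (hs : s ∈ S) :
    s⁻¹ * a * s * a⁻¹ ∈ S ⊓ Subgroup.centralizer (S : Set Ω) := by
  obtain ⟨-, h2⟩ := (mem_Z2_iff a).mp ha
  have h3 := h2 s⁻¹ (S.inv_mem hs)
  have e : s⁻¹ * a * s * a⁻¹ = (a * s⁻¹ * a⁻¹ * s⁻¹⁻¹)⁻¹ := by group
  rw [e]
  exact Subgroup.inv_mem _ h3

theorem Z2_le_normalizer {S P : Subgroup Ω} (hPS : P ≤ S)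
    (hZP : S ⊓ Subgroup.centralizer (S : Set Ω) ≤ P) {a : Ω}
    (ha : a ∈ (upperCentralSeries ↥S 2).map S.subtype) :
    a ∈ Subgroup.normalizer (P : Set Ω) := by
  have hconj : ∀ b ∈ (upperCentralSeries ↥S 2).map S.subtype, ∀ y ∈ P, b * y * b⁻¹ ∈ P := by
    intro b hb y hy
    have e : b * y * b⁻¹ = y * (y⁻¹ * b * y * b⁻¹) := by group
    rw [e]
    exact P.mul_mem hy (hZP (Z2_conj_comm hb (hPS hy)))
  apply Cfsg.Agent.Lib.Helper87.mem_normalizer_of_conj_mem (hconj a ha)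
  intro y hy
  have h3 := hconj a⁻¹ (Subgroup.inv_mem _ ha) y hy
  rwa [inv_inv] at h3

theorem AbIdx.le_Z2_of_not_le {p : ℕ} {S A : Subgroup Ω} (h : AbIdx p S A) {y : Ω}
    (hy : y ∈ (upperCentralSeries ↥S 2).map S.subtype) (hyA : y ∉ A) {a : Ω} (ha : a ∈ A) :
    a ∈ (upperCentralSeries ↥S 2).map S.subtype := by
  have hyS : y ∈ S := ((mem_Z2_iff y).mp hy).1
  rw [mem_Z2_iff]
  refine ⟨h.le ha, fun s hs => ?_⟩
  obtain ⟨k, hk⟩ := h.gen y hyS hyA s hs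
  have hykZ2 : y ^ k ∈ (upperCentralSeries ↥S 2).map S.subtype := Subgroup.pow_mem _ hy k
  obtain ⟨-, h2⟩ := (mem_Z2_iff (y ^ k)).mp hykZ2
  have h3 := h2 a (h.le ha)
  have e : a * s * a⁻¹ * s⁻¹ = (s * (y ^ k)⁻¹) * (y ^ k * a * (y ^ k)⁻¹ * a⁻¹)⁻¹ *
      (s * (y ^ k)⁻¹)⁻¹ := by
    have ec : a * (s * (y ^ k)⁻¹) = (s * (y ^ k)⁻¹) * a := h.comm _ ha _ hk
    have e6 : a * s * a⁻¹ * s⁻¹ = (a * (s * (y ^ k)⁻¹)) * (y ^ k * a⁻¹ * (y ^ k)⁻¹) *
        (s * (y ^ k)⁻¹)⁻¹ := by group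
    rw [e6, ec]
    group
  rw [e]
  have hz := Subgroup.inv_mem _ h3
  rw [h.central_comm hz (S.mul_mem hs (S.inv_mem (S.pow_mem hyS k))), mul_inv_cancel_right]
  exact hz

/-- The data extracted from an essential subgroup other than `A`. -/
theorem abIdx_data {S : Subgroup Ω} [Finite S] (p : ℕ) [hp : Fact p.Prime]
    (hS : IsPGroup p S) (F : FusionSystem S) (hF : F.IsSaturated p) {A : Subgroup Ω}
    (h : AbIdx p S A)
    (huniq : ∀ B : Subgroup Ω, B ≤ S → IsMulCommutative ↥B → (B.subgroupOf S).index = p → B = A)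
    {P : Subgroup Ω} (hP : F.IsEssential p P) (hPA : P ≠ A) :
    (upperCentralSeries ↥S 2).map S.subtype ≤ A ∧ ∃ x ∈ S, x ∉ A ∧
      ∃ u ∈ (upperCentralSeries ↥S 2).map S.subtype,
        u ∉ S ⊓ Subgroup.centralizer (S : Set Ω) ∧ u ^ p ∈ S ⊓ Subgroup.centralizer (S : Set Ω) ∧
        ∀ v ∈ (upperCentralSeries ↥S 2).map S.subtype,
          ∃ k : ℕ, v * (u ^ k)⁻¹ ∈ S ⊓ Subgroup.centralizer (S : Set Ω) := by
  have hPS : P ≤ S := hP.1.1
  obtain ⟨x, hxP, hxA, a1, ha1A, ha1N, ha1P, ha1p, hgenN, hidx, hstruct⟩ :=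
    abIdx_essential p hS F hF h hP hPA
  have hxS : x ∈ S := hPS hxP
  rcases hstruct with ⟨hP0Z, hPZ⟩ | ⟨hZ2A, hP0, -, u0, hu0, hu0Z, hu0p, hu0gen⟩
  · have hZP : S ⊓ Subgroup.centralizer (S : Set Ω) ≤ P := by
      rw [hPZ]
      exact le_sup_left
    have hNZ2 : ∀ a ∈ A, a ∈ Subgroup.normalizer (P : Set Ω) →
        a ∈ (upperCentralSeries ↥S 2).map S.subtype := by
      intro a haA haN
      apply h.mem_Z2_of_kap hxS hxA haA
      apply hP0Z
      refine Subgroup.mem_inf.mpr ⟨?_, h.kap_mem hxS haA⟩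
      exact P.mul_mem (P.inv_mem hxP) ((Subgroup.mem_normalizer_iff.mp haN x).mp hxP)
    have hZ2A : (upperCentralSeries ↥S 2).map S.subtype ≤ A := by
      intro y hyZ2
      by_contra hyA
      have hSN : S ≤ Subgroup.normalizer (P : Set Ω) := by
        intro s hs
        obtain ⟨k, hk⟩ := h.gen x hxS hxA s hs
        have e : s = (s * (x ^ k)⁻¹) * x ^ k := by group
        rw [e]
        exact Subgroup.mul_mem _ (Z2_le_normalizer hPS hZP (h.le_Z2_of_not_le hyZ2 hyA hk))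
          (Subgroup.le_normalizer (P.pow_mem hxP k))
      rw [inf_eq_left.mpr hSN] at hidx
      have hPc : IsMulCommutative ↥P := by
        refine ⟨⟨fun a b => Subtype.ext ?_⟩⟩
        obtain ⟨k, hk⟩ := h.gen x hxS hxA a (hPS a.2)
        obtain ⟨l, hl⟩ := h.gen x hxS hxA b (hPS b.2)
        have hzk : (a : Ω) * (x ^ k)⁻¹ ∈ S ⊓ Subgroup.centralizer (S : Set Ω) :=
          hP0Z (Subgroup.mem_inf.mpr ⟨P.mul_mem a.2 (P.inv_mem (P.pow_mem hxP k)), hk⟩)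
        have hzl : (b : Ω) * (x ^ l)⁻¹ ∈ S ⊓ Subgroup.centralizer (S : Set Ω) :=
          hP0Z (Subgroup.mem_inf.mpr ⟨P.mul_mem b.2 (P.inv_mem (P.pow_mem hxP l)), hl⟩)
        have c1 : Commute ((a : Ω) * (x ^ k)⁻¹) (b : Ω) := (h.central_comm hzk (hPS b.2)).symm
        have c2 : Commute (x ^ k) ((b : Ω) * (x ^ l)⁻¹) := h.central_comm hzl (S.pow_mem hxS k)
        have c3 : Commute (x ^ k) (x ^ l) := (Commute.refl x).pow_pow k l
        have c4 : Commute (x ^ k) ((b : Ω) * (x ^ l)⁻¹ * x ^ l) := c2.mul_right c3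
        rw [inv_mul_cancel_right] at c4
        have c5 := c1.mul_left c4
        rw [inv_mul_cancel_right] at c5
        exact c5.eq
      exact hPA (huniq P hPS hPc hidx)
    refine ⟨hZ2A, x, hxS, hxA, a1, hNZ2 a1 ha1A ha1N, fun hz => ha1P (hZP hz),
      hP0Z (Subgroup.mem_inf.mpr ⟨ha1p, A.pow_mem ha1A p⟩), ?_⟩
    intro v hv
    obtain ⟨k, hk⟩ := hgenN v (hZ2A hv) (Z2_le_normalizer hPS hZP hv)
    exact ⟨k, hP0Z (Subgroup.mem_inf.mpr
      ⟨hk, A.mul_mem (hZ2A hv) (A.inv_mem (A.pow_mem ha1A k))⟩)⟩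
  · refine ⟨hZ2A, x, hxS, hxA, u0, ?_, hu0Z, hu0p, fun v hv => hu0gen v ?_⟩
    · rw [← hP0]
      exact hu0
    · rw [hP0]
      exact hv

section Concl

variable {S : Subgroup Ω} [Finite S] {p : ℕ} [hp : Fact p.Prime] {A : Subgroup Ω}
  (h : AbIdx p S A) (hZ2A : (upperCentralSeries ↥S 2).map S.subtype ≤ A)
  {x : Ω} (hxS : x ∈ S) (hxA : x ∉ A)
  {u : Ω} (hu : u ∈ (upperCentralSeries ↥S 2).map S.subtype)
  (huZ : u ∉ S ⊓ Subgroup.centralizer (S : Set Ω))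
  (hup : u ^ p ∈ S ⊓ Subgroup.centralizer (S : Set Ω))
  (hgen : ∀ v ∈ (upperCentralSeries ↥S 2).map S.subtype,
    ∃ k : ℕ, v * (u ^ k)⁻¹ ∈ S ⊓ Subgroup.centralizer (S : Set Ω))

include h in
theorem center_normal_in_Z2 :
    ((S ⊓ Subgroup.centralizer (S : Set Ω)).subgroupOf
      ((upperCentralSeries ↥S 2).map S.subtype)).Normal := by
  constructor
  intro n hn g
  rw [Subgroup.mem_subgroupOf] at hn ⊢
  have hgS : (g : Ω) ∈ S := ((mem_Z2_iff _).mp g.2).1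
  have e : ((g * n * g⁻¹ : ↥((upperCentralSeries ↥S 2).map S.subtype)) : Ω) = n := by
    show (g : Ω) * n * (g : Ω)⁻¹ = n
    rw [h.central_comm hn hgS, mul_inv_cancel_right]
  rw [e]
  exact hn

include h hu huZ hup hgen in
theorem abIdx_index_Z2 :
    ((S ⊓ Subgroup.centralizer (S : Set Ω)).subgroupOf
      ((upperCentralSeries ↥S 2).map S.subtype)).index = p := by
  have hn := center_normal_in_Z2 h
  refine index_eq_prime_of_gen _ (u := ⟨u, hu⟩) ?_ ?_ ?_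
  · intro hmem
    exact huZ (Subgroup.mem_subgroupOf.mp hmem)
  · rw [Subgroup.mem_subgroupOf]
    exact hup
  · intro v
    obtain ⟨k, hk⟩ := hgen v v.2
    exact ⟨k, Subgroup.mem_subgroupOf.mpr hk⟩

include h hZ2A hxS hxA hu huZ hup hgen in
theorem abIdx_card_inf :
    Nat.card ↥((S ⊓ Subgroup.centralizer (S : Set Ω)) ⊓ (commutator ↥S).map S.subtype) = p := by
  obtain ⟨c, hc⟩ : ∃ c, c = kap x u := ⟨_, rfl⟩
  have huA : u ∈ A := hZ2A hu
  have hcZ : c ∈ S ⊓ Subgroup.centralizer (S : Set Ω) := by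
    rw [hc]
    exact h.kap_mem_center_of_Z2 hxS hu
  have hcS' : c ∈ (commutator ↥S).map S.subtype := by
    rw [hc]
    exact h.kap_mem_commutator hxS huA
  have hc1 : c ≠ 1 := by
    rw [hc]
    intro h1
    exact huZ (h.mem_center hxS hxA huA ((kap_eq_one_iff x u).mp h1))
  have hcp : c ^ p = 1 := by
    rw [hc, ← h.kap_pow hxS huA, h.kap_central hxS hup]
  have hord : orderOf c = p := orderOf_eq_prime hcp hc1
  have heq : (S ⊓ Subgroup.centralizer (S : Set Ω)) ⊓ (commutator ↥S).map S.subtype =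
      Subgroup.zpowers c := by
    apply le_antisymm
    · intro w hw
      obtain ⟨hwZ, hwS'⟩ := Subgroup.mem_inf.mp hw
      obtain ⟨a, ha, rfl⟩ := (h.mem_kapRange hxS).mp (h.commutator_le_kapRange hxS hxA hwS')
      have haZ2 := h.mem_Z2_of_kap hxS hxA ha hwZ
      obtain ⟨k, hk⟩ := hgen a haZ2
      have e : kap x a = kap x ((a * (u ^ k)⁻¹) * u ^ k) := by
        congr 1
        group
      rw [e, h.kap_mul hxS (h.center_le hk) (A.pow_mem huA k), h.kap_central hxS hk, one_mul,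
        h.kap_pow hxS huA, ← hc]
      exact Subgroup.pow_mem _ (Subgroup.mem_zpowers c) k
    · rw [Subgroup.zpowers_le]
      exact Subgroup.mem_inf.mpr ⟨hcZ, hcS'⟩
  rw [heq, Nat.card_zpowers, hord]

include h hxS hxA in
theorem abIdx_index_sup
    (hcard : Nat.card ↥((S ⊓ Subgroup.centralizer (S : Set Ω)) ⊓
      (commutator ↥S).map S.subtype) = p) :
    (((S ⊓ Subgroup.centralizer (S : Set Ω)) ⊔ (commutator ↥S).map S.subtype).subgroupOf
      A).index = p := by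
  have hfinA : Finite A := finite_of_le h.le
  obtain ⟨κ, hκ⟩ : ∃ κ : ↥A →* ↥A, ∀ a : ↥A, ((κ a : ↥A) : Ω) = kap x a :=
    ⟨MonoidHom.mk' (fun a => ⟨kap x a, h.kap_mem hxS a.2⟩) (by
      intro a b
      apply Subtype.ext
      exact h.kap_mul hxS a.2 b.2), fun a => rfl⟩
  have hker : κ.ker = (S ⊓ Subgroup.centralizer (S : Set Ω)).subgroupOf A := by
    ext a
    rw [MonoidHom.mem_ker, Subgroup.mem_subgroupOf]
    constructor
    · intro h1
      have h2 : kap x a = 1 := by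
        rw [← hκ a, h1]
        rfl
      exact h.mem_center hxS hxA a.2 ((kap_eq_one_iff x a).mp h2)
    · intro h1
      apply Subtype.ext
      rw [hκ]
      exact h.kap_central hxS h1
  have hrange : κ.range = ((commutator ↥S).map S.subtype).subgroupOf A := by
    ext w
    rw [Subgroup.mem_subgroupOf]
    constructor
    · rintro ⟨a, rfl⟩
      rw [hκ]
      exact h.kap_mem_commutator hxS a.2
    · intro hw
      obtain ⟨a, ha, hka⟩ := (h.mem_kapRange hxS).mp (h.commutator_le_kapRange hxS hxA hw)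
      refine ⟨⟨a, ha⟩, Subtype.ext ?_⟩
      rw [hκ]
      exact hka
  have hS'A : (commutator ↥S).map S.subtype ≤ A := by
    intro w hw
    obtain ⟨a, ha, rfl⟩ := (h.mem_kapRange hxS).mp (h.commutator_le_kapRange hxS hxA hw)
    exact h.kap_mem hxS ha
  have e1 : Nat.card ((S ⊓ Subgroup.centralizer (S : Set Ω)).subgroupOf A) *
      Nat.card (((commutator ↥S).map S.subtype).subgroupOf A) = Nat.card A := by
    rw [← hker, ← hrange, ← Subgroup.index_ker]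
    exact Subgroup.card_mul_index _
  have e2 := Cfsg.Agent.Lib.Helper4.card_sup_mul_card_inf
    ((S ⊓ Subgroup.centralizer (S : Set Ω)).subgroupOf A)
    (((commutator ↥S).map S.subtype).subgroupOf A) (by
      intro g _
      rw [Subgroup.mem_normalizer_iff]
      intro n
      have e : g * n * g⁻¹ = n := by
        apply Subtype.ext
        show (g : Ω) * n * (g : Ω)⁻¹ = n
        rw [h.comm g g.2 n n.2, mul_inv_cancel_right]
      rw [e])
  have e3 : Nat.card ↥((S ⊓ Subgroup.centralizer (S : Set Ω)).subgroupOf A ⊓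
      ((commutator ↥S).map S.subtype).subgroupOf A) = p := by
    have e5 : (S ⊓ Subgroup.centralizer (S : Set Ω)).subgroupOf A ⊓
        ((commutator ↥S).map S.subtype).subgroupOf A =
        ((S ⊓ Subgroup.centralizer (S : Set Ω)) ⊓ (commutator ↥S).map S.subtype).subgroupOf A := by
      ext w
      simp only [Subgroup.mem_inf, Subgroup.mem_subgroupOf]
    rw [e5, Nat.card_congr
      (Subgroup.subgroupOfEquivOfLe (inf_le_left.trans h.center_le)).toEquiv, hcard]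
  have e4 := Subgroup.card_mul_index ((S ⊓ Subgroup.centralizer (S : Set Ω)).subgroupOf A ⊔
    ((commutator ↥S).map S.subtype).subgroupOf A)
  rw [Subgroup.subgroupOf_sup h.center_le hS'A]
  rw [e3, e1] at e2
  rw [← e2] at e4
  exact Nat.eq_of_mul_eq_mul_left Nat.card_pos e4

end Concl

section MaxClass

/-- `kap x` as an endomorphism of `A`. -/
def AbIdx.kapHom {p : ℕ} {S A : Subgroup Ω} (h : AbIdx p S A) {x : Ω} (hx : x ∈ S) : ↥A →* ↥A :=
  MonoidHom.mk' (fun a => ⟨kap x a, h.kap_mem hx a.2⟩) (by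
    intro a b
    apply Subtype.ext
    exact h.kap_mul hx a.2 b.2)

theorem AbIdx.kapHom_coe {p : ℕ} {S A : Subgroup Ω} (h : AbIdx p S A) {x : Ω} (hx : x ∈ S)
    (a : ↥A) : ((h.kapHom hx a : ↥A) : Ω) = kap x a := rfl

/-- The iterated kernels of `kap x` on `A`. -/
def AbIdx.Kc {p : ℕ} {S A : Subgroup Ω} (h : AbIdx p S A) {x : Ω} (hx : x ∈ S) :
    ℕ → Subgroup ↥A
  | 0 => ⊥
  | (j + 1) => (AbIdx.Kc h hx j).comap (h.kapHom hx)

namespace AbIdx

variable {p : ℕ} {S A : Subgroup Ω} (h : AbIdx p S A)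

theorem Kc_zero {x : Ω} (hx : x ∈ S) : h.Kc hx 0 = ⊥ := rfl

theorem Kc_succ {x : Ω} (hx : x ∈ S) (j : ℕ) :
    h.Kc hx (j + 1) = (h.Kc hx j).comap (h.kapHom hx) := rfl

theorem Kc_mono {x : Ω} (hx : x ∈ S) (j : ℕ) : h.Kc hx j ≤ h.Kc hx (j + 1) := by
  induction j with
  | zero =>
    rw [Kc_zero]
    exact bot_le
  | succ j ih =>
    show (h.Kc hx j).comap (h.kapHom hx) ≤ (h.Kc hx (j + 1)).comap (h.kapHom hx)
    exact Subgroup.comap_mono ih

theorem Kc_one {x : Ω} (hx : x ∈ S) (hxA : x ∉ A) :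
    h.Kc hx 1 = (S ⊓ Subgroup.centralizer (S : Set Ω)).subgroupOf A := by
  ext a
  rw [Kc_succ, Kc_zero, Subgroup.mem_comap, Subgroup.mem_bot, Subgroup.mem_subgroupOf]
  constructor
  · intro h1
    have h2 : kap x a = 1 := by
      rw [← h.kapHom_coe hx a, h1]
      rfl
    exact h.mem_center hx hxA a.2 ((kap_eq_one_iff x a).mp h2)
  · intro h1
    apply Subtype.ext
    rw [h.kapHom_coe hx]
    exact h.kap_central hx h1

theorem Kc_two {x : Ω} (hx : x ∈ S) (hxA : x ∉ A) :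
    h.Kc hx 2 = ((upperCentralSeries ↥S 2).map S.subtype).subgroupOf A := by
  ext a
  rw [Kc_succ, h.Kc_one hx hxA, Subgroup.mem_comap, Subgroup.mem_subgroupOf,
    Subgroup.mem_subgroupOf, h.kapHom_coe hx]
  constructor
  · intro h1
    exact h.mem_Z2_of_kap hx hxA a.2 h1
  · intro h1
    exact h.kap_mem_center_of_Z2 hx h1

theorem Kc_relIndex [Finite S] {x : Ω} (hx : x ∈ S) (hxA : x ∉ A)
    (hZ2A : (upperCentralSeries ↥S 2).map S.subtype ≤ A)
    (hidx : ((S ⊓ Subgroup.centralizer (S : Set Ω)).subgroupOf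
      ((upperCentralSeries ↥S 2).map S.subtype)).index = p) (j : ℕ) :
    (h.Kc hx (j + 1)).relIndex (h.Kc hx (j + 2)) ≤ p := by
  have hfinA : Finite A := finite_of_le h.le
  induction j with
  | zero =>
    rw [h.Kc_two hx hxA, h.Kc_one hx hxA, Subgroup.relIndex_subgroupOf hZ2A]
    exact hidx.le
  | succ j ih =>
    have h1 : (h.Kc hx (j + 1 + 1)).relIndex (h.Kc hx (j + 1 + 2)) =
        (h.Kc hx (j + 1)).relIndex ((h.Kc hx (j + 1 + 2)).map (h.kapHom hx)) := by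
      rw [Kc_succ h hx (j + 1), Subgroup.relIndex_comap]
    rw [h1]
    refine le_trans (Subgroup.relIndex_le_of_le_right ?_ ?_) ih
    · rw [Subgroup.map_le_iff_le_comap]
      exact le_of_eq (Kc_succ h hx (j + 2))
    · exact Subgroup.index_ne_zero_of_finite

theorem Kc_card [Finite S] {x : Ω} (hx : x ∈ S) (hxA : x ∉ A)
    (hZ2A : (upperCentralSeries ↥S 2).map S.subtype ≤ A)
    (hidx : ((S ⊓ Subgroup.centralizer (S : Set Ω)).subgroupOf
      ((upperCentralSeries ↥S 2).map S.subtype)).index = p) (j : ℕ) :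
    Nat.card (h.Kc hx (j + 1)) ≤ p ^ j * Nat.card (h.Kc hx 1) := by
  induction j with
  | zero => rw [pow_zero, one_mul]
  | succ j ih =>
    have h1 := Subgroup.relIndex_mul_relIndex ⊥ (h.Kc hx (j + 1)) (h.Kc hx (j + 2)) bot_le
      (h.Kc_mono hx (j + 1))
    rw [Subgroup.relIndex_bot_left, Subgroup.relIndex_bot_left] at h1
    rw [← h1, pow_succ]
    calc Nat.card (h.Kc hx (j + 1)) * (h.Kc hx (j + 1)).relIndex (h.Kc hx (j + 2))
        ≤ (p ^ j * Nat.card (h.Kc hx 1)) * p :=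
          Nat.mul_le_mul ih (h.Kc_relIndex hx hxA hZ2A hidx j)
      _ = p ^ j * p * Nat.card (h.Kc hx 1) := by ring

theorem mem_Kc_of_iterate {x : Ω} (hx : x ∈ S) (i j : ℕ) (a : ↥A)
    (ha : (h.kapHom hx)^[j] a ∈ h.Kc hx i) : a ∈ h.Kc hx (i + j) := by
  induction j generalizing a with
  | zero => exact ha
  | succ j ih =>
    rw [Function.iterate_succ_apply] at ha
    have h1 := ih (h.kapHom hx a) ha
    exact h1

theorem iterate_kap_mem_lcs {x : Ω} (hx : x ∈ S) (j : ℕ) (a : ↥A) :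
    (((h.kapHom hx)^[j] a : ↥A) : Ω) ∈ S.lowerCentralSeries j := by
  induction j with
  | zero => exact h.le a.2
  | succ j ih =>
    rw [Function.iterate_succ_apply', h.kapHom_coe hx, Subgroup.lowerCentralSeries_succ]
    obtain ⟨w, hw⟩ : ∃ w, w = (((h.kapHom hx)^[j] a : ↥A) : Ω) := ⟨_, rfl⟩
    rw [← hw] at ih ⊢
    have e : kap x w = (w * x⁻¹ * w⁻¹ * x⁻¹⁻¹)⁻¹ := by
      unfold kap
      group
    rw [e]
    exact Subgroup.inv_mem _ (Subgroup.commutator_mem_commutator (g₁ := w) (g₂ := x⁻¹) ih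
      (S.inv_mem hx))

end AbIdx

theorem abIdx_maxclass {S : Subgroup Ω} [Finite S] {p : ℕ} [hp : Fact p.Prime] {A : Subgroup Ω}
    (h : AbIdx p S A) {x : Ω} (hxS : x ∈ S) (hxA : x ∉ A)
    (hZ2A : (upperCentralSeries ↥S 2).map S.subtype ≤ A)
    (hidx : ((S ⊓ Subgroup.centralizer (S : Set Ω)).subgroupOf
      ((upperCentralSeries ↥S 2).map S.subtype)).index = p)
    (hAidx : (A.subgroupOf S).index = p)
    (m : ℕ) (hm : ((S ⊓ Subgroup.centralizer (S : Set Ω)).subgroupOf S).index = p ^ m)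
    (hm3 : 3 ≤ m) :
    ¬ Subgroup.lowerCentralSeries S (m - 2) ≤ S ⊓ Subgroup.centralizer (S : Set Ω) := by
  intro hle
  have hfinA : Finite A := finite_of_le h.le
  have hfinZ : Finite ↥(S ⊓ Subgroup.centralizer (S : Set Ω)) := finite_of_le inf_le_left
  have htop : h.Kc hxS (1 + (m - 2)) = ⊤ := by
    rw [eq_top_iff]
    intro a _
    apply h.mem_Kc_of_iterate hxS
    rw [h.Kc_one hxS hxA, Subgroup.mem_subgroupOf]
    exact hle (h.iterate_kap_mem_lcs hxS (m - 2) a)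
  have hc2 : Nat.card (h.Kc hxS 1) = Nat.card ↥(S ⊓ Subgroup.centralizer (S : Set Ω)) := by
    rw [h.Kc_one hxS hxA]
    exact Nat.card_congr (Subgroup.subgroupOfEquivOfLe h.center_le).toEquiv
  have hc1 : Nat.card A ≤ p ^ (m - 2) * Nat.card ↥(S ⊓ Subgroup.centralizer (S : Set Ω)) := by
    have h2 := h.Kc_card hxS hxA hZ2A hidx (m - 2)
    have h3 : m - 2 + 1 = 1 + (m - 2) := by omega
    rw [h3, htop, Subgroup.card_top, hc2] at h2
    exact h2
  have hc3 : Nat.card ↥(S ⊓ Subgroup.centralizer (S : Set Ω)) * p ^ m = Nat.card S := by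
    rw [← hm, ← Nat.card_congr (Subgroup.subgroupOfEquivOfLe
      (inf_le_left : S ⊓ Subgroup.centralizer (S : Set Ω) ≤ S)).toEquiv]
    exact Subgroup.card_mul_index _
  have hc4 : Nat.card A * p = Nat.card S := by
    rw [← hAidx, ← Nat.card_congr (Subgroup.subgroupOfEquivOfLe h.le).toEquiv]
    exact Subgroup.card_mul_index _
  have hZpos : 0 < Nat.card ↥(S ⊓ Subgroup.centralizer (S : Set Ω)) := Nat.card_pos
  have h5 : Nat.card ↥(S ⊓ Subgroup.centralizer (S : Set Ω)) * p ^ m ≤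
      Nat.card ↥(S ⊓ Subgroup.centralizer (S : Set Ω)) * p ^ (m - 1) := by
    rw [hc3, ← hc4]
    calc Nat.card A * p
        ≤ (p ^ (m - 2) * Nat.card ↥(S ⊓ Subgroup.centralizer (S : Set Ω))) * p :=
          Nat.mul_le_mul_right p hc1
      _ = Nat.card ↥(S ⊓ Subgroup.centralizer (S : Set Ω)) * p ^ (m - 2 + 1) := by
          rw [pow_succ]
          ring
      _ = Nat.card ↥(S ⊓ Subgroup.centralizer (S : Set Ω)) * p ^ (m - 1) := by
          rw [show m - 2 + 1 = m - 1 by omega]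
  have h6 := Nat.le_of_mul_le_mul_left h5 hZpos
  have h7 := (Nat.pow_le_pow_iff_right hp.out.one_lt).mp h6
  omega

end MaxClass

end AbIdxQ

end Cfsg.Agent.Lib.Helper90
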