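import Mathlib
import Cfsg.Agent.Lib.Helper59.XS0

/-!
# Piece GA of S3054 / S3055 (helper90 for helper59): coordinates on `P / Z`
-/

set_option autoImplicit false
set_option linter.style.haveILetI false

namespace Cfsg.Agent.Lib.Helper90.XSGA

/-- a finite additive commutative group of exponent `p` and order `p²` is `(ℤ/p)²` -/
theorem coord_add {A : Type*} [AddCommGroup A] [Finite A] {p : ℕ} [Fact p.Prime]
    (hexp : ∀ a : A, p • a = 0) (hcard : Nat.card A = p ^ 2) :
    Nonempty (A ≃+ (Fin 2 → ZMod p)) := by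
  classical
  have hp : p.Prime := Fact.out
  obtain ⟨m⟩ : Nonempty (Module (ZMod p) A) := ⟨AddCommGroup.zmodModule hexp⟩
  letI : Fintype A := Fintype.ofFinite _
  have hcardA : Fintype.card A = p ^ 2 := by
    rw [← Nat.card_eq_fintype_card]; exact hcard
  have hfr : Module.finrank (ZMod p) A = 2 := by
    have h1 := Module.card_eq_pow_finrank (K := ZMod p) (V := A)
    rw [hcardA, ZMod.card] at h1
    exact (Nat.pow_right_injective hp.two_le h1).symm
  have hfr2 : Module.finrank (ZMod p) A = Module.finrank (ZMod p) (Fin 2 → ZMod p) := by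
    rw [hfr, Module.finrank_fin_fun]
  haveI hmf : Module.Finite (ZMod p) A := Module.Finite.of_finite
  obtain ⟨e⟩ := FiniteDimensional.nonempty_linearEquiv_of_finrank_eq (R := ZMod p) (M := A)
    (M' := Fin 2 → ZMod p) hfr2
  exact ⟨e.toAddEquiv⟩

/-- a finite commutative group of exponent `p` and order `p²` is `(ℤ/p)²` -/
theorem coord_aux {Q : Type*} [Group Q] [Finite Q] {p : ℕ} [Fact p.Prime]
    (hcomm : ∀ a b : Q, a * b = b * a) (hexp : ∀ q : Q, q ^ p = 1)
    (hcard : Nat.card Q = p ^ 2) :
    ∃ e : Q →* Multiplicative (Fin 2 → ZMod p), Function.Bijective e := by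
  classical
  letI : CommGroup Q := { ‹Group Q› with mul_comm := hcomm }
  haveI hfin : Finite (Additive Q) := inferInstanceAs (Finite Q)
  obtain ⟨e⟩ := coord_add (A := Additive Q) (p := p)
    (by intro x; exact congrArg Additive.ofMul (hexp x.toMul)) hcard
  refine ⟨{ toFun := fun a => Multiplicative.ofAdd (e (Additive.ofMul a))
            map_one' := ?_
            map_mul' := ?_ }, ?_, ?_⟩
  · exact congrArg Multiplicative.ofAdd e.map_zero
  · intro a b
    exact congrArg Multiplicative.ofAdd (e.map_add (Additive.ofMul a) (Additive.ofMul b))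
  · intro a b hab
    exact Additive.ofMul.injective (e.injective (Multiplicative.ofAdd.injective hab))
  · intro y
    obtain ⟨a, ha⟩ := e.surjective (Multiplicative.toAdd y)
    exact ⟨Additive.toMul a, by
      show Multiplicative.ofAdd (e (Additive.ofMul (Additive.toMul a))) = y
      rw [ofMul_toMul, ha, ofAdd_toAdd]⟩

end Cfsg.Agent.Lib.Helper90.XSGA

namespace Cfsg.Agent.Lib.Helper59.XS

open scoped commutatorElement
open Cfsg.Agent.Lib.Helper90.XSGA

variable {G : Type*} [Group G]

/-! ### Piece GA : coordinates on `P / Z` -/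
theorem exists_coord {p : ℕ} [Fact p.Prime] {P Z : Subgroup G} (h : Setup p P Z) :
    ∃ κ : ↥P →* Multiplicative (Fin 2 → ZMod p), Function.Surjective κ ∧
      ∀ u : ↥P, κ u = 1 ↔ (u : G) ∈ Z := by
  classical
  have hp : p.Prime := Fact.out
  haveI hPfin : Finite P :=
    Nat.finite_of_card_ne_zero (by rw [h.hcard]; exact pow_ne_zero _ hp.ne_zero)
  haveI hN : (Z.subgroupOf P).Normal := by
    constructor
    intro n hn g
    rw [Subgroup.mem_subgroupOf] at hn ⊢
    have h0 := h.hZc _ hn g g.2
    simp only [Subgroup.coe_mul, Subgroup.coe_inv]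
    rw [h0, mul_inv_cancel_right]
    exact hn
  have hcommQ : ∀ a b : ↥P ⧸ Z.subgroupOf P, a * b = b * a := by
    intro a b
    induction a using QuotientGroup.induction_on with
    | _ a =>
      induction b using QuotientGroup.induction_on with
      | _ b =>
        rw [← QuotientGroup.mk_mul, ← QuotientGroup.mk_mul, QuotientGroup.eq,
          Subgroup.mem_subgroupOf]
        have h0 := h.hcomm _ (b⁻¹).2 _ (a⁻¹).2
        have h1 : (((a * b)⁻¹ * (b * a) : ↥P) : G) = ⁅((b⁻¹ : ↥P) : G), ((a⁻¹ : ↥P) : G)⁆ := by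
          simp [commutatorElement_def, mul_assoc]
        rw [h1]
        exact h0
  have hexpQ : ∀ q : ↥P ⧸ Z.subgroupOf P, q ^ p = 1 := by
    intro q
    induction q using QuotientGroup.induction_on with
    | _ a =>
      rw [← QuotientGroup.mk_pow]
      have h0 : a ^ p = 1 := by
        apply Subtype.ext
        rw [Subgroup.coe_pow]
        exact h.hexp _ a.2
      rw [h0]; rfl
  have hcardQ : Nat.card (↥P ⧸ Z.subgroupOf P) = p ^ 2 := by
    have h0 := Subgroup.card_eq_card_quotient_mul_card_subgroup (Z.subgroupOf P)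
    have h1 : Nat.card (Z.subgroupOf P) = p := by
      rw [Nat.card_congr (Subgroup.subgroupOfEquivOfLe h.hZP).toEquiv]
      exact h.hZcard
    rw [h.hcard, h1] at h0
    have h2 : p ^ 3 = p ^ 2 * p := by ring
    rw [h2] at h0
    exact (Nat.eq_of_mul_eq_mul_right hp.pos h0).symm
  obtain ⟨e, he⟩ := coord_aux hcommQ hexpQ hcardQ
  refine ⟨e.comp (QuotientGroup.mk' (Z.subgroupOf P)), ?_, ?_⟩
  · rw [MonoidHom.coe_comp]
    exact he.2.comp (QuotientGroup.mk'_surjective _)
  · intro u
    rw [MonoidHom.comp_apply, ← map_one e, he.1.eq_iff, QuotientGroup.mk'_apply,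
      QuotientGroup.eq_one_iff, Subgroup.mem_subgroupOf]

end Cfsg.Agent.Lib.Helper59.XS
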