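import Mathlib
import Cfsg.Agent.Lib.Helper59.XS0

/-!
# Piece GDab of S3054 / S3055 (helper90 for helper59): two shears generate the torus element
-/

set_option autoImplicit false

namespace Cfsg.Agent.Lib.Helper90.XSGDab

variable {G : Type*} [Group G]

/-- `z ^ n` only depends on `n` modulo `p` -/
theorem pow_val {p : ℕ} {z : G} (hz : z ^ p = 1) (n : ℕ) :
    z ^ ((n : ZMod p).val) = z ^ n := by
  rw [ZMod.val_natCast]
  exact (pow_eq_pow_mod n hz).symm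

/-- the element `z^a x^c` -/
def ee (p : ℕ) (z x : G) (v : ZMod p × ZMod p) : G := z ^ v.1.val * x ^ v.2.val

/-- `g` acts on the elements `z^a x^c` through `f` -/
def Rep (p : ℕ) (z x : G) (g : G) (f : ZMod p × ZMod p → ZMod p × ZMod p) : Prop :=
  ∀ v, g * ee p z x v * g⁻¹ = ee p z x (f v)

theorem Rep.mul {p : ℕ} {z x g g' : G} {f f' : ZMod p × ZMod p → ZMod p × ZMod p}
    (h : Rep p z x g f) (h' : Rep p z x g' f') :
    Rep p z x (g * g') (f ∘ f') := by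
  intro v
  have h0 : g * g' * ee p z x v * (g * g')⁻¹ = g * (g' * ee p z x v * g'⁻¹) * g⁻¹ := by group
  rw [h0, h' v, h (f' v)]
  rfl

theorem Rep.inv {p : ℕ} {z x g : G} {f f' : ZMod p × ZMod p → ZMod p × ZMod p}
    (h : Rep p z x g f) (hff : ∀ v, f (f' v) = v) :
    Rep p z x g⁻¹ f' := by
  intro v
  have h1 := h (f' v)
  rw [hff] at h1
  rw [← h1]
  group

theorem Rep.pow {p : ℕ} {z x g : G} {f : ZMod p × ZMod p → ZMod p × ZMod p}
    (h : Rep p z x g f) (n : ℕ) : Rep p z x (g ^ n) (f^[n]) := by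
  induction n with
  | zero =>
    intro v
    simp
  | succ n ih =>
    rw [pow_succ', Function.iterate_succ']
    exact h.mul ih

/-- upper shear -/
def sX (p : ℕ) (m : ZMod p) (v : ZMod p × ZMod p) : ZMod p × ZMod p := (v.1 + m * v.2, v.2)

/-- lower shear -/
def sY (p : ℕ) (m : ZMod p) (v : ZMod p × ZMod p) : ZMod p × ZMod p := (v.1, m * v.1 + v.2)

theorem sX_iter (p : ℕ) (m : ZMod p) (n : ℕ) : (sX p m)^[n] = sX p (n * m) := by
  induction n with
  | zero =>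
    funext v
    simp [sX]
  | succ n ih =>
    rw [Function.iterate_succ', ih]
    funext v
    simp only [Function.comp_apply, sX, Nat.cast_succ]
    refine Prod.ext ?_ rfl
    show v.1 + (n : ZMod p) * m * v.2 + m * v.2 = v.1 + ((n : ZMod p) + 1) * m * v.2
    ring

theorem sY_iter (p : ℕ) (m : ZMod p) (n : ℕ) : (sY p m)^[n] = sY p (n * m) := by
  induction n with
  | zero =>
    funext v
    simp [sY]
  | succ n ih =>
    rw [Function.iterate_succ', ih]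
    funext v
    simp only [Function.comp_apply, sY, Nat.cast_succ]
    refine Prod.ext rfl ?_
    show m * v.1 + ((n : ZMod p) * m * v.1 + v.2) = ((n : ZMod p) + 1) * m * v.1 + v.2
    ring

theorem rep_u {p : ℕ} [Fact p.Prime] {z x u : G} (hzx : z * x = x * z) (hz : z ^ p = 1)
    {b : ℕ} (huz : u * z * u⁻¹ = z) (hux : u * x * u⁻¹ = x * z ^ b) :
    Rep p z x u (sX p (b : ZMod p)) := by
  intro v
  obtain ⟨a, c⟩ := v
  show u * (z ^ a.val * x ^ c.val) * u⁻¹ = z ^ (a + b * c).val * x ^ c.val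
  have hxz : Commute x z := hzx.symm
  have hc : Commute x (z ^ b) := hxz.pow_right b
  have h1 : u * (z ^ a.val * x ^ c.val) * u⁻¹
      = (u * z * u⁻¹) ^ a.val * (u * x * u⁻¹) ^ c.val := by
    rw [conj_pow, conj_pow]; group
  have h2 : x ^ c.val * z ^ (b * c.val) = z ^ (b * c.val) * x ^ c.val :=
    (hxz.pow_pow _ _).eq
  rw [h1, huz, hux, hc.mul_pow, ← pow_mul, ← mul_assoc, mul_assoc (z ^ a.val), h2,
    ← mul_assoc, ← pow_add, ← pow_val hz (a.val + b * c.val)]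
  congr 3
  push_cast
  rw [ZMod.natCast_zmod_val, ZMod.natCast_zmod_val]

theorem rep_h {p : ℕ} [Fact p.Prime] {z x h : G} (hzx : z * x = x * z) (hx : x ^ p = 1)
    {j : ℕ} (hhx : h * x * h⁻¹ = x) (hhz : h * z * h⁻¹ = z * x ^ j) :
    Rep p z x h (sY p (j : ZMod p)) := by
  intro v
  obtain ⟨a, c⟩ := v
  show h * (z ^ a.val * x ^ c.val) * h⁻¹ = z ^ a.val * x ^ (j * a + c).val
  have hzx' : Commute z x := hzx
  have hc : Commute z (x ^ j) := hzx'.pow_right j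
  have h1 : h * (z ^ a.val * x ^ c.val) * h⁻¹
      = (h * z * h⁻¹) ^ a.val * (h * x * h⁻¹) ^ c.val := by
    rw [conj_pow, conj_pow]; group
  rw [h1, hhz, hhx, hc.mul_pow, ← pow_mul, mul_assoc, ← pow_add,
    ← pow_val hx (j * a.val + c.val)]
  congr 3
  push_cast
  rw [ZMod.natCast_zmod_val, ZMod.natCast_zmod_val]

end Cfsg.Agent.Lib.Helper90.XSGDab

namespace Cfsg.Agent.Lib.Helper59.XS

open Cfsg.Agent.Lib.Helper90.XSGDab

variable {G : Type*} [Group G]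

/-! ### Piece GDab : two shears generate the torus element (exponent form) -/
theorem exists_torus_word {p : ℕ} [Fact p.Prime] {z x u h : G}
    (hzx : z * x = x * z) (hz : z ^ p = 1) (hx : x ^ p = 1)
    {b j : ℕ} (hb : ¬ p ∣ b) (hj : ¬ p ∣ j)
    (huz : u * z * u⁻¹ = z) (hux : u * x * u⁻¹ = x * z ^ b)
    (hhx : h * x * h⁻¹ = x) (hhz : h * z * h⁻¹ = z * x ^ j) (lam : (ZMod p)ˣ) :
    ∃ g ∈ Subgroup.closure ({u, h} : Set G),
      g * z * g⁻¹ = z ^ (lam : ZMod p).val ∧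
      g * x * g⁻¹ = x ^ ((lam⁻¹ : (ZMod p)ˣ) : ZMod p).val := by
  have hb' : (b : ZMod p) ≠ 0 := by
    rw [Ne, ZMod.natCast_eq_zero_iff]; exact hb
  have hj' : (j : ZMod p) ≠ 0 := by
    rw [Ne, ZMod.natCast_eq_zero_iff]; exact hj
  obtain ⟨L, hLdef⟩ : ∃ L : ZMod p, L = (lam : ZMod p) := ⟨_, rfl⟩
  have hL : L ≠ 0 := by rw [hLdef]; exact lam.ne_zero
  have hLinv : ((lam⁻¹ : (ZMod p)ˣ) : ZMod p) = L⁻¹ := by
    rw [hLdef, Units.val_inv_eq_inv_val]
  rw [hLinv, ← hLdef]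
  obtain ⟨k1, e1⟩ : ∃ k1 : ℕ, (k1 : ZMod p) * b = L :=
    ⟨(L * (b : ZMod p)⁻¹).val, by rw [ZMod.natCast_zmod_val]; field_simp⟩
  obtain ⟨k2, e2⟩ : ∃ k2 : ℕ, (k2 : ZMod p) * j = -L⁻¹ :=
    ⟨(-L⁻¹ * (j : ZMod p)⁻¹).val, by rw [ZMod.natCast_zmod_val]; field_simp⟩
  obtain ⟨k3, e3⟩ : ∃ k3 : ℕ, (k3 : ZMod p) * b = 1 :=
    ⟨((b : ZMod p)⁻¹).val, by rw [ZMod.natCast_zmod_val]; field_simp⟩
  obtain ⟨k4, e4⟩ : ∃ k4 : ℕ, (k4 : ZMod p) * j = -1 :=
    ⟨(-(j : ZMod p)⁻¹).val, by rw [ZMod.natCast_zmod_val]; field_simp⟩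
  have ru := rep_u hzx hz huz hux
  have rh := rep_h hzx hx hhx hhz
  have r1 : Rep p z x (u ^ k1) (sX p L) := by
    have h0 := ru.pow k1
    rwa [sX_iter, e1] at h0
  have r2 : Rep p z x (h ^ k2) (sY p (-L⁻¹)) := by
    have h0 := rh.pow k2
    rwa [sY_iter, e2] at h0
  have r3 : Rep p z x (u ^ k3) (sX p 1) := by
    have h0 := ru.pow k3
    rwa [sX_iter, e3] at h0
  have r4 : Rep p z x (h ^ k4) (sY p (-1)) := by
    have h0 := rh.pow k4
    rwa [sY_iter, e4] at h0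
  have rA := (r1.mul r2).mul r1
  have rB := (r3.mul r4).mul r3
  have rBi : Rep p z x (u ^ k3 * h ^ k4 * u ^ k3)⁻¹ (fun v => (-v.2, v.1)) := by
    apply rB.inv
    intro v
    simp only [Function.comp_apply, sX, sY]
    refine Prod.ext ?_ ?_
    · show -v.2 + 1 * v.1 + 1 * (-1 * (-v.2 + 1 * v.1) + v.1) = v.1
      ring
    · show -1 * (-v.2 + 1 * v.1) + v.1 = v.2
      ring
  have rg := rA.mul rBi
  have hu : u ∈ Subgroup.closure ({u, h} : Set G) := Subgroup.subset_closure (by simp)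
  have hh : h ∈ Subgroup.closure ({u, h} : Set G) := Subgroup.subset_closure (by simp)
  refine ⟨u ^ k1 * h ^ k2 * u ^ k1 * (u ^ k3 * h ^ k4 * u ^ k3)⁻¹, ?_, ?_, ?_⟩
  · exact mul_mem (mul_mem (mul_mem (pow_mem hu _) (pow_mem hh _)) (pow_mem hu _))
      (inv_mem (mul_mem (mul_mem (pow_mem hu _) (pow_mem hh _)) (pow_mem hu _)))
  · have h0 := rg (((1 : ℕ) : ZMod p), ((0 : ℕ) : ZMod p))
    have h1 : ee p z x (((1 : ℕ) : ZMod p), ((0 : ℕ) : ZMod p)) = z := by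
      show z ^ (((1 : ℕ) : ZMod p)).val * x ^ (((0 : ℕ) : ZMod p)).val = z
      rw [pow_val hz, pow_val hx, pow_one, pow_zero, mul_one]
    have h2 : ((((sX p L ∘ sY p (-L⁻¹)) ∘ sX p L)) ∘ fun v : ZMod p × ZMod p => (-v.2, v.1))
        (((1 : ℕ) : ZMod p), ((0 : ℕ) : ZMod p)) = (L, ((0 : ℕ) : ZMod p)) := by
      simp only [Function.comp_apply, sX, sY]
      refine Prod.ext ?_ ?_
      · show -((0 : ℕ) : ZMod p) + L * ((1 : ℕ) : ZMod p)
          + L * (-L⁻¹ * (-((0 : ℕ) : ZMod p) + L * ((1 : ℕ) : ZMod p)) + ((1 : ℕ) : ZMod p)) = L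
        push_cast
        field_simp
        ring
      · show -L⁻¹ * (-((0 : ℕ) : ZMod p) + L * ((1 : ℕ) : ZMod p)) + ((1 : ℕ) : ZMod p)
          = ((0 : ℕ) : ZMod p)
        push_cast
        field_simp
        ring
    rw [h1, h2] at h0
    rw [h0]
    show z ^ L.val * x ^ (((0 : ℕ) : ZMod p)).val = z ^ L.val
    rw [pow_val hx, pow_zero, mul_one]
  · have h0 := rg (((0 : ℕ) : ZMod p), ((1 : ℕ) : ZMod p))
    have h1 : ee p z x (((0 : ℕ) : ZMod p), ((1 : ℕ) : ZMod p)) = x := by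
      show z ^ (((0 : ℕ) : ZMod p)).val * x ^ (((1 : ℕ) : ZMod p)).val = x
      rw [pow_val hz, pow_val hx, pow_one, pow_zero, one_mul]
    have h2 : ((((sX p L ∘ sY p (-L⁻¹)) ∘ sX p L)) ∘ fun v : ZMod p × ZMod p => (-v.2, v.1))
        (((0 : ℕ) : ZMod p), ((1 : ℕ) : ZMod p)) = (((0 : ℕ) : ZMod p), L⁻¹) := by
      simp only [Function.comp_apply, sX, sY]
      refine Prod.ext ?_ ?_
      · show -((1 : ℕ) : ZMod p) + L * ((0 : ℕ) : ZMod p)
          + L * (-L⁻¹ * (-((1 : ℕ) : ZMod p) + L * ((0 : ℕ) : ZMod p)) + ((0 : ℕ) : ZMod p))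
          = ((0 : ℕ) : ZMod p)
        push_cast
        field_simp
        ring
      · show -L⁻¹ * (-((1 : ℕ) : ZMod p) + L * ((0 : ℕ) : ZMod p)) + ((0 : ℕ) : ZMod p)
          = L⁻¹
        push_cast
        field_simp
        ring
    rw [h1, h2] at h0
    rw [h0]
    show z ^ (((0 : ℕ) : ZMod p)).val * x ^ (L⁻¹).val = x ^ (L⁻¹).val
    rw [pow_val hz, pow_zero, one_mul]

end Cfsg.Agent.Lib.Helper59.XS
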