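import Cfsg.Agent.Lib.Helper90.EssTwist

set_option autoImplicit false
set_option linter.deprecated false

namespace Cfsg.Agent.Lib.Helper90

open Cfsg Cfsg.FusionSystem

section AbIdx

variable {Ω : Type*} [Group Ω]

/-- `x⁻¹ a x a⁻¹`. -/
def kap (x a : Ω) : Ω := x⁻¹ * (a * x * a⁻¹)

theorem kap_one (x : Ω) : kap x 1 = 1 := by
  unfold kap
  group

theorem kap_eq_one_iff (x a : Ω) : kap x a = 1 ↔ a * x = x * a := by
  unfold kap
  constructor
  · intro h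
    have h1 : a * x = x * (x⁻¹ * (a * x * a⁻¹)) * a := by group
    rw [h1, h, mul_one]
  · intro h
    rw [h]
    group

/-- Standing hypotheses: `A` is an abelian subgroup of index `p` of the nonabelian group `S`. -/
structure AbIdx (p : ℕ) (S A : Subgroup Ω) : Prop where
  le : A ≤ S
  comm : ∀ a ∈ A, ∀ b ∈ A, a * b = b * a
  normal : ∀ s ∈ S, ∀ a ∈ A, s * a * s⁻¹ ∈ A
  gen : ∀ x ∈ S, x ∉ A → ∀ s ∈ S, ∃ k : ℕ, s * (x ^ k)⁻¹ ∈ A
  pow : ∀ x ∈ S, x ^ p ∈ A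
  nonab : ∃ s ∈ S, ∃ t ∈ S, s * t ≠ t * s

theorem abIdx_of_hyp {S : Subgroup Ω} [Finite S] (p : ℕ) [hp : Fact p.Prime] (hS : IsPGroup p S)
    (hna : ¬ IsMulCommutative ↥S) (A : Subgroup Ω)
    (hA : A ≤ S ∧ IsMulCommutative ↥A ∧ (A.subgroupOf S).index = p) : AbIdx p S A := by
  obtain ⟨hAS, hAc, hAi⟩ := hA
  have hnorm : (A.subgroupOf S).Normal := by
    apply Subgroup.normal_of_index_eq_minFac_card
    obtain ⟨n, hn⟩ := IsPGroup.iff_card.mp hS
    have hn0 : n ≠ 0 := by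
      rintro rfl
      rw [pow_zero] at hn
      have h1 : (A.subgroupOf S).index ∣ Nat.card S := Subgroup.index_dvd_card _
      rw [hn, hAi, Nat.dvd_one] at h1
      exact hp.out.one_lt.ne' h1
    rw [hAi, hn, Nat.pow_minFac hn0, hp.out.minFac_eq]
  refine ⟨hAS, ?_, ?_, ?_, ?_, ?_⟩
  · intro a ha b hb
    exact congrArg Subtype.val (hAc.is_comm.comm ⟨a, ha⟩ ⟨b, hb⟩)
  · intro s hs a ha
    have h1 := hnorm.conj_mem ⟨a, hAS ha⟩ (Subgroup.mem_subgroupOf.mpr ha) ⟨s, hs⟩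
    exact Subgroup.mem_subgroupOf.mp h1
  · intro x hx hxA s hs
    obtain ⟨k, hk⟩ := exists_pow_mul_mem_of_index_prime (A.subgroupOf S) hAi
      (u := ⟨x, hx⟩) (fun h => hxA (Subgroup.mem_subgroupOf.mp h)) ⟨s, hs⟩
    exact ⟨k, Subgroup.mem_subgroupOf.mp hk⟩
  · intro x hx
    exact Subgroup.mem_subgroupOf.mp (pow_mem_of_index_prime (A.subgroupOf S) hAi ⟨x, hx⟩)
  · by_contra hcon
    push Not at hcon
    exact hna ⟨⟨fun a b => Subtype.ext (hcon a.1 a.2 b.1 b.2)⟩⟩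

namespace AbIdx

variable {p : ℕ} {S A : Subgroup Ω} (h : AbIdx p S A)
include h

theorem decomp {x : Ω} (hx : x ∈ S) (hxA : x ∉ A) {s : Ω} (hs : s ∈ S) :
    ∃ (a : Ω) (k : ℕ), a ∈ A ∧ s = a * x ^ k := by
  obtain ⟨k, hk⟩ := h.gen x hx hxA s hs
  exact ⟨s * (x ^ k)⁻¹, k, hk, by group⟩

theorem mem_center {x a : Ω} (hx : x ∈ S) (hxA : x ∉ A) (ha : a ∈ A) (hc : a * x = x * a) :
    a ∈ S ⊓ Subgroup.centralizer (S : Set Ω) := by
  refine Subgroup.mem_inf.mpr ⟨h.le ha, ?_⟩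
  rw [Subgroup.mem_centralizer_iff]
  intro s hs
  obtain ⟨a', k, ha', rfl⟩ := h.decomp hx hxA hs
  have h1 : x ^ k * a = a * x ^ k := by
    have h2 : Commute a x := hc
    exact (h2.pow_right k).eq.symm
  rw [mul_assoc, h1, ← mul_assoc, h.comm a' ha' a ha, mul_assoc]

theorem center_le : S ⊓ Subgroup.centralizer (S : Set Ω) ≤ A := by
  intro z hz
  by_contra hzA
  obtain ⟨hzS, hzc⟩ := Subgroup.mem_inf.mp hz
  rw [Subgroup.mem_centralizer_iff] at hzc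
  have hall : ∀ s ∈ S, s ∈ S ⊓ Subgroup.centralizer (S : Set Ω) := by
    intro s hs
    obtain ⟨a, k, ha, rfl⟩ := h.decomp hzS hzA hs
    exact Subgroup.mul_mem _ (h.mem_center hzS hzA ha (hzc a (h.le ha)))
      (Subgroup.pow_mem _ hz k)
  obtain ⟨s, hs, t, ht, hst⟩ := h.nonab
  apply hst
  have h1 := (Subgroup.mem_inf.mp (hall t ht)).2
  rw [Subgroup.mem_centralizer_iff] at h1
  exact h1 s hs

theorem kap_mem {x a : Ω} (hx : x ∈ S) (ha : a ∈ A) : kap x a ∈ A := by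
  have h1 : kap x a = (x⁻¹ * a * x⁻¹⁻¹) * a⁻¹ := by
    unfold kap
    group
  rw [h1]
  exact A.mul_mem (h.normal x⁻¹ (S.inv_mem hx) a ha) (A.inv_mem ha)

theorem kap_mul {x a b : Ω} (hx : x ∈ S) (ha : a ∈ A) (hb : b ∈ A) :
    kap x (a * b) = kap x a * kap x b := by
  have h1 : kap x (a * b) = (x⁻¹ * a * x⁻¹⁻¹) * (kap x b * a⁻¹) := by
    unfold kap
    group
  have h2 : kap x a * kap x b = (x⁻¹ * a * x⁻¹⁻¹) * (a⁻¹ * kap x b) := by
    unfold kap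
    group
  rw [h1, h2, h.comm _ (h.kap_mem hx hb) _ (A.inv_mem ha)]

theorem kap_pow {x a : Ω} (hx : x ∈ S) (ha : a ∈ A) (k : ℕ) : kap x (a ^ k) = kap x a ^ k := by
  induction k with
  | zero =>
    rw [pow_zero, pow_zero]
    exact kap_one x
  | succ k ih => rw [pow_succ, pow_succ, h.kap_mul hx (A.pow_mem ha k) ha, ih]

theorem kap_inv {x a : Ω} (hx : x ∈ S) (ha : a ∈ A) : kap x a⁻¹ = (kap x a)⁻¹ := by
  have h1 := h.kap_mul hx ha (A.inv_mem ha)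
  rw [mul_inv_cancel, kap_one] at h1
  exact eq_inv_of_mul_eq_one_right h1.symm

end AbIdx

theorem mem_Z2_iff {S : Subgroup Ω} (u : Ω) : u ∈ (upperCentralSeries ↥S 2).map S.subtype ↔
    u ∈ S ∧ ∀ s ∈ S, u * s * u⁻¹ * s⁻¹ ∈ S ⊓ Subgroup.centralizer (S : Set Ω) := by
  have hcenter : ∀ w : ↥S, w ∈ Subgroup.center ↥S ↔
      (w : Ω) ∈ S ⊓ Subgroup.centralizer (S : Set Ω) := by
    intro w
    rw [Subgroup.mem_center_iff, Subgroup.mem_inf, Subgroup.mem_centralizer_iff]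
    constructor
    · intro hw
      exact ⟨w.2, fun s hs => congrArg Subtype.val (hw ⟨s, hs⟩)⟩
    · rintro ⟨-, hw⟩ g
      exact Subtype.ext (hw g.1 g.2)
  constructor
  · rintro ⟨w, hw, rfl⟩
    refine ⟨w.2, fun s hs => ?_⟩
    have h1 : w ∈ Subgroup.upperCentralSeries ↥S (1 + 1) := hw
    rw [Subgroup.mem_upperCentralSeries_succ_iff, Subgroup.upperCentralSeries_one] at h1
    exact (hcenter _).mp (h1 ⟨s, hs⟩)
  · rintro ⟨huS, hu⟩
    refine ⟨⟨u, huS⟩, ?_, rfl⟩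
    show (⟨u, huS⟩ : ↥S) ∈ Subgroup.upperCentralSeries ↥S (1 + 1)
    rw [Subgroup.mem_upperCentralSeries_succ_iff, Subgroup.upperCentralSeries_one]
    intro y
    exact (hcenter _).mpr (hu y.1 y.2)

end AbIdx

section AbIdxEss

variable {Ω : Type*} [Group Ω]

/-- Structure of an essential subgroup `P ≠ A` of a saturated fusion system over a nonabelian
`p`-group `S` with an abelian subgroup `A` of index `p` such that `P` is not contained... -/
theorem abIdx_essential {S : Subgroup Ω} [Finite S] (p : ℕ) [hp : Fact p.Prime]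
    (hS : IsPGroup p S) (F : FusionSystem S) (hF : F.IsSaturated p) {A : Subgroup Ω}
    (h : AbIdx p S A) {P : Subgroup Ω} (hP : F.IsEssential p P) (hPA : P ≠ A) :
    ∃ x ∈ P, x ∉ A ∧ ∃ a1 ∈ A, a1 ∈ Subgroup.normalizer (P : Set Ω) ∧ a1 ∉ P ∧ a1 ^ p ∈ P ∧
      (∀ a2 ∈ A, a2 ∈ Subgroup.normalizer (P : Set Ω) → ∃ k : ℕ, a2 * (a1 ^ k)⁻¹ ∈ P) ∧
      (P.subgroupOf (S ⊓ Subgroup.normalizer (P : Set Ω))).index = p ∧
      ((P ⊓ A ≤ S ⊓ Subgroup.centralizer (S : Set Ω) ∧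
          P = (S ⊓ Subgroup.centralizer (S : Set Ω)) ⊔ Subgroup.zpowers x) ∨
        ((upperCentralSeries ↥S 2).map S.subtype ≤ A ∧
          P ⊓ A = (upperCentralSeries ↥S 2).map S.subtype ∧
          P = (upperCentralSeries ↥S 2).map S.subtype ⊔ Subgroup.zpowers x ∧
          ∃ u0 ∈ P ⊓ A, u0 ∉ S ⊓ Subgroup.centralizer (S : Set Ω) ∧
            u0 ^ p ∈ S ⊓ Subgroup.centralizer (S : Set Ω) ∧
            ∀ v ∈ P ⊓ A, ∃ k : ℕ, v * (u0 ^ k)⁻¹ ∈ S ⊓ Subgroup.centralizer (S : Set Ω))) := by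
  have hPS : P ≤ S := hP.1.1
  have hcen : centralizerIn S P ≤ P := hP.1.2 P (isConj_refl F hPS)
  have hfin : Finite P := finite_of_le hPS
  have hZA0 := h.center_le
  have hmemc := fun {x a : Ω} (hx : x ∈ S) (hxA : x ∉ A) (ha : a ∈ A) (hc : a * x = x * a) =>
    h.mem_center hx hxA ha hc
  obtain ⟨Z, hZ⟩ : ∃ Z : Subgroup Ω, Z = S ⊓ Subgroup.centralizer (S : Set Ω) := ⟨_, rfl⟩
  have hZ2 := fun (u : Ω) => mem_Z2_iff (S := S) u
  rw [← hZ] at hZA0 hmemc hZ2 ⊢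
  have hZA : Z ≤ A := hZA0
  have hZc : ∀ z ∈ Z, ∀ s ∈ S, s * z = z * s := by
    intro z hz s hs
    rw [hZ] at hz
    exact Subgroup.mem_centralizer_iff.mp (Subgroup.mem_inf.mp hz).2 s hs
  have hZP : Z ≤ P := by
    intro z hz
    apply hcen
    have hz' := hz
    rw [hZ] at hz'
    refine Subgroup.mem_inf.mpr ⟨(Subgroup.mem_inf.mp hz').1, ?_⟩
    rw [Subgroup.mem_centralizer_iff]
    intro y hy
    exact hZc z hz y (hPS hy)
  obtain ⟨x, hxP, hxA⟩ : ∃ x ∈ P, x ∉ A := by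
    by_contra hcon
    push Not at hcon
    apply hPA
    apply le_antisymm hcon
    intro a ha
    apply hcen
    refine Subgroup.mem_inf.mpr ⟨h.le ha, ?_⟩
    rw [Subgroup.mem_centralizer_iff]
    intro y hy
    exact h.comm y (hcon y hy) a ha
  have hxS : x ∈ S := hPS hxP
  refine ⟨x, hxP, hxA, ?_⟩
  have hdec : ∀ y ∈ P, ∃ k : ℕ, y * (x ^ k)⁻¹ ∈ P ⊓ A := by
    intro y hy
    obtain ⟨k, hk⟩ := h.gen x hxS hxA y (hPS hy)
    exact ⟨k, Subgroup.mem_inf.mpr ⟨P.mul_mem hy (P.inv_mem (P.pow_mem hxP k)), hk⟩⟩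
  have hKn0 : ((P ⊓ A).subgroupOf P).Normal := by
    constructor
    intro u hu y
    rw [Subgroup.mem_subgroupOf] at hu ⊢
    exact Subgroup.mem_inf.mpr ⟨(y * u * y⁻¹).2, h.normal y (hPS y.2) u (Subgroup.mem_inf.mp hu).2⟩
  have hKi0 : ((P ⊓ A).subgroupOf P).index = p := by
    refine index_eq_prime_of_gen ((P ⊓ A).subgroupOf P) (u := ⟨x, hxP⟩) ?_ ?_ ?_
    · intro hu
      exact hxA (Subgroup.mem_inf.mp (Subgroup.mem_subgroupOf.mp hu)).2
    · rw [Subgroup.mem_subgroupOf]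
      exact Subgroup.mem_inf.mpr ⟨P.pow_mem hxP p, h.pow x hxS⟩
    · intro v
      obtain ⟨k, hk⟩ := hdec v v.2
      exact ⟨k, Subgroup.mem_subgroupOf.mpr hk⟩
  obtain ⟨N, hN⟩ : ∃ N : Subgroup Ω, N = A ⊓ Subgroup.normalizer (P : Set Ω) := ⟨_, rfl⟩
  have hNmem : ∀ a, a ∈ N ↔ a ∈ A ∧ a ∈ Subgroup.normalizer (P : Set Ω) := by
    intro a
    rw [hN]
    exact Subgroup.mem_inf
  have hkapP0 : ∀ a ∈ N, kap x a ∈ P ⊓ A := by
    intro a ha
    obtain ⟨haA, haN⟩ := (hNmem a).mp ha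
    refine Subgroup.mem_inf.mpr ⟨?_, h.kap_mem hxS haA⟩
    exact P.mul_mem (P.inv_mem hxP) ((Subgroup.mem_normalizer_iff.mp haN x).mp hxP)
  obtain ⟨hh, hhA, hmain⟩ := essential_transvection p hS F hF hP (P ⊓ A) hKn0 hKi0 x hxP
    (fun hx0 => hxA (Subgroup.mem_inf.mp hx0).2) (N : Set Ω)
    (fun a ha => h.le ((hNmem a).mp ha).1) (fun a ha => ((hNmem a).mp ha).2)
    (fun a ha u hu _ => by
      rw [h.comm a ((hNmem a).mp ha).1 u (Subgroup.mem_inf.mp hu).2, mul_inv_cancel_right])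
    (fun a ha => hkapP0 a ha)
  obtain ⟨K, hK⟩ : ∃ K : Subgroup P, K = (P ⊓ A).subgroupOf P := ⟨_, rfl⟩
  obtain ⟨K1, hK1⟩ : ∃ K1 : Subgroup P, K1 = K.map hh.toMonoidHom := ⟨_, rfl⟩
  have hKn : K.Normal := by rw [hK]; exact hKn0
  have hKi : K.index = p := by rw [hK]; exact hKi0
  have hK1n : K1.Normal := by
    rw [hK1]
    exact Subgroup.Normal.map hKn _ hh.surjective
  have hK1i : K1.index = p := by
    rw [hK1]
    exact (Subgroup.index_map_equiv K hh).trans hKi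
  have hKmem : ∀ w : P, w ∈ K ↔ (w : Ω) ∈ A := by
    intro w
    rw [hK, Subgroup.mem_subgroupOf, Subgroup.mem_inf]
    exact ⟨fun hw => hw.2, fun hw => ⟨w.2, hw⟩⟩
  have hmain' : ∀ a ∈ N, a ∉ P → ∀ w : P, (w : Ω) = kap x a → w ∉ K1 := by
    intro a ha haP w hw hwK1
    apply hmain a ha haP
    rw [hK1, hK] at hwK1
    exact ⟨w, hwK1, hw⟩
  obtain ⟨s, hsS, hsN, hsP⟩ := essential_exists_normalizer p hS F hF hP
  obtain ⟨k0, hk0⟩ := h.gen x hxS hxA s hsS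
  obtain ⟨a1, ha1⟩ : ∃ a1, a1 = s * (x ^ k0)⁻¹ := ⟨_, rfl⟩
  have ha1A : a1 ∈ A := by rw [ha1]; exact hk0
  have hPN : P ≤ Subgroup.normalizer (P : Set Ω) := Subgroup.le_normalizer
  have ha1N : a1 ∈ Subgroup.normalizer (P : Set Ω) := by
    rw [ha1]
    exact Subgroup.mul_mem _ hsN (Subgroup.inv_mem _ (hPN (P.pow_mem hxP k0)))
  have ha1P : a1 ∉ P := by
    intro hcon
    apply hsP
    have h1 : s = a1 * x ^ k0 := by rw [ha1]; group
    rw [h1]
    exact P.mul_mem hcon (P.pow_mem hxP k0)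
  have ha1mem : a1 ∈ N := (hNmem a1).mpr ⟨ha1A, ha1N⟩
  obtain ⟨c1, hc1⟩ : ∃ c1 : P, (c1 : Ω) = kap x a1 :=
    ⟨⟨kap x a1, (Subgroup.mem_inf.mp (hkapP0 a1 ha1mem)).1⟩, rfl⟩
  have hc1K : c1 ∈ K := (hKmem c1).mpr (by rw [hc1]; exact h.kap_mem hxS ha1A)
  have hc1K1 : c1 ∉ K1 := hmain' a1 ha1mem ha1P c1 hc1
  have hpowP : a1 ^ p ∈ P := by
    by_contra hcon
    have hmemN : a1 ^ p ∈ N := N.pow_mem ha1mem p
    apply hmain' (a1 ^ p) hmemN hcon (c1 ^ p)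
    · rw [Subgroup.coe_pow, hc1, h.kap_pow hxS ha1A]
    · exact pow_mem_of_index_prime K1 hK1i c1
  have hgenN : ∀ a2 ∈ A, a2 ∈ Subgroup.normalizer (P : Set Ω) →
      ∃ k : ℕ, a2 * (a1 ^ k)⁻¹ ∈ P := by
    intro a2 ha2A ha2N
    have ha2mem : a2 ∈ N := (hNmem a2).mpr ⟨ha2A, ha2N⟩
    obtain ⟨c2, hc2⟩ : ∃ c2 : P, (c2 : Ω) = kap x a2 :=
      ⟨⟨kap x a2, (Subgroup.mem_inf.mp (hkapP0 a2 ha2mem)).1⟩, rfl⟩
    obtain ⟨k, hk⟩ := exists_pow_mul_mem_of_index_prime K1 hK1i hc1K1 c2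
    refine ⟨k, ?_⟩
    by_contra hcon
    have hmemN : a2 * (a1 ^ k)⁻¹ ∈ N := N.mul_mem ha2mem (N.inv_mem (N.pow_mem ha1mem k))
    apply hmain' _ hmemN hcon (c2 * (c1 ^ k)⁻¹) _ hk
    rw [Subgroup.coe_mul, Subgroup.coe_inv, Subgroup.coe_pow, hc1, hc2,
      h.kap_mul hxS ha2A (A.inv_mem (A.pow_mem ha1A k)), h.kap_inv hxS (A.pow_mem ha1A k),
      h.kap_pow hxS ha1A]
  refine ⟨a1, ha1A, ha1N, ha1P, hpowP, hgenN, ?_, ?_⟩
  · have hnorm : (P.subgroupOf (S ⊓ Subgroup.normalizer (P : Set Ω))).Normal :=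
      Subgroup.normal_subgroupOf_of_le_normalizer inf_le_right
    refine index_eq_prime_of_gen _
      (u := ⟨a1, Subgroup.mem_inf.mpr ⟨h.le ha1A, ha1N⟩⟩) ?_ ?_ ?_
    · intro hu
      exact ha1P (Subgroup.mem_subgroupOf.mp hu)
    · rw [Subgroup.mem_subgroupOf]
      exact hpowP
    · intro v
      obtain ⟨hvS, hvN⟩ := Subgroup.mem_inf.mp v.2
      obtain ⟨j, hj⟩ := h.gen x hxS hxA v hvS
      have haN : (v : Ω) * (x ^ j)⁻¹ ∈ Subgroup.normalizer (P : Set Ω) :=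
        Subgroup.mul_mem _ hvN (Subgroup.inv_mem _ (hPN (P.pow_mem hxP j)))
      obtain ⟨k, hk⟩ := hgenN _ hj haN
      refine ⟨k, ?_⟩
      rw [Subgroup.mem_subgroupOf]
      have h1 : (v : Ω) * (a1 ^ k)⁻¹ =
          ((v : Ω) * (x ^ j)⁻¹ * (a1 ^ k)⁻¹) * (a1 ^ k * x ^ j * (a1 ^ k)⁻¹) := by group
      show (v : Ω) * (a1 ^ k)⁻¹ ∈ P
      rw [h1]
      exact P.mul_mem hk ((Subgroup.mem_normalizer_iff.mp (Subgroup.pow_mem _ ha1N k) _).mp
        (P.pow_mem hxP j))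
  · by_cases hcase : P ⊓ A ≤ Z
    · left
      refine ⟨hcase, le_antisymm ?_ (sup_le hZP (Subgroup.zpowers_le.mpr hxP))⟩
      intro y hy
      obtain ⟨k, hk⟩ := hdec y hy
      have h1 : y = (y * (x ^ k)⁻¹) * x ^ k := by group
      rw [h1]
      exact Subgroup.mul_mem_sup (hcase hk) (Subgroup.pow_mem _ (Subgroup.mem_zpowers x) k)
    · right
      obtain ⟨u0, hu0, hu0Z⟩ := SetLike.not_le_iff_exists.mp hcase
      have hB1 : ∀ w ∈ P, (∀ y ∈ P, w * y = y * w) → w ∈ Z := by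
        intro w hw hwc
        by_cases hwA : w ∈ A
        · exact hmemc hxS hxA hwA (hwc x hxP)
        · exfalso
          apply hu0Z
          exact hmemc (hPS hw) hwA (Subgroup.mem_inf.mp hu0).2
            ((hwc u0 (Subgroup.mem_inf.mp hu0).1).symm)
      have hB2 : ∀ w : P, (w : Ω) ∈ Z → w ∈ K1 := by
        intro w hw
        rw [hK1]
        refine ⟨hh⁻¹ w, (hKmem _).mpr ?_, by simp⟩
        apply hZA
        apply hB1 _ (hh⁻¹ w).2
        intro y hy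
        have h1 : hh⁻¹ w * ⟨y, hy⟩ = ⟨y, hy⟩ * hh⁻¹ w := by
          apply hh.injective
          rw [map_mul, map_mul]
          have h2 : hh (hh⁻¹ w) = w := by simp
          rw [h2]
          apply Subtype.ext
          rw [Subgroup.coe_mul, Subgroup.coe_mul]
          exact (hZc _ hw _ (hPS (hh ⟨y, hy⟩).2)).symm
        exact congrArg Subtype.val h1
      have hK1c : ∀ a ∈ K1, ∀ b ∈ K1, a * b = b * a := by
        rw [hK1]
        rintro _ ⟨a, ha, rfl⟩ _ ⟨b, hb, rfl⟩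
        show hh a * hh b = hh b * hh a
        rw [← map_mul, ← map_mul]
        congr 1
        apply Subtype.ext
        rw [Subgroup.coe_mul, Subgroup.coe_mul]
        exact h.comm _ ((hKmem a).mp ha) _ ((hKmem b).mp hb)
      obtain ⟨w1, hw1K1, hw1K⟩ : ∃ w1 ∈ K1, w1 ∉ K := by
        by_contra hcon
        push Not at hcon
        have hle : K1 ≤ K := hcon
        have hcard : Nat.card K ≤ Nat.card K1 := by
          rw [hK1, Subgroup.card_map_of_injective hh.injective]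
        have heq := Subgroup.eq_of_le_of_card_ge hle hcard
        rw [heq] at hc1K1
        exact hc1K1 hc1K
      have hB3 : ∀ w : P, w ∈ K → w ∈ K1 → (w : Ω) ∈ Z := by
        intro w hwK hwK1
        obtain ⟨k, hk⟩ := exists_pow_mul_mem_of_index_prime K hKi hw1K (⟨x, hxP⟩ : P)
        have e1 : Commute w (⟨x, hxP⟩ * (w1 ^ k)⁻¹) := by
          apply Subtype.ext
          rw [Subgroup.coe_mul, Subgroup.coe_mul]
          exact h.comm _ ((hKmem w).mp hwK) _ ((hKmem _).mp hk)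
        have e2 : Commute w (w1 ^ k) := hK1c w hwK1 _ (K1.pow_mem hw1K1 k)
        have hc := e1.mul_right e2
        rw [inv_mul_cancel_right] at hc
        exact hmemc hxS hxA ((hKmem w).mp hwK) (congrArg Subtype.val hc.eq)
      have hB4 : ∀ y ∈ P, ∀ y' ∈ P, y * y' * y⁻¹ * y'⁻¹ ∈ Z := by
        intro y hy y' hy'
        have e1 := comm_mem_of_index_prime K hKi (⟨y, hy⟩ : P) ⟨y', hy'⟩
        have e2 := comm_mem_of_index_prime K1 hK1i (⟨y, hy⟩ : P) ⟨y', hy'⟩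
        exact hB3 _ e1 e2
      have hB5 : P ⊓ A ≤ (upperCentralSeries ↥S 2).map S.subtype := by
        intro u hu
        obtain ⟨huP, huA⟩ := Subgroup.mem_inf.mp hu
        rw [hZ2]
        refine ⟨hPS huP, fun s hs => ?_⟩
        obtain ⟨k, hk⟩ := h.gen x hxS hxA s hs
        have hv : x ^ k * u * (x ^ k)⁻¹ ∈ A := h.normal _ (S.pow_mem hxS k) u huA
        have e1 : u * s * u⁻¹ * s⁻¹ = (x ^ k * u * (x ^ k)⁻¹ * u⁻¹)⁻¹ := by
          have e2 : (s * (x ^ k)⁻¹) * (x ^ k * u * (x ^ k)⁻¹) =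
              (x ^ k * u * (x ^ k)⁻¹) * (s * (x ^ k)⁻¹) := h.comm _ hk _ hv
          have e3 : s * u * s⁻¹ = x ^ k * u * (x ^ k)⁻¹ := by
            have e4 : s * u * s⁻¹ =
                (s * (x ^ k)⁻¹) * (x ^ k * u * (x ^ k)⁻¹) * (s * (x ^ k)⁻¹)⁻¹ := by group
            rw [e4, e2, mul_inv_cancel_right]
          have e5 : u * s * u⁻¹ * s⁻¹ = (s * u * s⁻¹ * u⁻¹)⁻¹ := by group
          rw [e5, e3]
        rw [e1]
        exact Z.inv_mem (hB4 _ (P.pow_mem hxP k) u huP)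
      have hZ2c : ∀ a ∈ (upperCentralSeries ↥S 2).map S.subtype, ∀ s ∈ S,
          s⁻¹ * a * s * a⁻¹ ∈ Z := by
        intro a ha s hs
        obtain ⟨-, h2⟩ := (hZ2 a).mp ha
        have h3 := h2 s⁻¹ (S.inv_mem hs)
        have e : s⁻¹ * a * s * a⁻¹ = (a * s⁻¹ * a⁻¹ * s⁻¹⁻¹)⁻¹ := by group
        rw [e]
        exact Z.inv_mem h3
      have hB6 : ∀ a ∈ (upperCentralSeries ↥S 2).map S.subtype, a ∈ A → a ∈ P := by
        intro a haZ2 haA
        have hconj : ∀ b ∈ (upperCentralSeries ↥S 2).map S.subtype, ∀ y ∈ P,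
            b * y * b⁻¹ ∈ P := by
          intro b hb y hy
          have e : b * y * b⁻¹ = y * (y⁻¹ * b * y * b⁻¹) := by group
          rw [e]
          exact P.mul_mem hy (hZP (hZ2c b hb y (hPS hy)))
        have haN : a ∈ Subgroup.normalizer (P : Set Ω) := by
          apply Cfsg.Agent.Lib.Helper87.mem_normalizer_of_conj_mem (hconj a haZ2)
          intro y hy
          have h3 := hconj a⁻¹ (Subgroup.inv_mem _ haZ2) y hy
          rwa [inv_inv] at h3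
        by_contra haP
        have hmemN : a ∈ N := (hNmem a).mpr ⟨haA, haN⟩
        obtain ⟨c, hc⟩ : ∃ c : P, (c : Ω) = kap x a :=
          ⟨⟨kap x a, (Subgroup.mem_inf.mp (hkapP0 a hmemN)).1⟩, rfl⟩
        apply hmain' a hmemN haP c hc
        apply hB2
        rw [hc]
        have h3 := hZ2c a haZ2 x hxS
        have e : kap x a = x⁻¹ * a * x * a⁻¹ := by
          unfold kap
          group
        rw [e]
        exact h3
      have hB7 : (upperCentralSeries ↥S 2).map S.subtype ≤ A := by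
        intro y hyZ2
        by_contra hyA
        have hyS : y ∈ S := ((hZ2 y).mp hyZ2).1
        apply ha1P
        apply hB6 a1 _ ha1A
        rw [hZ2]
        refine ⟨h.le ha1A, fun s hs => ?_⟩
        obtain ⟨k, hk⟩ := h.gen y hyS hyA s hs
        have hykZ2 : y ^ k ∈ (upperCentralSeries ↥S 2).map S.subtype :=
          Subgroup.pow_mem _ hyZ2 k
        obtain ⟨-, h2⟩ := (hZ2 (y ^ k)).mp hykZ2
        have h3 := h2 a1 (h.le ha1A)
        have e : a1 * s * a1⁻¹ * s⁻¹ = (s * (y ^ k)⁻¹) * (y ^ k * a1 * (y ^ k)⁻¹ * a1⁻¹)⁻¹ *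
            (s * (y ^ k)⁻¹)⁻¹ := by
          have ec : a1 * (s * (y ^ k)⁻¹) = (s * (y ^ k)⁻¹) * a1 := h.comm _ ha1A _ hk
          have e6 : a1 * s * a1⁻¹ * s⁻¹ = (a1 * (s * (y ^ k)⁻¹)) * (y ^ k * a1⁻¹ * (y ^ k)⁻¹) *
              (s * (y ^ k)⁻¹)⁻¹ := by group
          rw [e6, ec]
          group
        rw [e]
        have hz := Z.inv_mem h3
        have hcz := hZc _ hz (s * (y ^ k)⁻¹) (S.mul_mem hs (S.inv_mem (S.pow_mem hyS k)))
        rw [hcz, mul_inv_cancel_right]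
        exact hz
      have hB8 : P ⊓ A = (upperCentralSeries ↥S 2).map S.subtype :=
        le_antisymm hB5 (fun a ha => Subgroup.mem_inf.mpr ⟨hB6 a ha (hB7 ha), hB7 ha⟩)
      have hu0K : (⟨u0, (Subgroup.mem_inf.mp hu0).1⟩ : P) ∈ K :=
        (hKmem _).mpr (Subgroup.mem_inf.mp hu0).2
      refine ⟨hB7, hB8, ?_, u0, hu0, hu0Z, ?_, ?_⟩
      · apply le_antisymm
        · intro y hy
          obtain ⟨k, hk⟩ := hdec y hy
          have h1 : y = (y * (x ^ k)⁻¹) * x ^ k := by group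
          rw [h1]
          exact Subgroup.mul_mem_sup (hB5 hk) (Subgroup.pow_mem _ (Subgroup.mem_zpowers x) k)
        · rw [← hB8]
          exact sup_le inf_le_left (Subgroup.zpowers_le.mpr hxP)
      · exact hB3 _ (K.pow_mem hu0K p) (pow_mem_of_index_prime K1 hK1i _)
      · intro v hv
        have hu0K1 : (⟨u0, (Subgroup.mem_inf.mp hu0).1⟩ : P) ∉ K1 :=
          fun hcon => hu0Z (hB3 _ hu0K hcon)
        have hvK : (⟨v, (Subgroup.mem_inf.mp hv).1⟩ : P) ∈ K :=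
          (hKmem _).mpr (Subgroup.mem_inf.mp hv).2
        obtain ⟨k, hk⟩ := exists_pow_mul_mem_of_index_prime K1 hK1i hu0K1
          ⟨v, (Subgroup.mem_inf.mp hv).1⟩
        exact ⟨k, hB3 _ (K.mul_mem hvK (K.inv_mem (K.pow_mem hu0K k))) hk⟩

end AbIdxEss

end Cfsg.Agent.Lib.Helper90
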