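import Cfsg.Agent.Lib.Helper3.BG12Pieces

/-!
# Piece Q20F of B&G 12.10 (helper3, S1420)

An element of odd order normalizing a group `A` of order `p ^ 2`, all of whose prime divisors are
at least `p` and whose `p`-part centralizes `A`, centralizes `A`.
-/

set_option autoImplicit false
set_option linter.style.haveILetI false

open Cfsg Cfsg.Agent.Lib.Helper32 Cfsg.Agent.Lib.Helper32.BG10 Cfsg.Agent.Lib.Helper3.BG12 Cfsg.Agent.Lib.Helper3.BG12S

namespace Cfsg.Agent.Lib.Helper90.BG12

universe u

variable {G : Type u} [Group G] [Finite G]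

/-- a `q`-element normalizing a group of order `p ^ 2`, with `q ≥ p + 2` a prime, centralizes it -/
theorem q20f_qelt {p : ℕ} [Fact p.Prime] {A : Subgroup G} (hA : Nat.card A = p ^ 2)
    {q e : ℕ} (hq : q.Prime) (hqp : p + 2 ≤ q) {u : G}
    (hu : u ∈ Subgroup.normalizer (A : Set G)) (hue : u ^ q ^ e = 1) :
    u ∈ Subgroup.centralizer (A : Set G) := by
  classical
  have hpp : p.Prime := Fact.out
  haveI : Fact q.Prime := ⟨hq⟩
  have hnorm : ∀ a ∈ A, u * a * u⁻¹ ∈ A := fun a ha => (Subgroup.mem_normalizer_iff.1 hu a).1 ha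
  let f : Function.End ↥A := fun a => ⟨u * (a : G) * u⁻¹, hnorm a a.2⟩
  have hfpow : ∀ (k : ℕ) (a : ↥A), (((f ^ k) a : ↥A) : G) = u ^ k * (a : G) * (u ^ k)⁻¹ := by
    intro k
    induction k with
    | zero =>
      intro a
      rw [pow_zero, pow_zero]
      show ((a : ↥A) : G) = 1 * (a : G) * 1⁻¹
      group
    | succ k ih =>
      intro a
      rw [pow_succ]
      show (((f ^ k) (f a) : ↥A) : G) = _
      rw [ih (f a)]
      show u ^ k * (u * (a : G) * u⁻¹) * (u ^ k)⁻¹ = _
      rw [pow_succ]
      group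
  have hf : f ^ q ^ e = 1 := by
    funext a
    apply Subtype.ext
    show (((f ^ q ^ e) a : ↥A) : G) = ((a : ↥A) : G)
    rw [hfpow, hue]
    group
  haveI : Fintype ↥A := Fintype.ofFinite _
  have hmod := Equiv.Perm.card_fixedPoints_modEq (f := f) hf
  -- the subgroup of fixed points
  let Fs : Subgroup ↥A :=
    { carrier := {a | u * (a : G) * u⁻¹ = a}
      mul_mem' := by
        intro a b ha hb
        show u * ((a * b : ↥A) : G) * u⁻¹ = ((a * b : ↥A) : G)
        have ha' : u * (a : G) * u⁻¹ = a := ha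
        have hb' : u * (b : G) * u⁻¹ = b := hb
        calc u * ((a * b : ↥A) : G) * u⁻¹ = (u * (a : G) * u⁻¹) * (u * (b : G) * u⁻¹) := by
              rw [Subgroup.coe_mul]; group
          _ = ((a * b : ↥A) : G) := by rw [ha', hb', Subgroup.coe_mul]
      one_mem' := by
        show u * ((1 : ↥A) : G) * u⁻¹ = ((1 : ↥A) : G)
        simp
      inv_mem' := by
        intro a ha
        have ha' : u * (a : G) * u⁻¹ = a := ha
        show u * ((a⁻¹ : ↥A) : G) * u⁻¹ = ((a⁻¹ : ↥A) : G)
        calc u * ((a⁻¹ : ↥A) : G) * u⁻¹ = (u * (a : G) * u⁻¹)⁻¹ := by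
              rw [Subgroup.coe_inv]; group
          _ = ((a⁻¹ : ↥A) : G) := by rw [ha', Subgroup.coe_inv] }
  have hset : (Fs : Set ↥A) = Function.fixedPoints f := by
    ext a
    show u * (a : G) * u⁻¹ = a ↔ f a = a
    constructor
    · intro h; exact Subtype.ext h
    · intro h; exact congrArg Subtype.val h
  have hcardF : Fintype.card (Function.fixedPoints f) = Nat.card Fs := by
    rw [Fintype.card_eq_nat_card]
    exact (Nat.card_congr (Equiv.setCongr hset)).symm
  have hcardA : Fintype.card ↥A = p ^ 2 := by rw [Fintype.card_eq_nat_card, hA]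
  rw [hcardF, hcardA] at hmod
  have hdvd : Nat.card Fs ∣ p ^ 2 := by
    rw [← hA]; exact Subgroup.card_subgroup_dvd_card Fs
  obtain ⟨j, hj, hjd⟩ := (Nat.dvd_prime_pow hpp).1 hdvd
  have hp2 : 2 ≤ p := hpp.two_le
  have hfix : Nat.card Fs = p ^ 2 := by
    interval_cases j
    · -- d = 1
      exfalso
      rw [hjd, pow_zero] at hmod
      have h1 : q ∣ p ^ 2 - 1 := (Nat.modEq_iff_dvd' (Nat.one_le_pow _ _ hpp.pos)).1 hmod.symm
      have h2 : p ^ 2 - 1 = (p - 1) * (p + 1) := by
        obtain ⟨k, rfl⟩ : ∃ k, p = k + 1 := ⟨p - 1, by omega⟩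
        simp only [Nat.add_sub_cancel]
        have : (k + 1) ^ 2 = k * (k + 1 + 1) + 1 := by ring
        rw [this, Nat.add_sub_cancel]
      rw [h2] at h1
      rcases (Nat.Prime.dvd_mul hq).1 h1 with h3 | h3
      · have := Nat.le_of_dvd (by omega) h3
        omega
      · have := Nat.le_of_dvd (by omega) h3
        omega
    · -- d = p
      exfalso
      rw [hjd, pow_one] at hmod
      have hle : p ≤ p ^ 2 := by nlinarith
      have h1 : q ∣ p ^ 2 - p := (Nat.modEq_iff_dvd' hle).1 hmod.symm
      have h2 : p ^ 2 - p = p * (p - 1) := by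
        obtain ⟨k, rfl⟩ : ∃ k, p = k + 1 := ⟨p - 1, by omega⟩
        simp only [Nat.add_sub_cancel]
        have : (k + 1) ^ 2 = (k + 1) * k + (k + 1) := by ring
        rw [this, Nat.add_sub_cancel]
      rw [h2] at h1
      rcases (Nat.Prime.dvd_mul hq).1 h1 with h3 | h3
      · have := Nat.le_of_dvd hpp.pos h3
        omega
      · have := Nat.le_of_dvd (by omega) h3
        omega
    · exact hjd
  have htop : Fs = ⊤ := (Subgroup.card_eq_iff_eq_top Fs).1 (by rw [hfix, hA])
  rw [Subgroup.mem_centralizer_iff]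
  intro a ha
  have hmem : (⟨a, ha⟩ : ↥A) ∈ Fs := by rw [htop]; exact Subgroup.mem_top _
  have h1 : u * a * u⁻¹ = a := hmem
  calc a * u = (u * a * u⁻¹) * u := by rw [h1]
    _ = u * a := by group

theorem mem_centralizer_of_minFac {p : ℕ} [Fact p.Prime] (hp2 : p ≠ 2) {A : Subgroup G}
    (hA : Nat.card A = p ^ 2) {x : G} (hx : x ∈ Subgroup.normalizer (A : Set G))
    (hodd : Odd (orderOf x)) (hmin : ∀ r : ℕ, r.Prime → r ∣ orderOf x → p ≤ r)
    (hp : ∀ y ∈ Subgroup.zpowers x, IsPGroup p (Subgroup.zpowers y) →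
      y ∈ Subgroup.centralizer (A : Set G)) :
    x ∈ Subgroup.centralizer (A : Set G) := by
  have hpp : p.Prime := Fact.out
  have hpodd : Odd p := hpp.odd_of_ne_two hp2
  have hZN : Subgroup.zpowers x ≤ Subgroup.normalizer (A : Set G) := Subgroup.zpowers_le.2 hx
  have hord : ∀ y ∈ Subgroup.zpowers x, orderOf y ∣ orderOf x := by
    intro y hy
    obtain ⟨k, rfl⟩ := Subgroup.mem_zpowers_iff.1 hy
    exact orderOf_dvd_of_pow_eq_one (by
      rw [← zpow_natCast, ← zpow_mul, mul_comm, zpow_mul, zpow_natCast, pow_orderOf_eq_one,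
        one_zpow])
  -- elements of prime power order
  have hqelt : ∀ (q e : ℕ), q.Prime → q ∣ orderOf x → ∀ u ∈ Subgroup.zpowers x,
      u ^ q ^ e = 1 → u ∈ Subgroup.centralizer (A : Set G) := by
    intro q e hq hqx u hu hue
    by_cases hqp : q = p
    · subst hqp
      apply hp u hu
      intro g
      obtain ⟨k, hk⟩ := Subgroup.mem_zpowers_iff.1 g.2
      refine ⟨e, Subtype.ext ?_⟩
      rw [Subgroup.coe_pow, ← hk, Subgroup.coe_one, ← zpow_natCast, ← zpow_mul, mul_comm,
        zpow_mul, zpow_natCast, hue, one_zpow]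
    · have h1 : p ≤ q := hmin q hq hqx
      have hqodd : Odd q := by
        rcases Nat.Prime.eq_two_or_odd' hq with h2 | h2
        · exfalso
          rw [h2] at hqx
          obtain ⟨k, hk⟩ := hodd
          omega
        · exact h2
      have h2 : p + 2 ≤ q := by
        obtain ⟨a, ha⟩ := hpodd
        obtain ⟨b, hb⟩ := hqodd
        omega
      exact q20f_qelt hA hq h2 (hZN hu) hue
  -- induction on the order
  have main : ∀ n : ℕ, ∀ y ∈ Subgroup.zpowers x, orderOf y = n →
      y ∈ Subgroup.centralizer (A : Set G) := by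
    intro n
    induction n using Nat.strong_induction_on with
    | _ n ih =>
      intro y hy hn
      have hnpos : 0 < n := by rw [← hn]; exact orderOf_pos y
      by_cases hn1 : n = 1
      · rw [hn1, orderOf_eq_one_iff] at hn
        rw [hn]; exact Subgroup.one_mem _
      · obtain ⟨q, hqdef⟩ : ∃ q, q = n.minFac := ⟨_, rfl⟩
        have hq : q.Prime := by rw [hqdef]; exact Nat.minFac_prime hn1
        have hqn : q ∣ n := by rw [hqdef]; exact Nat.minFac_dvd n
        obtain ⟨e, hedef⟩ : ∃ e, e = n.factorization q := ⟨_, rfl⟩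
        obtain ⟨m, hmdef⟩ : ∃ m, m = n / q ^ e := ⟨_, rfl⟩
        have hnm : q ^ e * m = n := by
          rw [hmdef, hedef]; exact Nat.ordProj_mul_ordCompl_eq_self n q
        have hcop : Nat.Coprime q m := by
          rw [hmdef, hedef]; exact Nat.coprime_ordCompl hq hnpos.ne'
        have hepos : 0 < e := by
          rw [hedef]
          exact (hq.factorization_pos_of_dvd hnpos.ne' hqn)
        have hmpos : 0 < m := by
          rcases Nat.eq_zero_or_pos m with h0 | h0
          · rw [h0, mul_zero] at hnm; omega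
          · exact h0
        have hmlt : m < n := by
          have h2 : 2 ≤ q ^ e := by
            calc 2 ≤ q := hq.two_le
              _ = q ^ 1 := (pow_one q).symm
              _ ≤ q ^ e := Nat.pow_le_pow_right hq.pos hepos
          nlinarith
        have hqx : q ∣ orderOf x := (hqn.trans (by rw [← hn])).trans (hord y hy)
        -- the `q`-part
        have hu : y ^ m ∈ Subgroup.centralizer (A : Set G) := by
          apply hqelt q e hq hqx (y ^ m) (Subgroup.pow_mem _ hy m)
          rw [← pow_mul, mul_comm, hnm, ← hn, pow_orderOf_eq_one]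
        -- the `q'`-part
        have hv : y ^ q ^ e ∈ Subgroup.centralizer (A : Set G) := by
          have hv1 : (y ^ q ^ e) ^ m = 1 := by
            rw [← pow_mul, hnm, ← hn, pow_orderOf_eq_one]
          have hv2 : orderOf (y ^ q ^ e) ∣ m := orderOf_dvd_of_pow_eq_one hv1
          have hv3 : orderOf (y ^ q ^ e) < n := lt_of_le_of_lt (Nat.le_of_dvd hmpos hv2) hmlt
          exact ih _ hv3 (y ^ q ^ e) (Subgroup.pow_mem _ hy _) rfl
        -- Bezout
        have hcop' : Nat.Coprime m (q ^ e) := (Nat.Coprime.pow_left e hcop).symm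
        have hb := Nat.gcd_eq_gcd_ab m (q ^ e)
        rw [hcop'] at hb
        have hy1 : y = (y ^ m) ^ (Nat.gcdA m (q ^ e)) * (y ^ q ^ e) ^ (Nat.gcdB m (q ^ e)) := by
          rw [← zpow_natCast y m, ← zpow_natCast y (q ^ e), ← zpow_mul, ← zpow_mul, ← zpow_add,
            ← hb]
          simp
        rw [hy1]
        exact Subgroup.mul_mem _ (Subgroup.zpow_mem _ hu _) (Subgroup.zpow_mem _ hv _)
  exact main (orderOf x) x (Subgroup.mem_zpowers x) rfl

end Cfsg.Agent.Lib.Helper90.BG12
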