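import Cfsg.Agent.Lib.Helper80.BaerBasic

/-!
# S4125 piece X6b: cyclic Sylow subgroup and a proper nontrivial normal subgroup force solvability
-/

set_option autoImplicit false

namespace Cfsg.Agent.Lib.Helper90

open Cfsg.Agent.Lib.Helper80

variable {p : ℕ} [Fact p.Prime] {H V : Type*} [Group H] [Finite H] [AddCommGroup V] [Finite V]
  [DistribMulAction H V]

/-- A minimal nontrivial normal subgroup below `N`. -/
theorem baer_exists_min_normal (N : Subgroup H) (hN : N.Normal) (h1 : N ≠ ⊥) :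
    ∃ M : Subgroup H, M.Normal ∧ M ≠ ⊥ ∧ M ≤ N ∧
      ∀ M' : Subgroup H, M'.Normal → M' ≠ ⊥ → M' ≤ M → M' = M := by
  classical
  have hex : ∃ n, ∃ M : Subgroup H, M.Normal ∧ M ≠ ⊥ ∧ M ≤ N ∧ Nat.card M = n :=
    ⟨_, N, hN, h1, le_rfl, rfl⟩
  obtain ⟨M, hMn, hM1, hMN, hMc⟩ := Nat.find_spec hex
  refine ⟨M, hMn, hM1, hMN, fun M' hM'n hM'1 hM'M => ?_⟩
  have hle : Nat.find hex ≤ Nat.card M' :=
    Nat.find_min' hex ⟨M', hM'n, hM'1, hM'M.trans hMN, rfl⟩
  exact Subgroup.eq_of_le_of_card_ge hM'M (hMc ▸ hle)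

theorem cyclic_solvable_of_normal (hm : BaerMin p H V) (P : Sylow p H) (hP : IsCyclic P)
    (N : Subgroup H) (hN : N.Normal) (h1 : N ≠ ⊥) (h2 : N ≠ ⊤) : Group.IsSolvable H := by
  classical
  have hp : p.Prime := Fact.out
  obtain ⟨M, hMn, hM1, hMN, hMmin⟩ := baer_exists_min_normal N hN h1
  have hMtop : M ≠ ⊤ := fun h => h2 (top_le_iff.mp (h ▸ hMN))
  have hMsolv : Group.IsSolvable M := hm.R1 M hMn hMtop
  -- M is abelian
  have hcomm0 : ⁅M, M⁆ = ⊥ := by
    by_contra hne
    have hnorm : (⁅M, M⁆).Normal := Subgroup.commutator_normal M M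
    have hle : ⁅M, M⁆ ≤ M := Subgroup.commutator_le_right M M
    have heq : ⁅M, M⁆ = M := hMmin _ hnorm hne hle
    have hnt : Nontrivial M := (Subgroup.nontrivial_iff_ne_bot M).mpr hM1
    have hlt : commutator M < ⊤ := Group.IsSolvable.commutator_lt_top_of_nontrivial M
    rw [← Subgroup.map_subtype_commutator] at heq
    have htop : commutator M = ⊤ := by
      apply Subgroup.map_injective M.subtype_injective
      rw [heq, ← MonoidHom.range_eq_map, Subgroup.range_subtype]
    exact absurd htop hlt.ne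
  have hcomm : ∀ a ∈ M, ∀ b ∈ M, a * b = b * a := by
    intro a ha b hb
    have := (Subgroup.commutator_eq_bot_iff_le_centralizer.mp hcomm0) ha
    exact (Subgroup.mem_centralizer_iff.mp this b hb).symm
  -- M has exponent p
  have hexp : ∀ a ∈ M, a ^ p = 1 := by
    have hcardM : Nat.card M ≠ 1 := by
      intro h
      exact hM1 (Subgroup.card_eq_one.mp h)
    obtain ⟨r, hr, hrdvd⟩ := Nat.exists_prime_and_dvd hcardM
    have : Fact r.Prime := ⟨hr⟩
    let M' : Subgroup H :=
      { carrier := {a | a ∈ M ∧ a ^ r = 1}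
        mul_mem' := by
          rintro a b ⟨ha, ha'⟩ ⟨hb, hb'⟩
          refine ⟨M.mul_mem ha hb, ?_⟩
          have hc : Commute a b := hcomm a ha b hb
          rw [hc.mul_pow, ha', hb', one_mul]
        one_mem' := ⟨M.one_mem, one_pow _⟩
        inv_mem' := by
          rintro a ⟨ha, ha'⟩
          exact ⟨M.inv_mem ha, by rw [inv_pow, ha', inv_one]⟩ }
    have hM'mem : ∀ a, a ∈ M' ↔ a ∈ M ∧ a ^ r = 1 := fun a => Iff.rfl
    have hM'n : M'.Normal := by
      refine ⟨fun a ha g => ?_⟩
      rw [hM'mem] at ha ⊢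
      refine ⟨hMn.conj_mem a ha.1 g, ?_⟩
      rw [conj_pow, ha.2, mul_one, mul_inv_cancel]
    have hM'le : M' ≤ M := fun a ha => ha.1
    have hM'1 : M' ≠ ⊥ := by
      obtain ⟨x, hx⟩ := exists_prime_orderOf_dvd_card' (G := M) r hrdvd
      intro hbot
      have hxM' : (x : H) ∈ M' := by
        rw [hM'mem]
        refine ⟨x.2, ?_⟩
        have : x ^ r = 1 := by rw [← hx]; exact pow_orderOf_eq_one x
        have h2 := congrArg (fun y : M => (y : H)) this
        simpa using h2
      rw [hbot, Subgroup.mem_bot] at hxM'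
      have hx1 : x = 1 := Subtype.ext hxM'
      rw [hx1, orderOf_one] at hx
      exact hr.one_lt.ne hx
    have hM'M : M' = M := hMmin M' hM'n hM'1 hM'le
    have hexpr : ∀ a ∈ M, a ^ r = 1 := fun a ha => by
      have : a ∈ M' := hM'M ▸ ha
      exact this.2
    by_cases hrp : r = p
    · subst hrp; exact hexpr
    · exfalso
      have hMr : IsPGroup r M := by
        intro a
        refine ⟨1, ?_⟩
        rw [pow_one]
        exact Subtype.ext (by simpa using hexpr a a.2)
      obtain ⟨k, hk⟩ := hMr.exists_card_eq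
      have hcop : (Nat.card M).Coprime p := by
        rw [hk]
        exact Nat.Coprime.pow_left _ ((Nat.coprime_primes hr hp).mpr hrp)
      have := hMn
      exact hM1 (hm.toBaerAct.normal_coprime_eq_bot M hcop)
  have hMp : IsPGroup p M := by
    intro a
    refine ⟨1, ?_⟩
    rw [pow_one]
    exact Subtype.ext (by simpa using hexp a a.2)
  have := hMn
  have hMP : M ≤ P := hMp.le_sylow_of_normal P
  -- M is cyclic
  have hMcyc : IsCyclic M := by
    have h1 : IsCyclic (M.subgroupOf (P : Subgroup H)) := Subgroup.isCyclic _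
    exact isCyclic_of_surjective (Subgroup.subgroupOfEquivOfLe hMP).toMonoidHom
      (Subgroup.subgroupOfEquivOfLe hMP).surjective
  have hAutComm : ∀ φ ψ : MulAut M, φ * ψ = ψ * φ := by
    intro φ ψ
    obtain ⟨m, hm'⟩ := MonoidHom.map_cyclic φ.toMonoidHom
    obtain ⟨n, hn'⟩ := MonoidHom.map_cyclic ψ.toMonoidHom
    ext x
    have e1 : ∀ y : M, φ y = y ^ m := hm'
    have e2 : ∀ y : M, ψ y = y ^ n := hn'
    rw [MulAut.mul_apply, MulAut.mul_apply, e2, e1, e1, e2, ← zpow_mul, ← zpow_mul, mul_comm]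
  have hAutSolv : Group.IsSolvable (MulAut M) := Group.isSolvable_of_comm hAutComm
  let c : H →* MulAut M := MulAut.conjNormal
  by_cases hker : c.ker = ⊤
  · -- M is central
    have hcentral : ∀ a ∈ M, ∀ g : H, g * a = a * g := by
      intro a ha g
      have hg : g ∈ c.ker := hker ▸ Subgroup.mem_top g
      rw [MonoidHom.mem_ker] at hg
      have h3 : ((c g) ⟨a, ha⟩ : H) = g * a * g⁻¹ := MulAut.conjNormal_apply g ⟨a, ha⟩
      rw [hg] at h3
      have h4 : a = g * a * g⁻¹ := h3
      calc g * a = g * a * g⁻¹ * g := by group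
        _ = a * g := by rw [← h4]
    obtain ⟨a, haM, ha1⟩ : ∃ a ∈ M, a ≠ 1 := by
      by_contra hcon
      push Not at hcon
      exact hM1 ((Subgroup.eq_bot_iff_forall M).mpr hcon)
    let _ : CommGroup (P : Subgroup H) := IsCyclic.commGroup
    let τ : H →* (P : Subgroup H) := MonoidHom.transfer (MonoidHom.id (P : Subgroup H))
    have hkey : ∀ (k : ℕ) (g₀ : H), g₀⁻¹ * a ^ k * g₀ ∈ (P : Subgroup H) →
        g₀⁻¹ * a ^ k * g₀ = a ^ k := by
      intro k g₀ _
      have hc : Commute g₀ a := hcentral a haM g₀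
      have : g₀ * a ^ k = a ^ k * g₀ := hc.pow_right k
      rw [mul_assoc, ← this, inv_mul_cancel_left]
    have hτa : τ a = ⟨a ^ (P : Subgroup H).index, MonoidHom.transfer_eq_pow_aux a hkey⟩ :=
      MonoidHom.transfer_eq_pow (MonoidHom.id (P : Subgroup H)) a hkey
    have hτne : τ a ≠ 1 := by
      intro h
      rw [hτa] at h
      have h5 : a ^ (P : Subgroup H).index = 1 := congrArg Subtype.val h
      have h6 : orderOf a = p := orderOf_eq_prime (hexp a haM) ha1
      have h7 : orderOf a ∣ (P : Subgroup H).index := orderOf_dvd_of_pow_eq_one h5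
      rw [h6] at h7
      exact P.not_dvd_index h7
    have hkerτ : τ.ker ≠ ⊤ := by
      intro h
      exact hτne (MonoidHom.mem_ker.mp (h ▸ Subgroup.mem_top a))
    have hks : Group.IsSolvable τ.ker := hm.R1 τ.ker inferInstance hkerτ
    have hPs : Group.IsSolvable (P : Subgroup H) := inferInstance
    exact Group.isSolvable_of_ker_le_range τ.ker.subtype τ (by simp)
  · have hks : Group.IsSolvable c.ker := hm.R1 c.ker inferInstance hker
    exact Group.isSolvable_of_ker_le_range c.ker.subtype c (by simp)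

end Cfsg.Agent.Lib.Helper90
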