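import Mathlib
import Cfsg.Agent.Lib.Helper84.GADefs
import Cfsg.Agent.Lib.Helper63.Hup1
import Cfsg.Agent.Lib.Helper63.Hup4

/-!
# Project GA (S4840, helper84): piece EXC9

`|V| = 9`, `3 ∣ |Γ| ∣ 48`: `|Γ| = 24` and there is a normal subgroup of order 8.
-/

set_option autoImplicit false

namespace Cfsg.Agent.Lib.Helper90.GA

universe u

open Cfsg.Agent.Lib.Helper84.GA

theorem exc9_arith1 (c : ℕ) (h48 : c ∣ 48) (h8 : 8 ∣ c) (h3 : 3 ∣ c) (hne : c ≠ 48) :
    c = 24 := by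
  have hc : c ≤ 48 := Nat.le_of_dvd (by norm_num) h48
  interval_cases c <;> omega

theorem exc9_arith2 (a : ℕ) (ha : a ∣ 8) (h1 : a ≠ 1) : 2 ∣ a := by
  have hc : a ≤ 8 := Nat.le_of_dvd (by norm_num) ha
  interval_cases a <;> omega

theorem exc9_arith3 (a b : ℕ) (ha : a ∣ 8) (hb : b ∣ a) (hb1 : b ≠ 1) (hba : b ≠ a)
    (hmod : a ≡ b [MOD 3]) : a = 8 := by
  have ha8 : a ≤ 8 := Nat.le_of_dvd (by norm_num) ha
  have ha0 : 0 < a := Nat.pos_of_dvd_of_pos ha (by norm_num)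
  have hba' : b ≤ a := Nat.le_of_dvd ha0 hb
  unfold Nat.ModEq at hmod
  interval_cases a <;> interval_cases b <;> omega

/-- EXC9: `|V| = 9`, `3 ∣ |Γ| ∣ 48`: a normal subgroup of order 8 and `|Γ| = 24`. -/
theorem exc9N_of (hf : FreeStmt.{u}) (hi : InvStmt.{u}) : Exc9NStmt.{u} := by
  intro p _ Γ _ _ V _ _ _ _ ρ hTL hsol hp3 hV hpΓ hΓ48
  subst hp3
  have h8 : 8 ∣ Nat.card Γ := by
    have h := Cfsg.Agent.Lib.Helper63.Hup4.card_dvd ρ hTL.trans
    rw [hV] at h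
    exact h
  have hV1 : Nat.card V - 1 = 8 := by rw [hV]
  have hne48 : Nat.card Γ ≠ 48 := by
    intro h48
    obtain ⟨K, hK⟩ := Sylow.exists_subgroup_card_pow_prime 2
      (show 2 ^ 4 ∣ Nat.card Γ by rw [h48]; norm_num)
    have h1 := hf 3 Γ V ρ hTL K (by rw [hK]; decide)
    rw [hK, hV1] at h1
    omega
  have hΓ : Nat.card Γ = 24 := exc9_arith1 _ hΓ48 h8 hpΓ hne48
  obtain ⟨x, hx⟩ := exists_prime_orderOf_dvd_card' 3 hpΓ
  have key : ∃ (r : ℕ) (_ : Fact r.Prime) (N : Subgroup Γ), N.Normal ∧ IsPGroup r N ∧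
      ∃ y ∈ N, y * x ≠ x * y := by
    by_contra hcon
    have h : ∀ (r : ℕ) [Fact r.Prime] (N : Subgroup Γ), N.Normal → IsPGroup r N →
        ∀ y ∈ N, y * x = x * y := by
      intro r hr N hN hNr y hy
      by_contra hne
      exact hcon ⟨r, hr, N, hN, hNr, y, hy, hne⟩
    obtain ⟨N, hNn, hN3, hxN⟩ :=
      Cfsg.Agent.Lib.Helper63.Hup1.mem_normal_pgroup hsol 3 x 1 (by rw [hx, pow_one]) h
    haveI := hNn
    have hbot := Cfsg.Agent.Lib.Helper63.Hup4.oq_trivial ρ hTL.inj hTL.trans N hN3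
    rw [hbot, Subgroup.mem_bot] at hxN
    rw [hxN, orderOf_one] at hx
    norm_num at hx
  obtain ⟨r, hr, N, hNn, hNr, y, hyN, hyx⟩ := key
  haveI := hNn
  have hr3 : r ≠ 3 := by
    rintro rfl
    have hbot := Cfsg.Agent.Lib.Helper63.Hup4.oq_trivial ρ hTL.inj hTL.trans N hNr
    rw [hbot, Subgroup.mem_bot] at hyN
    rw [hyN] at hyx
    simp at hyx
  obtain ⟨j, hj⟩ := IsPGroup.iff_card.mp hNr
  have hN8 : Nat.card ↥N ∣ 8 := by
    have h1 := hf 3 Γ V ρ hTL N (by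
      rw [hj]
      exact Nat.Coprime.pow_left j ((Nat.coprime_primes hr.out (by norm_num)).2 hr3))
    rw [hV1] at h1
    exact h1
  have hy1 : y ≠ 1 := by
    rintro rfl
    simp at hyx
  have hN1 : Nat.card ↥N ≠ 1 := by
    intro h
    have hbot := Subgroup.eq_bot_of_card_eq N h
    rw [hbot, Subgroup.mem_bot] at hyN
    exact hy1 hyN
  have h2N : 2 ∣ Nat.card ↥N := exc9_arith2 _ hN8 hN1
  obtain ⟨t, ht⟩ := exists_prime_orderOf_dvd_card' (G := ↥N) 2 h2N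
  have ht' : orderOf (t : Γ) = 2 := by rw [Subgroup.orderOf_coe]; exact ht
  have htc := (hi 3 Γ V ρ hTL (by norm_num) (t : Γ) ht').1
  letI : MulAction ↥(Subgroup.zpowers x) ↥N :=
    { smul := fun g n => ⟨(g : Γ) * n * (g : Γ)⁻¹, hNn.conj_mem n n.2 g⟩
      one_smul := fun n => Subtype.ext (by
        show (1 : Γ) * (n : Γ) * (1 : Γ)⁻¹ = n
        group)
      mul_smul := fun a b n => Subtype.ext (by
        show ((a : Γ) * (b : Γ)) * (n : Γ) * ((a : Γ) * (b : Γ))⁻¹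
          = (a : Γ) * ((b : Γ) * (n : Γ) * (b : Γ)⁻¹) * (a : Γ)⁻¹
        group) }
  have hsmul : ∀ (g : ↥(Subgroup.zpowers x)) (n : ↥N),
      ((g • n : ↥N) : Γ) = (g : Γ) * n * (g : Γ)⁻¹ := fun g n => rfl
  have hP : IsPGroup 3 ↥(Subgroup.zpowers x) :=
    IsPGroup.of_card (n := 1) (by rw [Nat.card_zpowers, hx, pow_one])
  have hmod := hP.card_modEq_card_fixedPoints ↥N
  obtain ⟨F', hF'⟩ : ∃ F' : Subgroup ↥N,
      F' = (Subgroup.centralizer ({x} : Set Γ)).subgroupOf N := ⟨_, rfl⟩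
  have hmemF : ∀ n : ↥N, n ∈ F' ↔ x * (n : Γ) = (n : Γ) * x := by
    intro n
    rw [hF', Subgroup.mem_subgroupOf, Subgroup.mem_centralizer_iff]
    constructor
    · intro h
      exact h x rfl
    · intro h g hg
      rw [Set.mem_singleton_iff.1 hg]
      exact h
  have hfix : (MulAction.fixedPoints ↥(Subgroup.zpowers x) ↥N) = (F' : Set ↥N) := by
    ext n
    rw [MulAction.mem_fixedPoints, SetLike.mem_coe, hmemF]
    constructor
    · intro h
      have h1 := congrArg Subtype.val (h ⟨x, Subgroup.mem_zpowers x⟩)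
      rw [hsmul] at h1
      have h2 : x * (n : Γ) * x⁻¹ = (n : Γ) := h1
      calc x * (n : Γ) = x * (n : Γ) * x⁻¹ * x := by group
        _ = (n : Γ) * x := by rw [h2]
    · intro h g
      obtain ⟨g, hg⟩ := g
      obtain ⟨k, rfl⟩ := Subgroup.mem_zpowers_iff.mp hg
      apply Subtype.ext
      rw [hsmul]
      show x ^ k * (n : Γ) * (x ^ k)⁻¹ = n
      have hc : Commute x (n : Γ) := h
      have hc2 : Commute (x ^ k) (n : Γ) := hc.zpow_left k
      rw [hc2.eq, mul_inv_cancel_right]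
  have hcardfix : Nat.card ↥(MulAction.fixedPoints ↥(Subgroup.zpowers x) ↥N) = Nat.card ↥F' := by
    rw [hfix]
    rfl
  rw [hcardfix] at hmod
  have hF1 : Nat.card ↥F' ≠ 1 := by
    intro h
    have hbot := Subgroup.eq_bot_of_card_eq F' h
    have htF : t ∈ F' := by
      rw [hmemF]
      exact (htc x).symm
    rw [hbot, Subgroup.mem_bot] at htF
    rw [htF, orderOf_one] at ht
    norm_num at ht
  have hFN : Nat.card ↥F' ≠ Nat.card ↥N := by
    intro h
    have htop := (Subgroup.card_eq_iff_eq_top F').1 h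
    have hyF : (⟨y, hyN⟩ : ↥N) ∈ F' := by
      rw [htop]
      exact Subgroup.mem_top _
    rw [hmemF] at hyF
    exact hyx hyF.symm
  have hN8' : Nat.card ↥N = 8 :=
    exc9_arith3 _ _ hN8 (Subgroup.card_subgroup_dvd_card F') hF1 hFN hmod
  exact ⟨N, hNn, hN8', hΓ⟩

end Cfsg.Agent.Lib.Helper90.GA
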