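import Mathlib
import Cfsg.Agent.Lib.Helper93.Sp4Defs

/-!
# S2293 piece SP4-P3B (helper90 for helper93): closure step `Q < P`, family 3, `s ∈ {ta, tb}`
-/

set_option autoImplicit false

namespace Cfsg.Agent.Lib.Helper93.Sp4

open Polynomial Matrix
open Cfsg.Agent.Lib.Helper93.Sl3 (cj)

section level3

variable {P : Type*} [Group P] {q : ℕ} {Ua Ub T : Subgroup P} {ta tb : P}

/-- P3B -/
theorem c2_p_step3b (D : C2Data q Ua Ub T ta tb) (N : C2Act Ua Ub T ta tb)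
    (h3a : ∀ y ∈ YP3 Ua Ub ta tb, ∀ s ∈ ((Ua : Set P) ∪ (Ub : Set P) ∪ (T : Set P)),
      ∃ a ∈ Qsub Ua Ub T ta tb, ∃ y' ∈ YP3 Ua Ub ta tb, y * s = a * y') :
    ∀ y ∈ YP3 Ua Ub ta tb, ∀ s ∈ ({ta, tb} : Set P),
      ∃ a ∈ Qsub Ua Ub T ta tb, ∃ y' ∈ YP Ua Ub ta tb, y * s = a * y' := by
  have hTQ : ∀ τ ∈ T, τ ∈ Qsub Ua Ub T ta tb := fun τ hτ =>
    Subgroup.subset_closure (Or.inl (Or.inr hτ))
  have hUaabQ : ∀ z ∈ cj ta Ub, z ∈ Qsub Ua Ub T ta tb := fun z hz =>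
    Subgroup.subset_closure (Or.inl (Or.inl (Or.inr hz)))
  have htaQ : ta ∈ Qsub Ua Ub T ta tb := Subgroup.subset_closure (Or.inr rfl)
  have hwT : ∀ τ ∈ T, tb * ta * tb * τ * (tb * ta * tb)⁻¹ ∈ T := by
    intro τ hτ
    have h1 := D.Ttb _ (D.Tta _ (D.Ttb τ hτ))
    have h2 : tb * ta * tb * τ * (tb * ta * tb)⁻¹ = tb * (ta * (tb * τ * tb⁻¹) * ta⁻¹) * tb⁻¹ := by
      group
    rw [h2]
    exact h1
  rintro y ⟨x, hx, z1, hz1, z2, hz2, rfl⟩ s hs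
  rcases hs with rfl | hs
  · -- s = ta
    obtain ⟨τ0, hτ0, hbr⟩ := D.braid
    obtain ⟨x', hx'def⟩ : ∃ x' : P, x' = s⁻¹ * z2 * s := ⟨_, rfl⟩
    obtain ⟨z1', hz1'def⟩ : ∃ z1' : P, z1' = s⁻¹ * z1 * s := ⟨_, rfl⟩
    obtain ⟨z2', hz2'def⟩ : ∃ z2' : P, z2' = s⁻¹ * x * s := ⟨_, rfl⟩
    have hx' : x' ∈ Ub := by
      have h1 := Sl3.conj_mem_cj (n := s⁻¹) hz2
      rw [N.tainv_aab, inv_inv] at h1
      rw [hx'def]; exact h1
    have hz1' : z1' ∈ cj tb Ua := by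
      have h1 := Sl3.conj_mem_cj (n := s⁻¹) hz1
      rw [N.tainv_ab, inv_inv] at h1
      rw [hz1'def]; exact h1
    have hz2' : z2' ∈ cj s Ub := by
      have h1 := Sl3.conj_mem_cj (n := s⁻¹) hx
      rw [N.tainv_b, inv_inv] at h1
      rw [hz2'def]; exact h1
    have h12 : z1' * z2' = z2' * z1' := (D.c3d z1' hz1' z2' hz2').eq
    have hx1 : x' * z1' = z1' * x' := (D.c3b x' hx' z1' hz1').eq
    have hx2 : x' * z2' = z2' * x' := (D.c3c x' hx' z2' hz2').eq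
    have e1 : z2' * z1' * x' = x' * z1' * z2' := by
      calc z2' * z1' * x' = z1' * z2' * x' := by rw [h12]
        _ = z1' * (z2' * x') := by rw [mul_assoc]
        _ = z1' * (x' * z2') := by rw [hx2]
        _ = (z1' * x') * z2' := by rw [mul_assoc]
        _ = x' * z1' * z2' := by rw [hx1]
    refine ⟨s * (tb * s * tb * τ0 * (tb * s * tb)⁻¹), mul_mem htaQ (hTQ _ (hwT τ0 hτ0)),
      tb * s * tb * x' * z1' * z2', Or.inr ⟨x', hx', z1', hz1', z2', hz2', rfl⟩, ?_⟩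
    calc tb * s * tb * x * z1 * z2 * s = tb * s * tb * s * (z2' * z1' * x') := by
          rw [hz2'def, hz1'def, hx'def]; group
      _ = tb * s * tb * s * (x' * z1' * z2') := by rw [e1]
      _ = s * tb * s * tb * τ0 * (x' * z1' * z2') := by rw [hbr]
      _ = s * (tb * s * tb * τ0 * (tb * s * tb)⁻¹) * (tb * s * tb * x' * z1' * z2') := by
          group
  · -- s = tb
    have hs' : s = tb := hs
    subst hs'
    obtain ⟨v', hv'def⟩ : ∃ v' : P, v' = s⁻¹ * z1 * s := ⟨_, rfl⟩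
    obtain ⟨z2', hz2'def⟩ : ∃ z2' : P, z2' = s⁻¹ * z2 * s := ⟨_, rfl⟩
    have hv' : v' ∈ Ua := by
      have h1 := Sl3.conj_mem_cj (n := s⁻¹) hz1
      rw [N.tbinv_ab, inv_inv] at h1
      rw [hv'def]; exact h1
    have hz2' : z2' ∈ cj ta Ub := by
      have h1 := Sl3.conj_mem_cj (n := s⁻¹) hz2
      rw [N.tbinv_aab, inv_inv] at h1
      rw [hz2'def]; exact h1
    by_cases hx1 : x = 1
    · subst hx1
      refine ⟨s * (ta * s ^ 2 * ta⁻¹) * s⁻¹, hTQ _ (D.Ttb _ (D.Tta _ D.tb2)),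
        s * ta * v' * z2', Or.inl (Or.inr ⟨v', hv', z2', hz2', rfl⟩), ?_⟩
      rw [hv'def, hz2'def]
      group
    · obtain ⟨w', hw', τ, hτ, x', hx', hr⟩ := D.rank1b x hx hx1
      obtain ⟨w'', hw''def⟩ : ∃ w'' : P, w'' = s ^ 2 * w' * (s ^ 2)⁻¹ := ⟨_, rfl⟩
      have hw'' : w'' ∈ Ub := by
        rw [hw''def]; exact D.TUb _ D.tb2 w' hw'
      have hA1 : s * (ta * w'' * ta⁻¹) * s⁻¹ ∈ cj ta Ub := by
        have h1 := Sl3.conj_mem_cj (n := s) (Sl3.conj_mem_cj (n := ta) hw'')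
        rw [D.n2] at h1
        exact h1
      have hA2 := hwT τ hτ
      have hy3 : s * ta * s * x' * 1 * z2' ∈ YP3 Ua Ub ta s :=
        ⟨x', hx', 1, Subgroup.one_mem _, z2', hz2', rfl⟩
      obtain ⟨a3, ha3, y'', hy'', h3⟩ := h3a _ hy3 v' (Or.inl (Or.inl hv'))
      have hcomm : v' * z2' = z2' * v' := (D.c3a v' hv' z2' hz2').eq
      refine ⟨s * (ta * w'' * ta⁻¹) * s⁻¹ * (s * ta * s * τ * (s * ta * s)⁻¹) * a3,
        mul_mem (mul_mem (hUaabQ _ hA1) (hTQ _ hA2)) ha3, y'', Or.inr hy'', ?_⟩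
      calc s * ta * s * x * z1 * z2 * s = s * ta * s * (x * s) * (v' * z2') := by
            rw [hv'def, hz2'def]; group
        _ = s * ta * s * (s * w' * s⁻¹ * τ * x') * (z2' * v') := by rw [hr, hcomm]
        _ = s * (ta * w'' * ta⁻¹) * s⁻¹ * (s * ta * s * τ * (s * ta * s)⁻¹)
              * (s * ta * s * x' * 1 * z2' * v') := by
            rw [hw''def, pow_two]; group
        _ = s * (ta * w'' * ta⁻¹) * s⁻¹ * (s * ta * s * τ * (s * ta * s)⁻¹) * (a3 * y'') := by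
            rw [h3]
        _ = s * (ta * w'' * ta⁻¹) * s⁻¹ * (s * ta * s * τ * (s * ta * s)⁻¹) * a3 * y'' := by
            group

end level3

end Cfsg.Agent.Lib.Helper93.Sp4
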