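import Mathlib

set_option autoImplicit false

namespace Cfsg.Agent.Lib.Helper90

section Eigen

open Polynomial in
/-- An endomorphism `f` of a nonzero finite `𝔽_p`-module with `f ^ p = f` has an eigenvector. -/
theorem exists_eigenvector_zmod (p : ℕ) [hp : Fact p.Prime] {M : Type*} [AddCommGroup M]
    [Module (ZMod p) M] [Finite M] [Nontrivial M] (f : Module.End (ZMod p) M) (hf : f ^ p = f) :
    ∃ a : ZMod p, ∃ v : M, v ≠ 0 ∧ f v = a • v := by
  have hsplit : Splits (X ^ p - X : (ZMod p)[X]) := by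
    have h := FiniteField.splits_X_pow_card_sub_X (p := p) (K := ZMod p)
    rw [ZMod.card, Algebra.algebraMap_self, Polynomial.map_id] at h
    exact h
  have haeval : aeval f (X ^ p - X : (ZMod p)[X]) = 0 := by
    rw [map_sub, map_pow, aeval_X, hf, sub_self]
  have hdvd := minpoly.dvd (ZMod p) f haeval
  have hne : (X ^ p - X : (ZMod p)[X]) ≠ 0 :=
    FiniteField.X_pow_card_sub_X_ne_zero (ZMod p) hp.out.one_lt
  have hms := hsplit.of_dvd hne hdvd
  have hint : IsIntegral (ZMod p) f := Algebra.IsIntegral.isIntegral f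
  have hdeg : (minpoly (ZMod p) f).degree ≠ 0 := (minpoly.degree_pos hint).ne'
  obtain ⟨a, ha⟩ := hms.exists_eval_eq_zero hdeg
  have hev : f.HasEigenvalue a := Module.End.hasEigenvalue_of_isRoot ha
  obtain ⟨v, hv⟩ := hev.exists_hasEigenvector
  exact ⟨a, v, hv.2, hv.apply_eq_smul⟩

theorem exists_eigen_single_mod {V : Type*} [CommGroup V] [Finite V] [Nontrivial V] (p : ℕ)
    [hp : Fact p.Prime] [Module (ZMod p) (Additive V)] (g : V →* V)
    (hpow : ∀ v : V, (g^[p - 1]) v = v) :
    ∃ v : V, v ≠ 1 ∧ ∃ k : ℕ, g v = v ^ k := by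
  let F : Additive V →ₗ[ZMod p] Additive V :=
    AddMonoidHom.toZModLinearMap p (MonoidHom.toAdditive g)
  have hFapp : ∀ u : Additive V, Additive.toMul (F u) = g (Additive.toMul u) := fun u => rfl
  have hiter : ∀ k : ℕ, ∀ u : Additive V,
      Additive.toMul (F^[k] u) = g^[k] (Additive.toMul u) := by
    intro k
    induction k with
    | zero => intro u; rfl
    | succ k ih =>
      intro u
      rw [Function.iterate_succ_apply', Function.iterate_succ_apply', hFapp, ih]
  have hF : F ^ p = F := by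
    ext u
    rw [Module.End.pow_apply]
    have hp1 : p = (p - 1) + 1 := by have := hp.out.one_lt; omega
    have h1 : (⇑F)^[p] = (⇑F)^[(p - 1) + 1] := congrArg (fun n => (⇑F)^[n]) hp1
    rw [h1, Function.iterate_succ_apply]
    apply Additive.toMul.injective
    rw [hiter, hpow]
  have : Nontrivial (Additive V) := inferInstanceAs (Nontrivial V)
  obtain ⟨a, v, hv, hfv⟩ := exists_eigenvector_zmod p F hF
  refine ⟨Additive.toMul v, ?_, a.val, ?_⟩
  · intro h1
    apply hv
    apply Additive.toMul.injective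
    exact h1
  · rw [← hFapp, hfv, ← ZMod.natCast_zmod_val a, Nat.cast_smul_eq_nsmul, toMul_nsmul,
      ZMod.natCast_zmod_val]

/-- An endomorphism `g` with `g ^ (p - 1) = 1` of a nontrivial finite elementary abelian `p`-group
has an "eigenvector". -/
theorem exists_eigen_single_comm {V : Type*} [CommGroup V] [Finite V] [Nontrivial V] (p : ℕ)
    [hp : Fact p.Prime] (hexp : ∀ v : V, v ^ p = 1) (g : V →* V)
    (hpow : ∀ v : V, (g^[p - 1]) v = v) :
    ∃ v : V, v ≠ 1 ∧ ∃ k : ℕ, g v = v ^ k := by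
  have hp0 : ∀ x : Additive V, p • x = 0 := by
    intro x
    apply Additive.toMul.injective
    rw [toMul_nsmul, toMul_zero]
    exact hexp _
  exact @exists_eigen_single_mod V _ _ _ p hp (AddCommGroup.zmodModule hp0) g hpow

variable {Q : Type*} [Group Q]

/-- The commutative group structure on a subgroup whose elements commute. -/
@[reducible] def commGroupOfComm (W : Subgroup Q) (hcomm : ∀ w ∈ W, ∀ w' ∈ W, w * w' = w' * w) :
    CommGroup W :=
  { (inferInstance : Group W) with
    mul_comm := fun a b => Subtype.ext (hcomm a a.2 b b.2) }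

/-- A single endomorphism with `f ^ (p - 1) = 1` on an invariant nontrivial elementary abelian
subgroup `W` has an "eigenvector" in `W`. -/
theorem exists_eigen_single [Finite Q] (p : ℕ) [hp : Fact p.Prime] (f : Q →* Q) (W : Subgroup Q)
    (hW : W ≠ ⊥) (hcomm : ∀ w ∈ W, ∀ w' ∈ W, w * w' = w' * w) (hexp : ∀ w ∈ W, w ^ p = 1)
    (hinv : ∀ w ∈ W, f w ∈ W) (hpow : ∀ w ∈ W, (f^[p - 1]) w = w) :
    ∃ x ∈ W, x ≠ 1 ∧ ∃ k : ℕ, f x = x ^ k := by
  have hnt : Nontrivial W := (Subgroup.nontrivial_iff_ne_bot W).mpr hW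
  let f' : W →* W := (f.comp W.subtype).codRestrict W (fun w => hinv w w.2)
  have hiter : ∀ k : ℕ, ∀ w : W, (((f'^[k]) w : W) : Q) = (f^[k]) (w : Q) := by
    intro k
    induction k with
    | zero => intro w; rfl
    | succ k ih =>
      intro w
      rw [Function.iterate_succ_apply', Function.iterate_succ_apply', ← ih]
      rfl
  have hexp' : ∀ v : W, v ^ p = 1 := fun v => Subtype.ext (hexp v v.2)
  have hpow' : ∀ v : W, (f'^[p - 1]) v = v :=
    fun v => Subtype.ext (by rw [hiter]; exact hpow v v.2)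
  obtain ⟨v, hv1, k, hk⟩ := @exists_eigen_single_comm W (commGroupOfComm W hcomm) _ hnt p hp
    hexp' f' hpow'
  refine ⟨(v : Q), v.2, fun h => hv1 (Subtype.ext h), k, ?_⟩
  have := congrArg (Subtype.val) hk
  exact this

/-- A commuting family of endomorphisms, each with `f ^ (p - 1) = 1` on an invariant nontrivial
elementary abelian subgroup `W`, has a common "eigenvector" in `W`. -/
theorem exists_common_eigen [Finite Q] (p : ℕ) [hp : Fact p.Prime] (T : Set (Q →* Q)) :
    ∀ (n : ℕ) (W : Subgroup Q), Nat.card W = n → W ≠ ⊥ →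
    (∀ w ∈ W, ∀ w' ∈ W, w * w' = w' * w) → (∀ w ∈ W, w ^ p = 1) →
    (∀ f ∈ T, ∀ w ∈ W, f w ∈ W) →
    (∀ f ∈ T, ∀ g ∈ T, ∀ w ∈ W, f (g w) = g (f w)) →
    (∀ f ∈ T, ∀ w ∈ W, (f^[p - 1]) w = w) →
    ∃ x ∈ W, x ≠ 1 ∧ ∀ f ∈ T, ∃ k : ℕ, f x = x ^ k := by
  intro n
  induction n using Nat.strong_induction_on with
  | _ n ih =>
    intro W hn hW hcomm hexp hinv hfg hpow
    by_cases hsc : ∀ f ∈ T, ∃ k : ℕ, ∀ w ∈ W, f w = w ^ k
    · obtain ⟨x, hx1⟩ := (Subgroup.ne_bot_iff_exists_ne_one).mp hW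
      refine ⟨x, x.2, fun h => hx1 (Subtype.ext h), fun f hf => ?_⟩
      obtain ⟨k, hk⟩ := hsc f hf
      exact ⟨k, hk x x.2⟩
    · push Not at hsc
      obtain ⟨f₀, hf₀, hns⟩ := hsc
      obtain ⟨x₀, hx₀, hx₀1, k, hk⟩ :=
        exists_eigen_single p f₀ W hW hcomm hexp (hinv f₀ hf₀) (hpow f₀ hf₀)
      let E : Subgroup Q :=
        { carrier := {w | w ∈ W ∧ f₀ w = w ^ k}
          one_mem' := ⟨W.one_mem, by rw [map_one, one_pow]⟩
          mul_mem' := by
            rintro a b ⟨ha, ha'⟩ ⟨hb, hb'⟩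
            exact ⟨W.mul_mem ha hb, by
              rw [map_mul, ha', hb', (show Commute a b from hcomm a ha b hb).mul_pow]⟩
          inv_mem' := by
            rintro a ⟨ha, ha'⟩
            exact ⟨W.inv_mem ha, by rw [map_inv, ha', inv_pow]⟩ }
      have hEW : E ≤ W := fun w hw => hw.1
      have hx₀E : x₀ ∈ E := ⟨hx₀, hk⟩
      have hEne : E ≠ ⊥ := by
        intro h
        rw [h, Subgroup.mem_bot] at hx₀E
        exact hx₀1 hx₀E
      have hElt : E < W := by
        refine lt_of_le_of_ne hEW (fun h => ?_)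
        obtain ⟨w, hw, hw'⟩ := hns k
        rw [← h] at hw
        exact hw' hw.2
      have hcard : Nat.card E < n := by
        rw [← hn]
        by_contra hc
        exact (ne_of_lt hElt) (Subgroup.eq_of_le_of_card_ge hEW (not_lt.mp hc))
      obtain ⟨x, hx, hx1, hxT⟩ := ih (Nat.card E) hcard E rfl hEne
        (fun w hw w' hw' => hcomm w hw.1 w' hw'.1) (fun w hw => hexp w hw.1)
        (fun g hg w hw => ⟨hinv g hg w hw.1, by
          rw [hfg f₀ hf₀ g hg w hw.1, hw.2, map_pow]⟩)
        (fun f hf g hg w hw => hfg f hf g hg w hw.1)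
        (fun f hf w hw => hpow f hf w hw.1)
      exact ⟨x, hEW hx, hx1, hxT⟩

end Eigen

end Cfsg.Agent.Lib.Helper90
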