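import Cfsg.Agent.Lib.Helper90.AutSys
import Cfsg.Agent.Lib.Helper90.SupSolB

set_option autoImplicit false

namespace Cfsg.Agent.Lib.Helper90

open Cfsg Cfsg.FusionSystem

section Step

variable {G : Type*} [Group G]

/-- If `A = Inn(G) H` with `H` abelian of exponent dividing `p - 1`, then every proper
`A`-invariant normal subgroup `N` of the finite `p`-group `G` can be enlarged by one generator
to an `A`-invariant subgroup. -/
theorem exists_invariant_step [Finite G] (p : ℕ) [hp : Fact p.Prime] (hG : IsPGroup p G)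
    (A H : Subgroup (MulAut G)) (hHA : H ≤ A)
    (hdec : ∀ α ∈ A, ∃ ι ∈ Inn G, ∃ h ∈ H, α = ι * h)
    (hcomm : ∀ h ∈ H, ∀ h' ∈ H, h * h' = h' * h) (hexp : ∀ h ∈ H, h ^ (p - 1) = 1)
    (N : Subgroup G) [N.Normal] (hN : ∀ α ∈ A, ∀ x ∈ N, α x ∈ N) (hNtop : N ≠ ⊤) :
    ∃ x, x ∉ N ∧ ∀ α ∈ A, ∀ y ∈ N ⊔ Subgroup.zpowers x, α y ∈ N ⊔ Subgroup.zpowers x := by
  have hle : ∀ h ∈ H, N ≤ N.comap (h : MulAut G).toMonoidHom :=
    fun h hh x hx => hN h (hHA hh) x hx
  let bar : ∀ h ∈ H, (G ⧸ N) →* (G ⧸ N) :=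
    fun h hh => QuotientGroup.map N N h.toMonoidHom (hle h hh)
  have hbar : ∀ h (hh : h ∈ H) (g : G),
      bar h hh (QuotientGroup.mk g) = QuotientGroup.mk (h g) := fun h hh g => rfl
  let T : Set ((G ⧸ N) →* (G ⧸ N)) := {f | ∃ h, ∃ hh : h ∈ H, f = bar h hh}
  let W : Subgroup (G ⧸ N) :=
    { carrier := {z | z ∈ Subgroup.center (G ⧸ N) ∧ z ^ p = 1}
      one_mem' := ⟨Subgroup.one_mem _, one_pow p⟩
      mul_mem' := by
        rintro a b ⟨ha, ha'⟩ ⟨hb, hb'⟩
        refine ⟨Subgroup.mul_mem _ ha hb, ?_⟩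
        rw [(show Commute a b from Subgroup.mem_center_iff.mp hb a).mul_pow, ha', hb', one_mul]
      inv_mem' := by
        rintro a ⟨ha, ha'⟩
        exact ⟨Subgroup.inv_mem _ ha, by rw [inv_pow, ha', inv_one]⟩ }
  have hQp : IsPGroup p (G ⧸ N) := hG.to_quotient N
  have hnt : Nontrivial (G ⧸ N) :=
    not_subsingleton_iff_nontrivial.mp
      (fun h => hNtop (QuotientGroup.subgroup_eq_top_of_subsingleton N h))
  have hcnt : Nontrivial (Subgroup.center (G ⧸ N)) := hQp.center_nontrivial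
  have hW : W ≠ ⊥ := by
    obtain ⟨k, hk⟩ := IsPGroup.iff_card.mp (hQp.to_subgroup (Subgroup.center (G ⧸ N)))
    have h1 : 1 < Nat.card (Subgroup.center (G ⧸ N)) := Finite.one_lt_card
    have hk0 : k ≠ 0 := by
      rintro rfl
      rw [hk, pow_zero] at h1
      exact lt_irrefl _ h1
    have hdvd : p ∣ Nat.card (Subgroup.center (G ⧸ N)) := by
      rw [hk]
      exact dvd_pow_self p hk0
    obtain ⟨z, hz⟩ := exists_prime_orderOf_dvd_card' p hdvd
    have hzW : (z : G ⧸ N) ∈ W := by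
      refine ⟨z.2, ?_⟩
      have h2 : z ^ p = 1 := by rw [← hz]; exact pow_orderOf_eq_one z
      exact congrArg Subtype.val h2
    intro hbot
    rw [hbot, Subgroup.mem_bot] at hzW
    have h3 : z = 1 := Subtype.ext hzW
    rw [h3, orderOf_one] at hz
    exact hp.out.one_lt.ne hz
  have hWcomm : ∀ w ∈ W, ∀ w' ∈ W, w * w' = w' * w :=
    fun w _ w' hw' => Subgroup.mem_center_iff.mp hw'.1 w
  have hWexp : ∀ w ∈ W, w ^ p = 1 := fun w hw => hw.2
  have hWinv : ∀ f ∈ T, ∀ w ∈ W, f w ∈ W := by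
    rintro _ ⟨h, hh, rfl⟩ w ⟨hwc, hwp⟩
    refine ⟨?_, by rw [← map_pow, hwp, map_one]⟩
    rw [Subgroup.mem_center_iff]
    intro q
    obtain ⟨g, rfl⟩ := QuotientGroup.mk_surjective q
    have h1 : (QuotientGroup.mk g : G ⧸ N) = bar h hh (QuotientGroup.mk (h⁻¹ g)) := by
      rw [hbar h hh, MulAut.apply_inv_self]
    rw [h1, ← map_mul, ← map_mul, Subgroup.mem_center_iff.mp hwc]
  have hWfg : ∀ f ∈ T, ∀ g ∈ T, ∀ w ∈ W, f (g w) = g (f w) := by
    rintro _ ⟨h, hh, rfl⟩ _ ⟨h', hh', rfl⟩ w _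
    obtain ⟨g, rfl⟩ := QuotientGroup.mk_surjective w
    rw [hbar h' hh', hbar h hh, hbar h hh, hbar h' hh']
    have h1 : h (h' g) = h' (h g) := congrArg (fun a : MulAut G => a g) (hcomm h hh h' hh')
    rw [h1]
  have hWpow : ∀ f ∈ T, ∀ w ∈ W, (f^[p - 1]) w = w := by
    rintro _ ⟨h, hh, rfl⟩ w _
    obtain ⟨g, rfl⟩ := QuotientGroup.mk_surjective w
    have hit : ∀ k : ℕ, ((bar h hh)^[k]) (QuotientGroup.mk g) = QuotientGroup.mk ((h ^ k) g) := by
      intro k
      induction k with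
      | zero => rfl
      | succ k ih =>
        rw [Function.iterate_succ_apply', ih, hbar h hh, pow_succ']
        rfl
    rw [hit, hexp h hh]
    rfl
  obtain ⟨xb, hxbW, hxb1, hxbT⟩ :=
    exists_common_eigen p T (Nat.card W) W rfl hW hWcomm hWexp hWinv hWfg hWpow
  obtain ⟨x, rfl⟩ := QuotientGroup.mk_surjective xb
  refine ⟨x, fun hxN => hxb1 ((QuotientGroup.eq_one_iff x).mpr hxN), ?_⟩
  have key : ∀ α ∈ A, α x ∈ N ⊔ Subgroup.zpowers x := by
    intro α hα
    obtain ⟨ι, hι, h, hh, rfl⟩ := hdec α hα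
    obtain ⟨s, rfl⟩ := hι
    obtain ⟨k, hk⟩ := hxbT _ ⟨h, hh, rfl⟩
    have h1 : (QuotientGroup.mk ((MulAut.conj s * h) x) : G ⧸ N) = QuotientGroup.mk (x ^ k) := by
      have h0 : (MulAut.conj s * h) x = s * h x * s⁻¹ := rfl
      have hc : (QuotientGroup.mk x : G ⧸ N) ^ k ∈ Subgroup.center (G ⧸ N) :=
        Subgroup.pow_mem _ hxbW.1 k
      rw [h0, QuotientGroup.mk_mul, QuotientGroup.mk_mul, ← hbar h hh, hk, QuotientGroup.mk_inv,
        QuotientGroup.mk_pow, Subgroup.mem_center_iff.mp hc, mul_inv_cancel_right]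
    have h2 : (x ^ k)⁻¹ * (MulAut.conj s * h) x ∈ N := QuotientGroup.eq.mp h1.symm
    have h3 : (MulAut.conj s * h) x = x ^ k * ((x ^ k)⁻¹ * (MulAut.conj s * h) x) := by
      rw [mul_inv_cancel_left]
    rw [h3]
    exact Subgroup.mul_mem _
      (Subgroup.mem_sup_right (Subgroup.pow_mem _ (Subgroup.mem_zpowers x) k))
      (Subgroup.mem_sup_left h2)
  intro α hα
  have h4 : N ⊔ Subgroup.zpowers x ≤ (N ⊔ Subgroup.zpowers x).comap (α : MulAut G).toMonoidHom :=
    sup_le (fun n hn => Subgroup.mem_sup_left (hN α hα n hn))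
      ((Subgroup.zpowers_le).mpr (key α hα))
  exact fun y hy => h4 hy

/-- Schur–Zassenhaus decomposition of a group of automorphisms in which `Inn(G)` is a Sylow
`p`-subgroup. -/
theorem exists_pprime_complement [Finite G] (p : ℕ) [hp : Fact p.Prime]
    (A : Subgroup (MulAut G)) (R : Sylow p A)
    (hR : (R : Subgroup A) = (Inn G).subgroupOf A) :
    ∃ H : Subgroup (MulAut G), H ≤ A ∧ (Nat.card H).Coprime p ∧
      ∀ α ∈ A, ∃ ι ∈ Inn G, ∃ h ∈ H, α = ι * h := by
  have hcop : Nat.Coprime (Nat.card ((Inn G).subgroupOf A)) ((Inn G).subgroupOf A).index := by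
    rw [← hR]
    exact R.card_coprime_index
  obtain ⟨H₀, hH₀⟩ := Subgroup.exists_right_complement'_of_coprime hcop
  refine ⟨H₀.map A.subtype, Subgroup.map_subtype_le H₀, ?_, ?_⟩
  · rw [Subgroup.card_map_of_injective (Subgroup.subtype_injective A), ← hH₀.symm.index_eq_card,
      ← hR]
    exact ((Nat.Prime.coprime_iff_not_dvd hp.out).mpr R.not_dvd_index).symm
  · intro α hα
    obtain ⟨⟨n, h⟩, hnh⟩ := hH₀.2 ⟨α, hα⟩
    refine ⟨(n.1 : MulAut G), n.2, (h.1 : MulAut G), ⟨h.1, h.2, rfl⟩, ?_⟩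
    exact (congrArg Subtype.val hnh).symm

/-- Build a chain with one-generator steps from `N` to the whole group out of a one-step
enlargement property. -/
theorem exists_chain_of_step [Finite G] (Inv : Subgroup G → Prop)
    (hstep : ∀ N : Subgroup G, Inv N → N ≠ ⊤ → ∃ x, x ∉ N ∧ Inv (N ⊔ Subgroup.zpowers x)) :
    ∀ (k : ℕ) (N : Subgroup G), Nat.card G - Nat.card N = k → Inv N →
      ∃ (m : ℕ) (c : ℕ → Subgroup G), c 0 = N ∧ c m = ⊤ ∧ (∀ i, Inv (c i)) ∧
        ∀ i, c i ≤ c (i + 1) ∧ ∃ x, c (i + 1) = c i ⊔ Subgroup.zpowers x := by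
  intro k
  induction k using Nat.strong_induction_on with
  | _ k ih =>
    intro N hk hN
    by_cases htop : N = ⊤
    · refine ⟨0, fun _ => N, rfl, htop, fun _ => hN, fun _ => ⟨le_rfl, 1, ?_⟩⟩
      rw [Subgroup.zpowers_one_eq_bot, sup_bot_eq]
    · obtain ⟨x, hx, hN'⟩ := hstep N hN htop
      have hlt : N < N ⊔ Subgroup.zpowers x :=
        lt_of_le_of_ne le_sup_left
          (fun h => hx (by rw [h]; exact Subgroup.mem_sup_right (Subgroup.mem_zpowers x)))
      have hc1 : Nat.card N < Nat.card (N ⊔ Subgroup.zpowers x : Subgroup G) := card_lt_of_lt hlt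
      have hc2 : Nat.card (N ⊔ Subgroup.zpowers x : Subgroup G) ≤ Nat.card G :=
        Subgroup.card_le_card_group _
      obtain ⟨m, c, hc0, hcm, hcI, hcs⟩ :=
        ih (Nat.card G - Nat.card (N ⊔ Subgroup.zpowers x : Subgroup G)) (by omega) _ rfl hN'
      refine ⟨m + 1, fun i => Nat.rec N (fun j _ => c j) i, rfl, hcm, ?_, ?_⟩
      · intro i
        cases i with
        | zero => exact hN
        | succ j => exact hcI j
      · intro i
        cases i with
        | zero =>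
          show N ≤ c 0 ∧ ∃ x, c 0 = N ⊔ Subgroup.zpowers x
          rw [hc0]
          exact ⟨le_sup_left, x, rfl⟩
        | succ j => exact hcs j

end Step

variable {Ω : Type*} [Group Ω] {S : Subgroup Ω}

/-- If `S` is normal in `F`, a subgroup of `S` invariant under `Aut_F(S)` is strongly closed. -/
theorem stronglyClosed_of_autGroup_invariant [Finite S] (F : FusionSystem S)
    (hnorm : F.IsNormal S) (N : Subgroup S)
    (hN : ∀ α ∈ F.autGroup S, ∀ x ∈ N, α x ∈ N) : F.StronglyClosed (N.map S.subtype) := by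
  refine ⟨Subgroup.map_subtype_le N, ?_⟩
  intro R hR φ hφ x
  have hRS : R ≤ S := hR.trans (Subgroup.map_subtype_le N)
  obtain ⟨f', hf', hf'R, hf'S⟩ := extQ_of_isNormal hnorm (mor_of_hom hφ)
  have hsup : R ⊔ S = S := sup_eq_right.mpr hRS
  rw [hsup] at hf'
  obtain ⟨α, hα, hαf⟩ := exists_aut_of_mor hf' hf'S
  obtain ⟨y, hy, hyx⟩ := hR x.2
  have h1 : φ x = f' (x : Ω) := by
    rw [hf'R _ x.2, extFun_apply]
  rw [h1, ← hyx]
  have h2 : f' ((S.subtype y : Ω)) = ((α y : S) : Ω) := (hαf y).symm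
  rw [h2]
  exact ⟨α y, hN α hα y hy, rfl⟩

/-- If `S` is normal in the saturated system `F` and the `p'`-subgroups of `Aut(S)` are abelian
of exponent dividing `p - 1`, then `S` has a chain of strongly closed subgroups with cyclic
steps. -/
theorem exists_chain_of_resistant [Finite S] (p : ℕ) [hp : Fact p.Prime] (hS : IsPGroup p S)
    (F : FusionSystem S) (hF : F.IsSaturated p) (hnorm : F.IsNormal S)
    (hB : ∀ H : Subgroup (MulAut S), (Nat.card H).Coprime p →
      (∀ h ∈ H, ∀ h' ∈ H, h * h' = h' * h) ∧ ∀ h ∈ H, h ^ (p - 1) = 1) :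
    ∃ (m : ℕ) (c : Fin (m + 1) → Subgroup Ω), c 0 = ⊥ ∧ c (Fin.last m) = S ∧
      (∀ i : Fin (m + 1), F.StronglyClosed (c i)) ∧
      ∀ i : Fin m, c i.castSucc ≤ c i.succ ∧
        ∃ x ∈ S, c i.succ = c i.castSucc ⊔ Subgroup.zpowers x := by
  have hInnA : Inn S ≤ F.autGroup S :=
    (Inn_le_autInducedBy le_rfl).trans (autInducedBy_le_autGroup F le_rfl)
  have hAS : autInducedBy S S = Inn S := by
    apply le_antisymm
    · intro α hα
      obtain ⟨a, ha, h⟩ := (mem_autInducedBy_iff S S α).mp hα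
      exact (mem_Inn_iff α).mpr ⟨a, ha, h⟩
    · exact Inn_le_autInducedBy le_rfl
  obtain ⟨-, R, hR⟩ := (top_fullyAutomized_receptive hF).1
  rw [hAS] at hR
  obtain ⟨H, hHA, hHcop, hdec⟩ := exists_pprime_complement p (F.autGroup S) R hR
  obtain ⟨hcomm, hexp⟩ := hB H hHcop
  have hnormal : ∀ N : Subgroup S, (∀ α ∈ F.autGroup S, ∀ x ∈ N, α x ∈ N) → N.Normal := by
    intro N hN
    constructor
    intro n hn g
    exact hN (MulAut.conj g) (hInnA ⟨g, rfl⟩) n hn
  obtain ⟨m, c, hc0, hcm, hcI, hcs⟩ :=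
    exists_chain_of_step (fun N : Subgroup S => ∀ α ∈ F.autGroup S, ∀ x ∈ N, α x ∈ N)
      (fun N hN htop => by
        have := hnormal N hN
        exact exists_invariant_step p hS (F.autGroup S) H hHA hdec hcomm hexp N hN htop)
      (Nat.card S - Nat.card (⊥ : Subgroup S)) ⊥ rfl
      (fun α _ x hx => by
        rw [Subgroup.mem_bot] at hx ⊢
        rw [hx, map_one])
  refine ⟨m, fun i => (c i).map S.subtype, ?_, ?_, fun i => ?_, fun i => ?_⟩
  · show (c 0).map S.subtype = ⊥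
    rw [hc0, Subgroup.map_bot]
  · show (c m).map S.subtype = S
    rw [hcm, ← MonoidHom.range_eq_map, Subgroup.range_subtype]
  · exact stronglyClosed_of_autGroup_invariant F hnorm _ (hcI _)
  · show (c i).map S.subtype ≤ (c (i + 1)).map S.subtype ∧
      ∃ x ∈ S, (c (i + 1)).map S.subtype = (c i).map S.subtype ⊔ Subgroup.zpowers x
    obtain ⟨hle, x, hx⟩ := hcs i
    refine ⟨Subgroup.map_mono hle, (x : Ω), x.2, ?_⟩
    rw [hx, Subgroup.map_sup, MonoidHom.map_zpowers]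
    rfl

end Cfsg.Agent.Lib.Helper90
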