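import Mathlib

set_option autoImplicit false

namespace Cfsg.Agent.Lib.Helper90

section Homocyclic

/-- Lift an automorphism of the first factor of a product decomposition. -/
def autLift {G B H : Type*} [Group G] [Group B] [Group H] (ε : G ≃* B × H) :
    MulAut B →* MulAut G where
  toFun σ := ε.trans ((MulEquiv.prodCongr σ (MulEquiv.refl H)).trans ε.symm)
  map_one' := by
    ext x
    show ε.symm ((ε x).1, (ε x).2) = x
    simp
  map_mul' σ τ := by
    ext x
    show ε.symm (σ (τ (ε x).1), (ε x).2) =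
      ε.symm (σ (ε (ε.symm (τ (ε x).1, (ε x).2))).1, (ε (ε.symm (τ (ε x).1, (ε x).2))).2)
    simp

theorem autLift_apply {G B H : Type*} [Group G] [Group B] [Group H] (ε : G ≃* B × H)
    (σ : MulAut B) (x : G) : autLift ε σ x = ε.symm (σ (ε x).1, (ε x).2) := rfl

theorem autLift_injective {G B H : Type*} [Group G] [Group B] [Group H] (ε : G ≃* B × H) :
    Function.Injective (autLift ε) := by
  intro σ τ h
  ext b
  have h1 := congrArg (fun f : MulAut G => (ε (f (ε.symm (b, 1)))).1) h
  simpa [autLift_apply] using h1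

variable (A : Type*) [CommGroup A]

/-- The automorphism `(a, b) ↦ (b⁻¹, a b⁻¹)` of order three. -/
def autW : MulAut (A × A) where
  toFun x := (x.2⁻¹, x.1 * x.2⁻¹)
  invFun x := (x.1⁻¹ * x.2, x.1⁻¹)
  left_inv x := by
    ext
    · simp
    · simp
  right_inv x := by
    ext
    · simp
    · simp
  map_mul' x y := by
    ext
    · simp [mul_comm]
    · show x.1 * y.1 * (x.2 * y.2)⁻¹ = x.1 * x.2⁻¹ * (y.1 * y.2⁻¹)
      rw [mul_inv, mul_mul_mul_comm]

/-- The swap `(a, b) ↦ (b, a)`. -/
def autS : MulAut (A × A) where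
  toFun x := (x.2, x.1)
  invFun x := (x.2, x.1)
  left_inv _ := rfl
  right_inv _ := rfl
  map_mul' _ _ := rfl

/-- The automorphism `(a, b) ↦ (b⁻¹, a)` of order four. -/
def autU : MulAut (A × A) where
  toFun x := (x.2⁻¹, x.1)
  invFun x := (x.2, x.1⁻¹)
  left_inv x := by
    ext
    · simp
    · simp
  right_inv x := by
    ext
    · simp
    · simp
  map_mul' x y := by
    ext
    · simp [mul_comm]
    · simp

theorem autW_apply (x : A × A) : autW A x = (x.2⁻¹, x.1 * x.2⁻¹) := rfl
theorem autS_apply (x : A × A) : autS A x = (x.2, x.1) := rfl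
theorem autU_apply (x : A × A) : autU A x = (x.2⁻¹, x.1) := rfl

theorem autW_pow_three : autW A ^ 3 = 1 := by
  ext x
  · show ((autW A) ((autW A) ((autW A) x))).1 = x.1
    simp [autW_apply]
  · show ((autW A) ((autW A) ((autW A) x))).2 = x.2
    simp [autW_apply]

theorem autS_sq : autS A ^ 2 = 1 := by
  ext x <;> rfl

theorem autU_pow_four : autU A ^ 4 = 1 := by
  ext x
  · show ((autU A) ((autU A) ((autU A) ((autU A) x)))).1 = x.1
    simp [autU_apply]
  · show ((autU A) ((autU A) ((autU A) ((autU A) x)))).2 = x.2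
    simp [autU_apply]

theorem autS_conj_autU : autS A * autU A * (autS A)⁻¹ = (autU A)⁻¹ := by
  rw [eq_inv_iff_mul_eq_one]
  ext x
  · show ((autS A) ((autU A) ((autS A)⁻¹ ((autU A) x)))).1 = x.1
    have h : (autS A)⁻¹ = autS A := by
      rw [inv_eq_iff_mul_eq_one]
      ext y <;> rfl
    rw [h]
    simp [autS_apply, autU_apply]
  · show ((autS A) ((autU A) ((autS A)⁻¹ ((autU A) x)))).2 = x.2
    have h : (autS A)⁻¹ = autS A := by
      rw [inv_eq_iff_mul_eq_one]
      ext y <;> rfl
    rw [h]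
    simp [autS_apply, autU_apply]

theorem isPGroup_zpowers_of_pow {X : Type*} [Group X] (x : X) (q j : ℕ) (h : x ^ (q ^ j) = 1) :
    IsPGroup q (Subgroup.zpowers x) := by
  rintro ⟨y, hy⟩
  obtain ⟨k, rfl⟩ := Subgroup.mem_zpowers_iff.mp hy
  refine ⟨j, Subtype.ext ?_⟩
  show (x ^ k) ^ (q ^ j) = 1
  rw [← zpow_natCast, ← zpow_mul, mul_comm, zpow_mul, zpow_natCast, h, one_zpow]

theorem zpowers_le_normalizer_of_inverts {X : Type*} [Group X] (s u : X) (hs : s * s = 1)
    (hsu : s * u * s⁻¹ = u⁻¹) :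
    Subgroup.zpowers s ≤ Subgroup.normalizer (Subgroup.zpowers u : Set X) := by
  rw [Subgroup.zpowers_le, Subgroup.mem_normalizer_iff]
  have hfwd : ∀ h ∈ Subgroup.zpowers u, s * h * s⁻¹ ∈ Subgroup.zpowers u := by
    intro h hh
    obtain ⟨k, rfl⟩ := Subgroup.mem_zpowers_iff.mp hh
    have h1 : s * u ^ k * s⁻¹ = (u⁻¹) ^ k := by
      have h2 := map_zpow (MulAut.conj s) u k
      simp only [MulAut.conj_apply] at h2
      rw [h2, hsu]
    rw [h1]
    exact Subgroup.zpow_mem _ (Subgroup.inv_mem _ (Subgroup.mem_zpowers u)) k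
  intro h
  refine ⟨hfwd h, fun hh => ?_⟩
  have h1 := hfwd _ hh
  have hsinv : s⁻¹ = s := inv_eq_of_mul_eq_one_left hs
  have h2 : s * (s * h * s⁻¹) * s⁻¹ = h := by
    rw [hsinv]
    calc s * (s * h * s) * s = (s * s) * h * (s * s) := by group
      _ = h := by rw [hs, one_mul, mul_one]
  rwa [h2] at h1

/-- A group with a direct factor `Z/p^n × Z/p^n` (`n ≥ 1`) has a `p'`-group of automorphisms that
is not abelian of exponent dividing `p - 1`. -/
theorem exists_bad_pprime_of_homocyclic {G : Type*} [Group G] [Finite G] (p : ℕ)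
    [hp : Fact p.Prime] {n : ℕ} (hn : 0 < n) {H : Type} [CommGroup H]
    (ε : G ≃* (Multiplicative (ZMod (p ^ n)) × Multiplicative (ZMod (p ^ n))) × H) :
    ∃ K : Subgroup (MulAut G), (Nat.card K).Coprime p ∧
      ¬ ((∀ h ∈ K, ∀ h' ∈ K, h * h' = h' * h) ∧ ∀ h ∈ K, h ^ (p - 1) = 1) := by
  have hfact : Fact (1 < p ^ n) := ⟨Nat.one_lt_pow hn.ne' hp.out.one_lt⟩
  obtain ⟨g, hgdef⟩ : ∃ g : Multiplicative (ZMod (p ^ n)), g = Multiplicative.ofAdd 1 := ⟨_, rfl⟩
  have hg : g ≠ 1 := by
    intro h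
    rw [hgdef] at h
    have h1 : (1 : ZMod (p ^ n)) = 0 := congrArg Multiplicative.toAdd h
    exact one_ne_zero h1
  have hL := autLift_injective ε
  by_cases hp2 : p = 2
  · have hw1 : autW (Multiplicative (ZMod (p ^ n))) ≠ 1 := by
      intro h
      have h1 := congrArg
        (fun f : MulAut (Multiplicative (ZMod (p ^ n)) × Multiplicative (ZMod (p ^ n))) =>
          (f (g, 1)).2) h
      simp only [autW_apply, MulAut.one_apply, inv_one, mul_one] at h1
      exact hg h1
    have hLw1 : autLift ε (autW (Multiplicative (ZMod (p ^ n)))) ≠ 1 :=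
      fun h => hw1 (hL (h.trans (map_one (autLift ε)).symm))
    refine ⟨Subgroup.zpowers (autLift ε (autW (Multiplicative (ZMod (p ^ n))))), ?_, ?_⟩
    · have ho : orderOf (autLift ε (autW (Multiplicative (ZMod (p ^ n))))) = 3 := by
        have : Fact (Nat.Prime 3) := ⟨Nat.prime_three⟩
        refine orderOf_eq_prime ?_ hLw1
        rw [← map_pow, autW_pow_three, map_one]
      rw [Nat.card_zpowers, ho, hp2]
      decide
    · rintro ⟨-, hexp⟩
      have h1 := hexp _ (Subgroup.mem_zpowers _)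
      have h1' : p - 1 = 1 := by rw [hp2]
      rw [h1', pow_one] at h1
      exact hLw1 h1
  · refine ⟨(Subgroup.zpowers (autS (Multiplicative (ZMod (p ^ n)))) ⊔
        Subgroup.zpowers (autU (Multiplicative (ZMod (p ^ n))))).map (autLift ε), ?_, ?_⟩
    · rw [Subgroup.card_map_of_injective hL]
      have hS2 : IsPGroup 2 (Subgroup.zpowers (autS (Multiplicative (ZMod (p ^ n))))) :=
        isPGroup_zpowers_of_pow _ 2 1 (by rw [pow_one]; exact autS_sq _)
      have hU2 : IsPGroup 2 (Subgroup.zpowers (autU (Multiplicative (ZMod (p ^ n))))) :=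
        isPGroup_zpowers_of_pow _ 2 2 (autU_pow_four _)
      have hnorm := zpowers_le_normalizer_of_inverts (autS (Multiplicative (ZMod (p ^ n))))
        (autU (Multiplicative (ZMod (p ^ n))))
        (by rw [← pow_two]; exact autS_sq _) (autS_conj_autU _)
      have h2 := IsPGroup.to_sup_of_normal_right' hS2 hU2 hnorm
      obtain ⟨k, hk⟩ := IsPGroup.iff_card.mp h2
      rw [hk]
      exact Nat.Coprime.pow_left _ ((Nat.coprime_primes Nat.prime_two hp.out).mpr (Ne.symm hp2))
    · rintro ⟨hcomm, -⟩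
      have h1 := hcomm (autLift ε (autS (Multiplicative (ZMod (p ^ n)))))
        ⟨_, Subgroup.mem_sup_left (Subgroup.mem_zpowers _), rfl⟩
        (autLift ε (autU (Multiplicative (ZMod (p ^ n)))))
        ⟨_, Subgroup.mem_sup_right (Subgroup.mem_zpowers _), rfl⟩
      rw [← map_mul, ← map_mul] at h1
      have h2 := hL h1
      have h3 := congrArg
        (fun f : MulAut (Multiplicative (ZMod (p ^ n)) × Multiplicative (ZMod (p ^ n))) =>
          (f (g, 1)).1) h2
      simp only [MulAut.mul_apply, autS_apply, autU_apply, inv_one] at h3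
      rw [hgdef] at h3
      have h4 : (1 : ZMod (p ^ n)) = -1 := congrArg Multiplicative.toAdd h3
      have h5 : ((2 : ℕ) : ZMod (p ^ n)) = 0 := by
        have h6 : (1 : ZMod (p ^ n)) + 1 = 0 := by
          nth_rewrite 2 [h4]
          exact add_neg_cancel 1
        rw [← h6]
        norm_num
      rw [ZMod.natCast_eq_zero_iff] at h5
      have h7 : p ∣ 2 := dvd_trans (dvd_pow_self p hn.ne') h5
      exact hp2 ((Nat.prime_dvd_prime_iff_eq hp.out Nat.prime_two).mp h7)

end Homocyclic

end Cfsg.Agent.Lib.Helper90
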